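import Cfsg.Agent.Lib.H09.CentralEngine

/-! Strong fusion control with a central functor. -/

set_option autoImplicit false
set_option linter.unusedSectionVars false
set_option linter.unusedVariables false

namespace Cfsg.Agent.H09

open Cfsg

variable {G : Type*} [Group G]

set_option quotPrecheck false in
local notation:max "𝐍" T:max => Subgroup.normalizer ((T : Subgroup G) : Set G)
set_option quotPrecheck false in
local notation:65 T:66 " ⋆ " g:66 => Subgroup.map (MulAut.conj g).toMonoidHom T
set_option quotPrecheck false in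
local notation:max "𝐂" T:max => Subgroup.centralizer ((T : Subgroup G) : Set G)
set_option quotPrecheck false in
local notation:max "𝐙" T:max => ((T : Subgroup G) ⊓ Subgroup.centralizer ((T : Subgroup G) : Set G))

/-- Steps in two subgroups. -/
def TStep (N₁ N₂ S : Subgroup G) (B : Set G) (y : G) : Prop :=
  B ⊆ S ∧ cjs y B ⊆ S ∧ (y ∈ N₁ ∨ y ∈ N₂)

theorem tStep_sys (N₁ N₂ S : Subgroup G) : StepSys (TStep N₁ N₂ S) where
  res := by
    rintro A B y hBA ⟨h1, h2, h3⟩
    exact ⟨hBA.trans h1, (cjs_mono hBA y).trans h2, h3⟩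
  inv := by
    rintro A y ⟨h1, h2, h3⟩
    refine ⟨h2, ?_, ?_⟩
    · rw [cjs_inv_cjs]
      exact h1
    · rcases h3 with h3 | h3
      · exact Or.inl (Subgroup.inv_mem _ h3)
      · exact Or.inr (Subgroup.inv_mem _ h3)

/-- image of a set under the conjugation by a partial product -/
def partialIm (L : List G) (k : ℕ) (A : Set G) : Set G :=
  (fun t => ((L.take k).prod)⁻¹ * t * (L.take k).prod) '' A

/-- from a list to a control -/
theorem ctl_of_list {Ctl : Set G → G → Prop} (hC : CtlSys Ctl) (hone : ∀ B : Set G, Ctl B 1)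
    {R : Subgroup G} {P : G → Prop}
    (hstep : ∀ y, P y → ∀ B : Set G, B ⊆ R → cjs y⁻¹ B ⊆ R → Ctl B y⁻¹) :
    ∀ (L : List G) (B : Set G), (∀ y ∈ L, P y) → (∀ k ≤ L.length, partialIm L k B ⊆ R) →
      Ctl B (L.prod)⁻¹ := by
  intro L
  induction L with
  | nil =>
    intro B _ _
    simpa using hone B
  | cons y L ih =>
    intro B hP him
    have h0 : B ⊆ R := by
      have := him 0 (by simp)
      simpa [partialIm] using this
    have h1 : cjs y⁻¹ B ⊆ R := by
      have := him 1 (by simp)
      simpa [partialIm, cjs] using this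
    have hy := hstep y (hP y (by simp)) B h0 h1
    have hih := ih (cjs y⁻¹ B) (fun z hz => hP z (by simp [hz])) (by
      intro k hk
      have h2 := him (k + 1) (by simp; omega)
      intro t ht
      obtain ⟨_, ⟨b, hb, rfl⟩, rfl⟩ := ht
      apply h2
      refine ⟨b, hb, ?_⟩
      simp only [List.take_succ_cons, List.prod_cons, mul_inv_rev]
      group)
    have h3 := hC.comp hy hih
    have e : (L.prod)⁻¹ * y⁻¹ = ((y :: L).prod)⁻¹ := by simp
    rwa [e] at h3

/-- from a chain to a list -/
theorem list_of_chain {N₁ N₂ S : Subgroup G} {A : Set G} {c : G} (hA : A ⊆ S)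
    (hc : Chain (TStep N₁ N₂ S) A c) :
    ∃ L : List G, c = (L.prod)⁻¹ ∧ (∀ y ∈ L, y ∈ N₁ ∨ y ∈ N₂) ∧
      ∀ k ≤ L.length, partialIm L k A ⊆ S := by
  induction hc with
  | nil =>
    refine ⟨[], by simp, by simp, ?_⟩
    intro k hk
    simpa [partialIm] using hA
  | @snoc c y _ hy ih =>
    obtain ⟨L, rfl, hL, him⟩ := ih
    refine ⟨L ++ [y⁻¹], by simp, ?_, ?_⟩
    · intro z hz
      rcases List.mem_append.1 hz with hz | hz
      · exact hL z hz
      · rw [List.mem_singleton] at hz
        subst hz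
        rcases hy.2.2 with h | h
        · exact Or.inl (Subgroup.inv_mem _ h)
        · exact Or.inr (Subgroup.inv_mem _ h)
    · intro k hk
      by_cases hk' : k ≤ L.length
      · have := him k hk'
        have e : (L ++ [y⁻¹]).take k = L.take k := List.take_append_of_le_length hk'
        simpa [partialIm, e] using this
      · have hk2 : k = L.length + 1 := by
          simp only [List.length_append, List.length_singleton] at hk
          omega
        subst hk2
        have h2 := hy.2.1
        have e : (L ++ [y⁻¹]).take (L.length + 1) = L ++ [y⁻¹] := by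
          apply List.take_of_length_le
          simp
        intro t ht
        obtain ⟨a, ha, rfl⟩ := ht
        apply h2
        refine ⟨L.prod⁻¹ * a * L.prod, ⟨a, ha, ?_⟩, ?_⟩
        · simp
        · simp only [e, List.prod_append, List.prod_singleton, mul_inv_rev, inv_inv]
          group

section main

variable [Finite G] {p : ℕ} [hp : Fact p.Prime]

/-- Data of a Sylow of `N(H)` transported to `N(T)`. -/
theorem transport_sylow (S : Sylow p G) {T H Q : Subgroup G} {g₀ : G} (hTH : (T ⋆ g₀) = H)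
    (hT : ¬ p ∣ ((S : Subgroup G) ⊓ 𝐍 T).relIndex (𝐍 T))
    (hQN : Q ≤ 𝐍 H) (hQp : IsPGroup p Q) (hQi : ¬ p ∣ Q.relIndex (𝐍 H)) :
    ∃ u : G, (Q ⋆ u) = (S : Subgroup G) ⊓ 𝐍 T ∧ (H ⋆ u) = T := by
  have hNH : 𝐍 H = (𝐍 T ⋆ g₀) := by rw [← hTH, normalizer_map_conj]
  have hQ' : (Q ⋆ g₀⁻¹) ≤ 𝐍 T := by
    have := map_conj_mono hQN g₀⁻¹
    rwa [hNH, map_conj_inv_cancel] at this
  have hQ'i : ¬ p ∣ (Q ⋆ g₀⁻¹).relIndex (𝐍 T) := by
    have := not_dvd_relIndex_map_conj (p := p) g₀⁻¹ hQi
    rwa [hNH, map_conj_inv_cancel] at this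
  obtain ⟨v, hv, hvR⟩ := exists_conj_eq_of_sylows hQ' (isPGroup_map_conj hQp _) hQ'i
    (inf_le_right : (S : Subgroup G) ⊓ 𝐍 T ≤ 𝐍 T) (S.isPGroup'.to_le inf_le_left) hT
  refine ⟨v * g₀⁻¹, ?_, ?_⟩
  · rw [map_conj_mul]
    exact hvR
  · rw [map_conj_mul, ← hTH, map_conj_inv_cancel, map_conj_eq_of_mem_normalizer hv]

end main

end Cfsg.Agent.H09
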