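import Cfsg.Agent.Lib.H09.Focal
import Cfsg.Agent.Lib.H09.Reduce

/-! Control through subgroups containing the centre of a Sylow subgroup. -/

set_option autoImplicit false
set_option linter.unusedSectionVars false
set_option linter.unusedVariables false

namespace Cfsg.Agent.H09

open Cfsg

variable {G : Type*} [Group G]

set_option quotPrecheck false in
local notation:max "𝐍" T:max => Subgroup.normalizer ((T : Subgroup G) : Set G)
set_option quotPrecheck false in
local notation:65 T:66 " ⋆ " g:66 => Subgroup.map (MulAut.conj g).toMonoidHom T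
set_option quotPrecheck false in
local notation:max "𝐙" T:max => ((T : Subgroup G) ⊓ Subgroup.centralizer ((T : Subgroup G) : Set G))

section Engine

variable [Finite G] {p : ℕ} [Fact p.Prime] (S : Sylow p G) {Ctl : Set G → G → Prop}

/-- fully normalized members of the Sylow subgroup -/
def fnFamily (S : Sylow p G) : Set (Subgroup G) :=
  {T | T ≤ (S : Subgroup G) ∧ ¬ p ∣ ((S : Subgroup G) ⊓ 𝐍 T).relIndex (𝐍 T)}

/-- the members with a conjugate containing the centre -/
def hhFamily (S : Sylow p G) : Set (Subgroup G) :=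
  {T | T ∈ fnFamily S ∧ ∃ g : G, 𝐙 (S : Subgroup G) ≤ (T ⋆ g) ∧ (T ⋆ g) ≤ (S : Subgroup G)}

/-- Conjugation of a non-centric fully normalized subgroup by an element of its normalizer. -/
theorem engine_noncentric (hC : CtlSys Ctl) (hcent : ∀ (A : Set G) (g : G), (∀ a ∈ A, g * a * g⁻¹ = a) → Ctl A g)
    {U : Subgroup G} (hU : U ∈ fnFamily S) (hZ : ¬ 𝐙 (S : Subgroup G) ≤ U) {w : G} (hw : w ∈ 𝐍 U)
    (hbig : ∀ Q' : Subgroup G, Q' ≤ S → Q' ≠ ⊥ → Nat.card U < Nat.card Q' →
      ∀ g' : G, (Q' ⋆ g') ≤ S → Ctl (Q' : Set G) g') : Ctl (U : Set G) w := by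
  have hUS : U ≤ (S : Subgroup G) := hU.1
  set CU : Subgroup G := Subgroup.centralizer (U : Set G) with hCU
  have hCN : CU ≤ 𝐍 U := Subgroup.centralizer_le_normalizer _
  set C₀ : Subgroup G := (S : Subgroup G) ⊓ CU with hC₀
  have hC₀p : IsPGroup p C₀ := S.isPGroup'.to_le inf_le_left
  have hC₀CU : C₀ ≤ CU := inf_le_right
  have hCUn : 𝐍 U ≤ 𝐍 CU := by
    intro n hn
    refine mem_normalizer_of_map_conj_eq ?_
    apply le_antisymm
    · rw [map_conj_le_iff]
      intro c hc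
      rw [hCU, Subgroup.mem_centralizer_iff]
      intro u hu
      have h1 : n⁻¹ * u * n ∈ U := by
        have := (Subgroup.mem_normalizer_iff'.1 (Subgroup.inv_mem _ hn) u)
        rw [Subgroup.mem_normalizer_iff] at hn
        have h2 := (hn (n⁻¹ * u * n)).2
        apply (hn (n⁻¹ * u * n)).2
        have e : n * (n⁻¹ * u * n) * n⁻¹ = u := by group
        rw [e]
        exact hu
      have h3 := Subgroup.mem_centralizer_iff.1 hc _ h1
      calc u * (n * c * n⁻¹) = n * ((n⁻¹ * u * n) * c) * n⁻¹ := by group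
        _ = n * (c * (n⁻¹ * u * n)) * n⁻¹ := by rw [h3]
        _ = (n * c * n⁻¹) * u := by group
    · intro c hc
      rw [mem_map_conj, hCU, Subgroup.mem_centralizer_iff]
      intro u hu
      have h1 : n * u * n⁻¹ ∈ U := (Subgroup.mem_normalizer_iff.1 hn u).1 hu
      have h3 := Subgroup.mem_centralizer_iff.1 hc _ h1
      calc u * (n⁻¹ * c * n) = n⁻¹ * ((n * u * n⁻¹) * c) * n := by group
        _ = n⁻¹ * (c * (n * u * n⁻¹)) * n := by rw [h3]
        _ = (n⁻¹ * c * n) * u := by group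
  have hs : ¬ p ∣ C₀.relIndex CU := by
    have h1 : ¬ p ∣ (((S : Subgroup G) ⊓ 𝐍 U) ⊓ CU).relIndex CU :=
      not_dvd_relIndex_inf_of_normalizes inf_le_right (S.isPGroup'.to_le inf_le_left) hCN hCUn hU.2
    have h2 : ((S : Subgroup G) ⊓ 𝐍 U) ⊓ CU = C₀ := by
      rw [hC₀, inf_assoc, inf_eq_right.2 hCN]
    rwa [h2] at h1
  have hw1 : (C₀ ⋆ w) ≤ CU := by
    have := map_conj_mono hC₀CU w
    rwa [map_conj_eq_of_mem_normalizer (hCUn hw)] at this
  obtain ⟨c, hc, hle⟩ := exists_conj_le_of_not_dvd_relIndex (p := p) hC₀CU hC₀p hs hw1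
    (isPGroup_map_conj hC₀p w)
  set w' := c * w with hw'
  have hw'N : w' ∈ 𝐍 U := Subgroup.mul_mem _ (hCN hc) hw
  have hw'C : (C₀ ⋆ w') ≤ C₀ := by
    rw [hw', map_conj_mul]
    exact hle
  set E : Subgroup G := U ⊔ C₀ with hE
  have hES : E ≤ (S : Subgroup G) := sup_le hUS inf_le_left
  have hEw : (E ⋆ w') ≤ (S : Subgroup G) := by
    rw [hE, Subgroup.map_sup]
    refine sup_le ?_ (hw'C.trans inf_le_left)
    rw [map_conj_eq_of_mem_normalizer hw'N]
    exact hUS
  have hZC : 𝐙 (S : Subgroup G) ≤ C₀ := by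
    intro z hz
    refine Subgroup.mem_inf.2 ⟨(Subgroup.mem_inf.1 hz).1, ?_⟩
    rw [hCU, Subgroup.mem_centralizer_iff]
    intro u hu
    exact Subgroup.mem_centralizer_iff.1 (Subgroup.mem_inf.1 hz).2 u (hUS hu)
  have hlt : U < E := by
    refine lt_of_le_of_ne le_sup_left ?_
    intro h
    apply hZ
    rw [h]
    exact hZC.trans le_sup_right
  have hEne : E ≠ ⊥ := fun h => by
    rw [h] at hlt
    exact not_lt_bot hlt
  have h1 : Ctl (U : Set G) w' :=
    hC.res (le_sup_left : U ≤ E) (hbig E hES hEne (card_lt_of_lt' hlt) w' hEw)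
  have h2 : Ctl (cjs w' (U : Set G)) c⁻¹ := by
    rw [cjs_coe_of_mem_normalizer hw'N]
    refine hcent _ _ ?_
    intro a ha
    have := Subgroup.mem_centralizer_iff.1 (Subgroup.inv_mem _ hc) a ha
    rw [← this]
    group
  have h3 := hC.comp h1 h2
  have e : c⁻¹ * w' = w := by rw [hw']; group
  rwa [e] at h3

/-- Moving a subgroup to a member of the family. -/
theorem engine_p2_reduce' (hC : CtlSys Ctl) (n : ℕ)
    (hbig1 : ∀ Q' : Subgroup G, Q' ≤ S → Q' ≠ ⊥ → n < Nat.card Q' →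
      ∀ g' : G, (Q' ⋆ g') ≤ S → Ctl (Q' : Set G) g')
    (hbig2 : ∀ T ∈ hhFamily S, T ≠ ⊥ → n < Nat.card (((S : Subgroup G) ⊓ 𝐍 T : Subgroup G)) →
      ∀ x ∈ 𝐍 T, ∀ A : Set G, A ⊆ ((S : Subgroup G) ⊓ 𝐍 T : Subgroup G) →
        cjs x A ⊆ ((S : Subgroup G) ⊓ 𝐍 T : Subgroup G) → Ctl A x)
    {U : Subgroup G} (hUS : U ≤ S) (hUZ : 𝐙 (S : Subgroup G) ≤ U) (hUne : U ≠ ⊥)
    (hn : n < Nat.card (((S : Subgroup G) ⊓ 𝐍 U : Subgroup G)))
    {z : G} (hz : z ∈ 𝐍 U) {B : Set G} (hB : B ⊆ ((S : Subgroup G) ⊓ 𝐍 U : Subgroup G))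
    (hzB : cjs z B ⊆ ((S : Subgroup G) ⊓ 𝐍 U : Subgroup G)) : Ctl B z := by
  have h𝓣 : PlacedFamily p (S : Subgroup G) (fnFamily S) := placedFamily_fullyNormalized S
  obtain ⟨y0, hy0⟩ := h𝓣.conj U hUS
  set U' := (U ⋆ y0) with hU'
  set R1 : Subgroup G := (S : Subgroup G) ⊓ 𝐍 U with hR1
  have hX : (R1 ⋆ y0) ≤ 𝐍 U' := by
    rw [hU', normalizer_map_conj]
    exact Subgroup.map_mono inf_le_right
  have hXp : IsPGroup p (R1 ⋆ y0 : Subgroup G) :=
    isPGroup_map_conj (isPGroup_inf_left S _) y0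
  obtain ⟨v, hv, hvle⟩ := exists_conj_le_of_not_dvd_relIndex (p := p) inf_le_right
    (isPGroup_inf_left S _) (h𝓣.syl U' hy0) hX hXp
  set y := v * y0 with hy
  have hR1y : (R1 ⋆ y) ≤ (S : Subgroup G) ⊓ 𝐍 U' := by
    rw [hy, map_conj_mul]; exact hvle
  have hUy : (U ⋆ y) = U' := by
    rw [hy, map_conj_mul, map_conj_eq_of_mem_normalizer hv]
  have hR1ne : R1 ≠ ⊥ := by
    intro h
    apply hUne
    exact le_bot_iff.1 (h ▸ le_inf_normalizer hUS)
  have hc1 : Ctl (R1 : Set G) y := hbig1 R1 inf_le_left hR1ne hn y (hR1y.trans inf_le_left)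
  have hU'ne : U' ≠ ⊥ := by
    rw [hU']
    intro h
    apply hUne
    exact (Subgroup.map_eq_bot_iff_of_injective _ (MulAut.conj y0).injective).1 h
  have hcard : n < Nat.card (((S : Subgroup G) ⊓ 𝐍 U' : Subgroup G)) := by
    refine lt_of_lt_of_le hn ?_
    rw [← card_map_conj R1 y]
    exact Subgroup.card_le_of_le hR1y
  have hzz : y * z * y⁻¹ ∈ 𝐍 U' := by
    rw [← hUy, normalizer_map_conj]
    exact conj_mem_map y hz
  have hsub1 : cjs y B ⊆ ((S : Subgroup G) ⊓ 𝐍 U' : Subgroup G) := by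
    have := cjs_mono hB y
    rw [cjs_coe] at this
    exact this.trans hR1y
  have hsub2 : cjs y (cjs z B) ⊆ ((S : Subgroup G) ⊓ 𝐍 U' : Subgroup G) := by
    have := cjs_mono hzB y
    rw [cjs_coe] at this
    exact this.trans hR1y
  have hconj : cjs (y * z * y⁻¹) (cjs y B) = cjs y (cjs z B) := by
    rw [← cjs_mul, ← cjs_mul]
    congr 1
    group
  have hU'H : U' ∈ hhFamily S := by
    refine ⟨hy0, y0⁻¹, ?_, ?_⟩
    · rw [hU', map_conj_inv_cancel]
      exact hUZ
    · rw [hU', map_conj_inv_cancel]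
      exact hUS
  have hc2 : Ctl (cjs y B) (y * z * y⁻¹) :=
    hbig2 U' hU'H hU'ne hcard _ hzz _ hsub1 (by rw [hconj]; exact hsub2)
  have hc3 : Ctl B y := hC.res hB hc1
  have hc4 : Ctl (cjs z B) y := hC.res hzB hc1
  have hc5 : Ctl (cjs y (cjs z B)) y⁻¹ := hC.inv hc4
  have h12 : Ctl B ((y * z * y⁻¹) * y) := hC.comp hc3 hc2
  have him : cjs ((y * z * y⁻¹) * y) B = cjs y (cjs z B) := by
    rw [cjs_mul, hconj]
  have h123 := hC.comp h12 (by rw [him]; exact hc5)
  convert h123 using 1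
  group

/-- The main engine. -/
theorem engine_central (hC : CtlSys Ctl)
    (hcent : ∀ (A : Set G) (g : G), (∀ a ∈ A, g * a * g⁻¹ = a) → Ctl A g)
    {W : Subgroup G → Subgroup G} (hW : IsConjugacyFunctor p W)
    (hWZ : ∀ H : Subgroup G, IsPGroup p H → 𝐙 H ≤ W H)
    (hbase : ∀ z ∈ 𝐍 (W S), ∀ B : Set G, B ⊆ (S : Subgroup G) →
      cjs z B ⊆ (S : Subgroup G) → Ctl B z)
    (hloc : ∀ T ∈ hhFamily S, T ≠ ⊥ →
      (∀ z ∈ 𝐍 T ⊓ 𝐍 (W ((S : Subgroup G) ⊓ 𝐍 T)), ∀ B : Set G,
        B ⊆ ((S : Subgroup G) ⊓ 𝐍 T : Subgroup G) →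
        cjs z B ⊆ ((S : Subgroup G) ⊓ 𝐍 T : Subgroup G) → Ctl B z) →
      ∀ x ∈ 𝐍 T, ∀ A : Set G, A ⊆ ((S : Subgroup G) ⊓ 𝐍 T : Subgroup G) →
        cjs x A ⊆ ((S : Subgroup G) ⊓ 𝐍 T : Subgroup G) → Ctl A x) :
    ∀ (A : Set G) (g : G), A ⊆ (S : Subgroup G) → cjs g A ⊆ (S : Subgroup G) → Ctl A g := by
  have hS := S.isPGroup'
  have h𝓣 : PlacedFamily p (S : Subgroup G) (fnFamily S) := placedFamily_fullyNormalized S
  have key : ∀ d n : ℕ, Nat.card (S : Subgroup G) < n + d →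
      (∀ Q : Subgroup G, Q ≤ S → Q ≠ ⊥ → n ≤ Nat.card Q →
        ∀ g : G, (Q ⋆ g) ≤ S → Ctl (Q : Set G) g) ∧
      (∀ T ∈ hhFamily S, T ≠ ⊥ → n ≤ Nat.card (((S : Subgroup G) ⊓ 𝐍 T : Subgroup G)) →
        ∀ x ∈ 𝐍 T, ∀ A : Set G, A ⊆ ((S : Subgroup G) ⊓ 𝐍 T : Subgroup G) →
          cjs x A ⊆ ((S : Subgroup G) ⊓ 𝐍 T : Subgroup G) → Ctl A x) := by
    intro d
    induction d with
    | zero =>
      intro n hn
      simp only [add_zero] at hn
      constructor
      · intro Q hQ _ hnQ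
        exact absurd (Subgroup.card_le_of_le hQ) (by omega)
      · intro T _ _ hnT
        exact absurd (Subgroup.card_le_of_le (inf_le_left : (S : Subgroup G) ⊓ 𝐍 T ≤ S))
          (by omega)
    | succ d ih =>
      intro n hn
      obtain ⟨ih1, ih2⟩ := ih (n + 1) (by omega)
      have hP2 : ∀ T ∈ hhFamily S, T ≠ ⊥ → n ≤ Nat.card (((S : Subgroup G) ⊓ 𝐍 T : Subgroup G)) →
          ∀ x ∈ 𝐍 T, ∀ A : Set G, A ⊆ ((S : Subgroup G) ⊓ 𝐍 T : Subgroup G) →
            cjs x A ⊆ ((S : Subgroup G) ⊓ 𝐍 T : Subgroup G) → Ctl A x := by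
        intro T hT hTne hcard
        rcases Nat.lt_or_ge n (Nat.card (((S : Subgroup G) ⊓ 𝐍 T : Subgroup G))) with hlt | hge
        · exact ih2 T hT hTne hlt
        have hcard' : Nat.card (((S : Subgroup G) ⊓ 𝐍 T : Subgroup G)) = n := le_antisymm hge hcard
        refine hloc T hT hTne ?_
        intro z hz B hB hzB
        set R : Subgroup G := (S : Subgroup G) ⊓ 𝐍 T with hR
        have hRp : IsPGroup p R := isPGroup_inf_left S _
        rcases eq_or_lt_of_le (inf_le_left : R ≤ S) with hRS | hRS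
        · -- `R = S`
          have hRS' : R = S := hRS
          have hz2 := (Subgroup.mem_inf.1 hz).2
          rw [hRS'] at hB hzB hz2
          exact hbase z hz2 B hB hzB
        · -- `R < S`
          set U : Subgroup G := W R with hU
          have hfun := hW R hRp
          have hTS : T ≤ (S : Subgroup G) := hT.1.1
          have hTR : T ≤ R := le_inf_normalizer hTS
          have hRne : R ≠ ⊥ := fun h => hTne (le_bot_iff.1 (h ▸ hTR))
          have hUne : U ≠ ⊥ := hfun.2.1 hRne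
          have hUS : U ≤ S := hfun.1.trans inf_le_left
          have hNN : 𝐍 R ≤ 𝐍 U := inf_normalizer_le_functor hW hRp
          have hRle : (S : Subgroup G) ⊓ 𝐍 R ≤ (S : Subgroup G) ⊓ 𝐍 U :=
            inf_le_inf_left _ hNN
          have hlt : R < (S : Subgroup G) ⊓ 𝐍 U :=
            lt_of_lt_of_le (lt_inf_normalizer hS hRS) hRle
          have hnU : n < Nat.card (((S : Subgroup G) ⊓ 𝐍 U : Subgroup G)) := by
            rw [← hcard']
            exact card_lt_of_lt' hlt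
          -- `U` contains the centre of `S`
          have hZU : 𝐙 (S : Subgroup G) ≤ U := by
            refine le_trans ?_ (hWZ R hRp)
            intro c hc
            have hc1 := (Subgroup.mem_inf.1 hc).1
            have hc2 := (Subgroup.mem_inf.1 hc).2
            have hcR : c ∈ R := by
              refine Subgroup.mem_inf.2 ⟨hc1, ?_⟩
              exact (Subgroup.centralizer_le_normalizer _) (Subgroup.centralizer_le hTS hc2)
            refine Subgroup.mem_inf.2 ⟨hcR, ?_⟩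
            exact Subgroup.centralizer_le (inf_le_left : R ≤ _) hc2
          exact engine_p2_reduce' S hC n
            (fun Q' hQ' hQ'ne hlt' g' hg' => ih1 Q' hQ' hQ'ne hlt' g' hg')
            (fun T' hT' hT'ne hlt' => ih2 T' hT' hT'ne hlt')
            hUS hZU hUne hnU (Subgroup.mem_inf.1 hz).2 (hB.trans hlt.le) (hzB.trans hlt.le)
      refine ⟨?_, hP2⟩
      intro Q hQ hQne hnQ g hg
      rcases Nat.lt_or_ge n (Nat.card Q) with hlt | hge
      · exact ih1 Q hQ hQne hlt g hg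
      have hQn : Nat.card Q = n := le_antisymm hge hnQ
      refine engine_p1 S h𝓣 hC hQ hQne hg ?_ ?_
      · intro Q' hQ' hQ'ne hlt g' hg'
        exact ih1 Q' hQ' hQ'ne (by omega) g' hg'
      · intro U hU hUne hUcard w hw
        by_cases hZU : 𝐙 (S : Subgroup G) ≤ U
        · have hUH : U ∈ hhFamily S := by
            refine ⟨hU, 1, ?_, ?_⟩
            · rw [map_conj_one]; exact hZU
            · rw [map_conj_one]; exact hU.1
          refine hP2 U hUH hUne ?_ w hw _ (le_inf_normalizer hU.1) ?_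
          · rw [← hQn, ← hUcard]
            exact Subgroup.card_le_of_le (le_inf_normalizer hU.1)
          · rw [cjs_coe_of_mem_normalizer hw]
            exact le_inf_normalizer hU.1
        · refine engine_noncentric S hC hcent hU hZU hw ?_
          intro Q' hQ' hQ'ne hlt g' hg'
          exact ih1 Q' hQ' hQ'ne (by omega) g' hg'
  intro A g hA hgA
  set Q := Subgroup.closure A with hQ
  have hAQ : A ⊆ Q := Subgroup.subset_closure
  have hQS : Q ≤ S := (Subgroup.closure_le _).2 hA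
  have hQg : (Q ⋆ g) ≤ S := by
    rw [hQ, Subgroup.map_le_iff_le_comap, Subgroup.closure_le]
    intro a ha
    exact cjs_subset_coe_iff.1 hgA a ha
  by_cases hQne : Q = ⊥
  · refine hC.triv A g ?_
    intro a ha
    have := hAQ ha
    rw [hQne] at this
    simpa using this
  · exact hC.res hAQ ((key (Nat.card (S : Subgroup G) + 1) 0 (by omega)).1 Q hQS hQne (Nat.zero_le _) g hQg)

end Engine

end Cfsg.Agent.H09
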