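import Mathlib

/-! Conjugacy of square-zero self-adjoint maps with the same Gram data, from Witt's lemma. -/

set_option autoImplicit false

namespace Cfsg.Agent.H09.IW

open Module

variable {F : Type*} [Field F] {V : Type*} [AddCommGroup V] [Module F V] [FiniteDimensional F V]
  {σ : F →+* F} {B : V →ₛₗ[σ] V →ₗ[F] F} {ι : Type} [Fintype ι] [DecidableEq ι]
  {G : Matrix ι ι F}

/-- The formula for `N` in terms of the family `N e`. -/
theorem N_formula {N : V →ₗ[F] V} (hadj : ∀ u v, B (N u) v = B u (N v))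
    {e : ι → V} (hG : ∀ i j, B (e i) (N (e j)) = G i j) (hGG : G * G = 1)
    (hli : LinearIndependent F (fun i => N (e i)))
    (hr : finrank F (LinearMap.range N) = Fintype.card ι) (v : V) :
    N v = ∑ j, (∑ k, G j k * B (N (e k)) v) • N (e j) := by
  classical
  -- the family spans the range
  let f : ι → LinearMap.range N := fun i => ⟨N (e i), ⟨e i, rfl⟩⟩
  have hlif : LinearIndependent F f := by
    have h1 : (LinearMap.range N).subtype ∘ f = fun i => N (e i) := rfl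
    rw [← h1] at hli
    exact LinearIndependent.of_comp _ hli
  have hspan : Submodule.span F (Set.range f) = ⊤ :=
    hlif.span_eq_top_of_card_eq_finrank' (by rw [hr])
  have hv : (⟨N v, ⟨v, rfl⟩⟩ : LinearMap.range N) ∈ Submodule.span F (Set.range f) := by
    rw [hspan]
    trivial
  obtain ⟨c, hc⟩ := (Submodule.mem_span_range_iff_exists_fun F).1 hv
  have hc' : N v = ∑ i, c i • N (e i) := by
    have := congrArg Subtype.val hc
    simpa [f] using this.symm
  have hk : ∀ k, B (N (e k)) v = ∑ i, c i * G k i := by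
    intro k
    rw [hadj, hc', map_sum]
    refine Finset.sum_congr rfl (fun i _ => ?_)
    rw [map_smul, hG, smul_eq_mul]
  have hlam : ∀ j, ∑ k, G j k * B (N (e k)) v = c j := by
    intro j
    simp only [hk, Finset.mul_sum]
    rw [Finset.sum_comm]
    have h1 : ∀ i, ∑ k, G j k * (c i * G k i) = c i * (G * G) j i := by
      intro i
      rw [Matrix.mul_apply, Finset.mul_sum]
      refine Finset.sum_congr rfl (fun k _ => ?_)
      ring
    simp only [h1, hGG, Matrix.one_apply]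
    simp
  simp only [hlam]
  exact hc'

theorem isotropic_range {N : V →ₗ[F] V} (hadj : ∀ u v, B (N u) v = B u (N v))
    (hNN : ∀ v, N (N v) = 0) (u v : V) : B (N u) (N v) = 0 := by
  rw [hadj, hNN, map_zero]

theorem family_li {N : V →ₗ[F] V} {e : ι → V} (hG : ∀ i j, B (e i) (N (e j)) = G i j)
    (hGG : G * G = 1) : LinearIndependent F (fun i => N (e i)) := by
  classical
  rw [Fintype.linearIndependent_iff]
  intro c hc j
  have h1 : ∀ k, ∑ i, c i * G k i = 0 := by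
    intro k
    have h2 := congrArg (B (e k)) hc
    rw [map_sum, map_zero] at h2
    rw [← h2]
    refine Finset.sum_congr rfl (fun i _ => ?_)
    rw [map_smul, hG, smul_eq_mul]
  have h3 : ∑ k, G j k * (∑ i, c i * G k i) = 0 := by
    simp only [h1, mul_zero, Finset.sum_const_zero]
  simp only [Finset.mul_sum] at h3
  rw [Finset.sum_comm] at h3
  have h4 : ∀ i, ∑ k, G j k * (c i * G k i) = c i * (G * G) j i := by
    intro i
    rw [Matrix.mul_apply, Finset.mul_sum]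
    refine Finset.sum_congr rfl (fun k _ => ?_)
    ring
  simp only [h4, hGG, Matrix.one_apply] at h3
  simpa using h3

/-- Witt's lemma turns equal Gram data into conjugacy. -/
theorem conj_of_same_gram {N₁ N₂ : V →ₗ[F] V}
    (hadj₁ : ∀ u v, B (N₁ u) v = B u (N₁ v)) (hadj₂ : ∀ u v, B (N₂ u) v = B u (N₂ v))
    (hNN₁ : ∀ v, N₁ (N₁ v) = 0) (hNN₂ : ∀ v, N₂ (N₂ v) = 0)
    {e₁ e₂ : ι → V} (hG₁ : ∀ i j, B (e₁ i) (N₁ (e₁ j)) = G i j)
    (hG₂ : ∀ i j, B (e₂ i) (N₂ (e₂ j)) = G i j) (hGG : G * G = 1)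
    (hr₁ : finrank F (LinearMap.range N₁) = Fintype.card ι)
    (hr₂ : finrank F (LinearMap.range N₂) = Fintype.card ι)
    (hWitt : ∀ (X Y : Submodule F V) (φ : X ≃ₗ[F] Y),
      (∀ x x' : X, B (φ x : V) (φ x' : V) = B (x : V) (x' : V)) →
        ∃ g : V ≃ₗ[F] V, (∀ u v : V, B (g u) (g v) = B u v) ∧ ∀ x : X, g (x : V) = (φ x : V)) :
    ∃ g : V ≃ₗ[F] V, (∀ u v : V, B (g u) (g v) = B u v) ∧ ∀ v, g (N₁ v) = N₂ (g v) := by
  classical
  have hli₁ := family_li hG₁ hGG
  have hli₂ := family_li hG₂ hGG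
  let f₁ : ι → LinearMap.range N₁ := fun i => ⟨N₁ (e₁ i), ⟨e₁ i, rfl⟩⟩
  let f₂ : ι → LinearMap.range N₂ := fun i => ⟨N₂ (e₂ i), ⟨e₂ i, rfl⟩⟩
  have hlif₁ : LinearIndependent F f₁ := by
    have h1 : (LinearMap.range N₁).subtype ∘ f₁ = fun i => N₁ (e₁ i) := rfl
    rw [← h1] at hli₁
    exact LinearIndependent.of_comp _ hli₁
  have hlif₂ : LinearIndependent F f₂ := by
    have h1 : (LinearMap.range N₂).subtype ∘ f₂ = fun i => N₂ (e₂ i) := rfl
    rw [← h1] at hli₂
    exact LinearIndependent.of_comp _ hli₂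
  let b₁ : Basis ι F (LinearMap.range N₁) :=
    Basis.mk hlif₁ (hlif₁.span_eq_top_of_card_eq_finrank' (by rw [hr₁])).ge
  let b₂ : Basis ι F (LinearMap.range N₂) :=
    Basis.mk hlif₂ (hlif₂.span_eq_top_of_card_eq_finrank' (by rw [hr₂])).ge
  let φ : LinearMap.range N₁ ≃ₗ[F] LinearMap.range N₂ := b₁.equiv b₂ (Equiv.refl ι)
  have hφ : ∀ i, ((φ (f₁ i) : LinearMap.range N₂) : V) = N₂ (e₂ i) := by
    intro i
    have h1 : f₁ i = b₁ i := by simp [b₁]
    rw [h1]
    simp [φ, b₂, f₂]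
  obtain ⟨g, hg, hgφ⟩ := hWitt _ _ φ (by
    rintro ⟨_, u, rfl⟩ ⟨_, w, rfl⟩
    have hiso₁ := isotropic_range (B := B) hadj₁ hNN₁ u w
    obtain ⟨u', hu'⟩ := (φ ⟨N₁ u, ⟨u, rfl⟩⟩).2
    obtain ⟨w', hw'⟩ := (φ ⟨N₁ w, ⟨w, rfl⟩⟩).2
    rw [← hu', ← hw', hiso₁]
    exact isotropic_range hadj₂ hNN₂ u' w')
  have hgf : ∀ i, g (N₁ (e₁ i)) = N₂ (e₂ i) := by
    intro i
    have := hgφ (f₁ i)
    rw [hφ] at this
    exact this
  refine ⟨g, hg, ?_⟩
  intro v
  -- compare the two formulas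
  have h1 := N_formula hadj₁ hG₁ hGG hli₁ hr₁ v
  have h2 := N_formula hadj₂ hG₂ hGG hli₂ hr₂ (g v)
  rw [h1, h2, map_sum]
  refine Finset.sum_congr rfl (fun j _ => ?_)
  rw [map_smul, hgf]
  congr 1
  refine Finset.sum_congr rfl (fun k _ => ?_)
  rw [← hgf, hg]

end Cfsg.Agent.H09.IW
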