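import Mathlib
import Cfsg.Agent.Lib.H03.ODick
import Cfsg.Agent.Lib.H11.MTS3
import Cfsg.Agent.S0750

/-! Involutions in orthogonal groups in characteristic two. -/

set_option autoImplicit false

namespace Cfsg.Agent.H09.OI

open Cfsg Matrix QuadraticMap Module
open Cfsg.Agent.H03.OGen Cfsg.Agent.H03.ODick Cfsg.Agent.H11

variable {ι : Type} [Fintype ι] [DecidableEq ι] {F : Type*} [Field F] [Fintype F]

theorem neg_one_pow_eq_one_iff {k : ℕ} : ((-1 : ℤˣ)) ^ k = 1 ↔ Even k :=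
  neg_one_pow_eq_one_iff_even (by decide)

theorem mem_omega_iff_dick (h2 : (2 : F) = 0) (Q : QuadraticForm F (ι → F))
    (hQ : (polarBilin Q).Nondegenerate) (h : Nat.card F ≠ 2 ∨ Fintype.card ι ≠ 4)
    (g : ↥(isometryGroup F (⇑Q))) : g ∈ Omega F (⇑Q) ↔ dickHom h2 Q hQ h g = 1 := by
  constructor
  · intro hg
    have h3 : (commutator ↥(isometryGroup F (⇑Q))) ≤ (dickHom h2 Q hQ h).ker :=
      Abelianization.commutator_subset_ker _
    exact h3 hg
  · intro hd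
    obtain ⟨L, hL, hg⟩ := exists_list_of_isometry Q hQ h g
    have h3 : Cfsg.Agent.H03.ODick.dick Q g = (-1) ^ L.length := dick_of_list h2 Q hQ g L hL hg
    have h4 : Cfsg.Agent.H03.ODick.dick Q g = 1 := hd
    rw [h4] at h3
    have h5 : Even L.length := neg_one_pow_eq_one_iff.1 h3.symm
    exact mem_of_even_list Q (Omega F (⇑Q))
      (fun u v hu hv => refl_mul_refl_mem_even h2 Q hQ h hu hv) L hL h5 g hg

theorem rk_eq_rank (A : Matrix ι ι F) : rk A.mulVecLin = (A - 1).rank := by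
  show finrank F (LinearMap.range (A.mulVecLin - 1)) = finrank F (LinearMap.range (A - 1).mulVecLin)
  have e : A.mulVecLin - 1 = (A - 1).mulVecLin := by
    apply LinearMap.ext
    intro x
    simp [Matrix.sub_mulVec]
  rw [e]

theorem mem_omega_iff_rank (h2 : (2 : F) = 0) (Q : QuadraticForm F (ι → F))
    (hQ : (polarBilin Q).Nondegenerate) (h : Nat.card F ≠ 2 ∨ Fintype.card ι ≠ 4)
    (g : ↥(isometryGroup F (⇑Q))) :
    g ∈ Omega F (⇑Q) ↔ Even (((g : GL ι F) : Matrix ι ι F) - 1).rank := by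
  rw [mem_omega_iff_dick h2 Q hQ h]
  show Cfsg.Agent.H03.ODick.dick Q g = 1 ↔ _
  rw [Cfsg.Agent.H03.ODick.dick, rk_eq_rank, neg_one_pow_eq_one_iff]

section conj

variable [CharP F 2] (Q : QuadraticForm F (ι → F))

theorem sub_eq_add_vec (v w : ι → F) : v - w = v + w := by
  funext i
  exact CharTwo.sub_eq_add _ _

variable {Q} {t : Matrix ι ι F} (htt : t * t = 1) (hti : ∀ x, Q (t *ᵥ x) = Q x)

include htt in
theorem N_N (v : ι → F) : (t - 1) *ᵥ ((t - 1) *ᵥ v) = 0 := by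
  have h1 : (t - 1) * (t - 1) = (2 : F) • (1 - t) := by
    rw [mul_sub, sub_mul, sub_mul, htt, two_smul]
    simp only [mul_one, one_mul]
    abel
  rw [Matrix.mulVec_mulVec, h1, CharTwo.two_eq_zero, zero_smul, Matrix.zero_mulVec]

include htt hti in
theorem N_adj (u v : ι → F) : polar Q ((t - 1) *ᵥ u) v = polar Q u ((t - 1) *ᵥ v) := by
  have h1 : polar Q (t *ᵥ u) v = polar Q u (t *ᵥ v) := by
    have h2 := isom_polar Q t hti u (t *ᵥ v)
    rw [Matrix.mulVec_mulVec, htt, Matrix.one_mulVec] at h2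
    exact h2
  have e1 : (t - 1) *ᵥ u = t *ᵥ u - u := by rw [Matrix.sub_mulVec, Matrix.one_mulVec]
  have e2 : (t - 1) *ᵥ v = t *ᵥ v - v := by rw [Matrix.sub_mulVec, Matrix.one_mulVec]
  rw [e1, e2]
  have h3 : ∀ x y : ι → F, polar Q x y = polarBilin Q x y := fun _ _ => rfl
  simp only [h3, map_sub, LinearMap.sub_apply]
  simp only [← h3, h1]

include hti in
theorem Q_N (v : ι → F) : Q ((t - 1) *ᵥ v) = polar Q v ((t - 1) *ᵥ v) := by
  have e1 : (t - 1) *ᵥ v = t *ᵥ v - v := by rw [Matrix.sub_mulVec, Matrix.one_mulVec]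
  rw [e1, Q_sub, hti]
  have h3 : ∀ x y : ι → F, polar Q x y = polarBilin Q x y := fun _ _ => rfl
  rw [h3 v, map_sub, ← h3, ← h3, polar_self', CharTwo.two_eq_zero, zero_mul, sub_zero]
  rw [polar_comm]
  have h4 : Q v + Q v = 0 := CharTwo.add_self_eq_zero _
  rw [h4, zero_sub]
  exact CharTwo.neg_eq _

end conj

section witt

variable [CharP F 2] {Q : QuadraticForm F (ι → F)} (hQ : (polarBilin Q).Nondegenerate)

include hQ in
/-- If two involutive isometries are conjugate by a similitude preserving the polar form,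
they are conjugate by an isometry. -/
theorem exists_O_conj (t s : ↥(isometryGroup F (⇑Q))) (ht : t * t = 1) (hs : s * s = 1)
    (g : GL ι F)
    (hg : ∀ u v, polar Q ((g : Matrix ι ι F) *ᵥ u) ((g : Matrix ι ι F) *ᵥ v) = polar Q u v)
    (hc : g * (t : GL ι F) * g⁻¹ = (s : GL ι F)) :
    ∃ k : ↥(isometryGroup F (⇑Q)), k * t * k⁻¹ = s := by
  classical
  set A : Matrix ι ι F := ((t : GL ι F) : Matrix ι ι F) with hA
  set B : Matrix ι ι F := ((s : GL ι F) : Matrix ι ι F) with hB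
  set G : Matrix ι ι F := (g : Matrix ι ι F) with hG
  set G' : Matrix ι ι F := ((g⁻¹ : GL ι F) : Matrix ι ι F) with hG'
  have hGG' : G * G' = 1 := by
    rw [hG, hG']
    exact_mod_cast Units.mul_inv g
  have hG'G : G' * G = 1 := by
    rw [hG, hG']
    exact_mod_cast Units.inv_mul g
  have hAA : A * A = 1 := congrArg (fun x : ↥(isometryGroup F (⇑Q)) => ((x : GL ι F) : Matrix ι ι F)) ht
  have hBB : B * B = 1 := congrArg (fun x : ↥(isometryGroup F (⇑Q)) => ((x : GL ι F) : Matrix ι ι F)) hs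
  have hAi : ∀ x, Q (A *ᵥ x) = Q x := mem_isometryGroup_iff.1 t.2
  have hBi : ∀ x, Q (B *ᵥ x) = Q x := mem_isometryGroup_iff.1 s.2
  have hGAB : G * A = B * G := by
    have h1 : g * (t : GL ι F) = (s : GL ι F) * g := by
      rw [← hc]
      group
    exact congrArg (fun x : GL ι F => (x : Matrix ι ι F)) h1
  have hGN : ∀ w, G *ᵥ ((A - 1) *ᵥ w) = (B - 1) *ᵥ (G *ᵥ w) := by
    intro w
    rw [Matrix.mulVec_mulVec, Matrix.mulVec_mulVec, mul_sub, sub_mul, hGAB, mul_one, one_mul]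
  let e : (ι → F) ≃ₗ[F] (ι → F) := LinearEquiv.ofLinearMap G.mulVecLin G'.mulVecLin
    (by
      apply LinearMap.ext
      intro x
      simp [Matrix.mulVec_mulVec, hGG'])
    (by
      apply LinearMap.ext
      intro x
      simp [Matrix.mulVec_mulVec, hG'G])
  have he : ∀ x, e x = G *ᵥ x := fun x => rfl
  let Rt : Submodule F (ι → F) := LinearMap.range (A - 1).mulVecLin
  let Rs : Submodule F (ι → F) := LinearMap.range (B - 1).mulVecLin
  have hmap : Rt.map (e : (ι → F) →ₗ[F] (ι → F)) = Rs := by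
    ext x
    constructor
    · rintro ⟨_, ⟨w, rfl⟩, rfl⟩
      exact ⟨G *ᵥ w, (hGN w).symm⟩
    · rintro ⟨w, rfl⟩
      refine ⟨_, ⟨G' *ᵥ w, rfl⟩, ?_⟩
      show G *ᵥ ((A - 1) *ᵥ (G' *ᵥ w)) = (B - 1) *ᵥ w
      have h1 : G *ᵥ (G' *ᵥ w) = w := by rw [Matrix.mulVec_mulVec, hGG', Matrix.one_mulVec]
      rw [hGN, h1]
  let φ : Rt ≃ₗ[F] Rs := (e.submoduleMap Rt).trans (LinearEquiv.ofEq _ _ hmap)
  have hφv : ∀ x : Rt, ((φ x : Rs) : ι → F) = G *ᵥ (x : ι → F) := fun x => rfl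
  have hφ : ∀ x : Rt, Q ((φ x : Rs) : ι → F) = Q (x : ι → F) := by
    rintro ⟨_, w, rfl⟩
    rw [hφv]
    show Q (G *ᵥ ((A - 1) *ᵥ w)) = Q ((A - 1) *ᵥ w)
    rw [hGN, Q_N hBi, ← hGN, hg, ← Q_N hAi]
  obtain ⟨g₁, hg₁, hg₁φ⟩ := Cfsg.Agent.S0750.result Q hQ Rt Rs φ hφ
  have hg₁N : ∀ w, g₁ ((A - 1) *ᵥ w) = G *ᵥ ((A - 1) *ᵥ w) := fun w =>
    hg₁φ ⟨(A - 1) *ᵥ w, ⟨w, rfl⟩⟩
  have hg₁pol : ∀ u v, polar Q (g₁ u) (g₁ v) = polar Q u v := by
    intro u v
    simp only [polar]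
    rw [← map_add, hg₁, hg₁, hg₁]
  let K : Matrix ι ι F := LinearMap.toMatrix' (g₁ : (ι → F) →ₗ[F] (ι → F))
  let K' : Matrix ι ι F := LinearMap.toMatrix' (g₁.symm : (ι → F) →ₗ[F] (ι → F))
  have hK : ∀ v, K *ᵥ v = g₁ v := fun v => by
    simp [K, LinearMap.toMatrix'_mulVec]
  have hK' : ∀ v, K' *ᵥ v = g₁.symm v := fun v => by
    simp [K', LinearMap.toMatrix'_mulVec]
  have hKK' : K * K' = 1 := by
    apply mat_ext_mulVec
    intro v
    rw [← Matrix.mulVec_mulVec, hK', hK, Matrix.one_mulVec]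
    simp
  have hK'K : K' * K = 1 := by
    apply mat_ext_mulVec
    intro v
    rw [← Matrix.mulVec_mulVec, hK, hK', Matrix.one_mulVec]
    simp
  let kGL : GL ι F := ⟨K, K', hKK', hK'K⟩
  have hkmem : kGL ∈ isometryGroup F (⇑Q) := mem_isometryGroup_iff.2 (fun x => by
    show Q (K *ᵥ x) = Q x
    rw [hK, hg₁])
  let k : ↥(isometryGroup F (⇑Q)) := ⟨kGL, hkmem⟩
  refine ⟨k, ?_⟩
  rw [mul_inv_eq_iff_eq_mul]
  apply Subtype.ext
  apply Units.ext
  show K * A = B * K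
  apply mat_ext_mulVec
  intro v
  rw [← Matrix.mulVec_mulVec, ← Matrix.mulVec_mulVec, hK, hK]
  -- `g₁ v - G v` is killed by `B - 1`
  have hkill : (B - 1) *ᵥ (g₁ v - G *ᵥ v) = 0 := by
    refine hQ.1 _ ?_
    intro z
    show polar Q _ z = 0
    rw [N_adj hBB hBi]
    have hz : z = G *ᵥ (G' *ᵥ z) := by
      rw [Matrix.mulVec_mulVec, hGG', Matrix.one_mulVec]
    rw [hz, ← hGN]
    set w := G' *ᵥ z
    have h3 : ∀ x y : ι → F, polar Q x y = polarBilin Q x y := fun _ _ => rfl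
    rw [h3, map_sub, LinearMap.sub_apply, ← h3, ← h3, hg _ _, ← hg₁N, hg₁pol]
    simp
  have h5 : (B - 1) *ᵥ (g₁ v) = (B - 1) *ᵥ (G *ᵥ v) := by
    rw [Matrix.mulVec_sub] at hkill
    exact sub_eq_zero.1 hkill
  have h6 : (B - 1) *ᵥ (g₁ v) = g₁ ((A - 1) *ᵥ v) := by
    rw [h5, hg₁N, hGN]
  rw [Matrix.sub_mulVec, Matrix.sub_mulVec, Matrix.one_mulVec, Matrix.one_mulVec, map_sub] at h6
  exact (sub_left_inj.1 h6).symm

theorem polar_coe (Q : QuadraticForm F (ι → F)) (u v : ι → F) :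
    polar Q u v = Q (u + v) - Q u - Q v := rfl

include hQ in
theorem O_conj_iff {q : (ι → F) → F} (hq : ⇑Q = q) (t s : ↥(isometryGroup F q))
    (ht : orderOf t = 2) (hs : orderOf s = 2) :
    IsConj t s ↔ ∃ g ∈ preserving (Units.coeHom (Matrix ι ι F)) (fun u v => q (u + v) - q u - q v),
      g * ((t : ↥(isometryGroup F q)) : GL ι F) * g⁻¹ = ((s : ↥(isometryGroup F q)) : GL ι F) := by
  subst hq
  constructor
  · intro h
    obtain ⟨c, hc⟩ := isConj_iff.1 h
    refine ⟨c, ?_, congrArg Subtype.val hc⟩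
    intro u v
    have h1 : ∀ x, Q (((c : GL ι F) : Matrix ι ι F) *ᵥ x) = Q x := mem_isometryGroup_iff.1 c.2
    show Q (((c : GL ι F) : Matrix ι ι F) *ᵥ u + ((c : GL ι F) : Matrix ι ι F) *ᵥ v) -
      Q (((c : GL ι F) : Matrix ι ι F) *ᵥ u) - Q (((c : GL ι F) : Matrix ι ι F) *ᵥ v) = _
    rw [← Matrix.mulVec_add, h1, h1, h1]
  · rintro ⟨g, hg, hc⟩
    have ht2 : t * t = 1 := by rw [← pow_two, ← ht, pow_orderOf_eq_one]
    have hs2 : s * s = 1 := by rw [← pow_two, ← hs, pow_orderOf_eq_one]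
    obtain ⟨k, hk⟩ := exists_O_conj hQ t s ht2 hs2 g (fun u v => hg u v) hc
    exact isConj_iff.2 ⟨k, hk⟩

end witt

section omega

variable [CharP F 2] {Q : QuadraticForm F (ι → F)} (hQ : (polarBilin Q).Nondegenerate)
  (h : Nat.card F ≠ 2 ∨ Fintype.card ι ≠ 4)

include hQ h in
theorem exists_omega_conj_of_fixed (t s g : ↥(isometryGroup F (⇑Q))) (hg : g * t * g⁻¹ = s)
    {v : ι → F} (hv : Q v ≠ 0) (htv : ((t : GL ι F) : Matrix ι ι F) *ᵥ v = v) :
    ∃ k ∈ Omega F (⇑Q), k * t * k⁻¹ = s := by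
  have h2 : (2 : F) = 0 := CharTwo.two_eq_zero
  by_cases hgO : g ∈ Omega F (⇑Q)
  · exact ⟨g, hgO, hg⟩
  · have hcomm : t * refl Q v hv = refl Q v hv * t := by
      have hv' : Q (((t : GL ι F) : Matrix ι ι F) *ᵥ v) ≠ 0 := by rwa [htv]
      have h3 := conj_refl Q t v hv hv'
      have h4 : refl Q (((t : GL ι F) : Matrix ι ι F) *ᵥ v) hv' = refl Q v hv :=
        refl_congr Q hv' hv (by rw [htv])
      rw [h4] at h3
      calc t * refl Q v hv = (t * refl Q v hv * t⁻¹) * t := by group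
        _ = refl Q v hv * t := by rw [h3]
    refine ⟨g * refl Q v hv, ?_, ?_⟩
    · rw [mem_omega_iff_dick h2 Q hQ h, map_mul, dickHom_refl h2 Q hQ h v hv]
      rw [mem_omega_iff_dick h2 Q hQ h] at hgO
      rcases Int.units_eq_one_or (dickHom h2 Q hQ h g) with h5 | h5
      · exact absurd h5 hgO
      · rw [h5]
        decide
    · calc g * refl Q v hv * t * (g * refl Q v hv)⁻¹
          = g * (refl Q v hv * t * (refl Q v hv)⁻¹) * g⁻¹ := by group
        _ = g * t * g⁻¹ := by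
            rw [← hcomm]
            group
        _ = s := hg

/-- Singular fixed space forces the exceptional shape. -/
theorem exceptional_of_singular {m : ℕ} (hdim : Fintype.card ι = 2 * m) {t : Matrix ι ι F}
    (htt : t * t = 1) (hQ : (polarBilin Q).Nondegenerate)
    (hK : ∀ v, t *ᵥ v = v → Q v = 0) :
    (t - 1).rank = m ∧ ∀ v, Q (v + t *ᵥ v) = 0 := by
  classical
  let N : (ι → F) →ₗ[F] (ι → F) := (t - 1).mulVecLin
  let Kr := LinearMap.ker N
  let R := LinearMap.range N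
  have hRK : R ≤ Kr := by
    rintro _ ⟨v, rfl⟩
    exact N_N htt v
  have hmem : ∀ v, v ∈ Kr ↔ t *ᵥ v = v := by
    intro v
    show (t - 1) *ᵥ v = 0 ↔ _
    rw [Matrix.sub_mulVec, Matrix.one_mulVec, sub_eq_zero]
  have hKorth : Kr ≤ (Pb Q).orthogonal Kr := by
    intro u hu v hv
    show polar Q v u = 0
    rw [polar_coe, hK _ ((hmem _).1 (Kr.add_mem hv hu)), hK _ ((hmem _).1 hv),
      hK _ ((hmem _).1 hu)]
    simp
  have h1 := finrank_orth hdim hQ Kr
  have h2 := Submodule.finrank_mono hKorth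
  have h3 := Submodule.finrank_mono hRK
  have h4 := LinearMap.finrank_range_add_finrank_ker N
  rw [finrank_fintype_fun_eq_card, hdim] at h4
  constructor
  · show finrank F R = m
    have h5 : finrank F R + finrank F Kr = 2 * m := h4
    omega
  · intro v
    apply hK
    rw [Matrix.mulVec_add, Matrix.mulVec_mulVec, htt, Matrix.one_mulVec, add_comm]

include hQ h in
theorem omega_conj_iff_even {m : ℕ} (hdim : Fintype.card ι = 2 * m)
    (t s g₀ : ↥(isometryGroup F (⇑Q))) (hg₀ : g₀ * t * g₀⁻¹ = s) (htO : t ∈ Omega F (⇑Q))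
    (ht2 : t * t = 1) (hrank : (((t : GL ι F) : Matrix ι ι F) - 1).rank = m)
    (hsing : ∀ v, Q (v + ((t : GL ι F) : Matrix ι ι F) *ᵥ v) = 0) :
    (∃ k ∈ Omega F (⇑Q), k * t * k⁻¹ = s) ↔
      Even (finrank F ↥(LinearMap.range (Matrix.toLin' (((t : GL ι F) : Matrix ι ι F) - 1)) ⊓
        LinearMap.range (Matrix.toLin' (((s : GL ι F) : Matrix ι ι F) - 1)))) := by
  classical
  have h2 : (2 : F) = 0 := CharTwo.two_eq_zero
  set A : Matrix ι ι F := ((t : GL ι F) : Matrix ι ι F) with hA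
  set B : Matrix ι ι F := ((s : GL ι F) : Matrix ι ι F) with hB
  have hmeven : Even m := by
    rw [← hrank]
    exact (mem_omega_iff_rank h2 Q hQ h t).1 htO
  let U : Submodule F (ι → F) := LinearMap.range (Matrix.toLin' (A - 1))
  let W : Submodule F (ι → F) := LinearMap.range (Matrix.toLin' (B - 1))
  have hU : IsMTS Q m U := by
    refine ⟨?_, ?_⟩
    · rw [← hrank]
      rfl
    · rintro _ ⟨v, rfl⟩
      show Q ((A - 1) *ᵥ v) = 0
      rw [Matrix.sub_mulVec, Matrix.one_mulVec, sub_eq_add_vec, add_comm]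
      exact hsing v
  have hkey : ∀ g : ↥(isometryGroup F (⇑Q)), g * t * g⁻¹ = s →
      (g ∈ Omega F (⇑Q) ↔ Even (finrank F (U ⊓ W : Submodule F (ι → F)))) := by
    intro g hg
    obtain ⟨L, hL, hgL⟩ := exists_list_of_isometry Q hQ h g
    set G : Matrix ι ι F := ((g : GL ι F) : Matrix ι ι F) with hG
    have hGA : G * A = B * G := by
      have h1 : g * t = s * g := by
        rw [← hg]
        group
      exact congrArg (fun x : ↥(isometryGroup F (⇑Q)) => ((x : GL ι F) : Matrix ι ι F)) h1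
    have hGinv : ∃ G' : Matrix ι ι F, G * G' = 1 ∧ G' * G = 1 := by
      refine ⟨((g⁻¹ : ↥(isometryGroup F (⇑Q))) : GL ι F).val, ?_, ?_⟩
      · have := congrArg (fun x : ↥(isometryGroup F (⇑Q)) => ((x : GL ι F) : Matrix ι ι F))
          (mul_inv_cancel g)
        exact this
      · have := congrArg (fun x : ↥(isometryGroup F (⇑Q)) => ((x : GL ι F) : Matrix ι ι F))
          (inv_mul_cancel g)
        exact this
    obtain ⟨G', hGG', hG'G⟩ := hGinv
    have hGN : ∀ w, G *ᵥ ((A - 1) *ᵥ w) = (B - 1) *ᵥ (G *ᵥ w) := by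
      intro w
      rw [Matrix.mulVec_mulVec, Matrix.mulVec_mulVec, mul_sub, sub_mul, hGA, mul_one, one_mul]
    have hmap : U.map G.mulVecLin = W := by
      ext x
      constructor
      · rintro ⟨_, ⟨v, rfl⟩, rfl⟩
        refine ⟨G *ᵥ v, ?_⟩
        exact (hGN v).symm
      · rintro ⟨v, rfl⟩
        refine ⟨(A - 1) *ᵥ (G' *ᵥ v), ⟨G' *ᵥ v, rfl⟩, ?_⟩
        show G *ᵥ ((A - 1) *ᵥ (G' *ᵥ v)) = (B - 1) *ᵥ v
        have h1 : G *ᵥ (G' *ᵥ v) = v := by rw [Matrix.mulVec_mulVec, hGG', Matrix.one_mulVec]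
        rw [hGN, h1]
    have hpar := parity_list hdim hQ L hL hU hU
    have hprod : prodM Q L = G := hgL.symm
    rw [hprod, hmap, inf_idem, hU.card] at hpar
    have hd : Cfsg.Agent.H03.ODick.dick Q g = (-1) ^ L.length := dick_of_list h2 Q hQ g L hL hgL
    rw [mem_omega_iff_dick h2 Q hQ h]
    show Cfsg.Agent.H03.ODick.dick Q g = 1 ↔ _
    rw [hd, neg_one_pow_eq_one_iff, Nat.even_iff, Nat.even_iff]
    rw [Nat.even_iff] at hmeven
    omega
  constructor
  · rintro ⟨k, hk, hkc⟩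
    exact (hkey k hkc).1 hk
  · intro he
    exact ⟨g₀, (hkey g₀ hg₀).2 he, hg₀⟩

end omega

end Cfsg.Agent.H09.OI
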