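import Mathlib
import Cfsg.Agent.Lib.H09.OInv

/-! The minus form in characteristic two; wrappers over arbitrary presentations of the form. -/

set_option autoImplicit false

namespace Cfsg.Agent.H09.OI

open Cfsg Matrix QuadraticMap Module
open Cfsg.Agent.H03.OGen Cfsg.Agent.H03.ODick Cfsg.Agent.H11

variable {F : Type*} [Field F] [Fintype F] [CharP F 2]

theorem exists_sq_eq (d : F) : ∃ e : F, e * e = d := by
  haveI : Fact (Nat.Prime 2) := ⟨Nat.prime_two⟩
  have hinj : Function.Injective (frobenius F 2) := frobenius_inj F 2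
  obtain ⟨e, he⟩ := (Finite.injective_iff_surjective.1 hinj) d
  exact ⟨e, by rw [← he, frobenius_def, pow_two]⟩

theorem minus_ne_zero {a b : F} (hab : ∀ z₁ z₂ : F, z₁ ^ 2 + a * z₁ * z₂ + b * z₂ ^ 2 = 0 →
    z₁ = 0 ∧ z₂ = 0) : a ≠ 0 := by
  rintro rfl
  obtain ⟨e, he⟩ := exists_sq_eq b
  have h1 := hab e 1 (by
    rw [pow_two, he]
    simp only [zero_mul, add_zero, one_pow, mul_one]
    exact CharTwo.add_self_eq_zero _)
  exact one_ne_zero h1.2

theorem minus_nondeg_two (k : ℕ) (a b : F)
    (hab : ∀ z₁ z₂ : F, z₁ ^ 2 + a * z₁ * z₂ + b * z₂ ^ 2 = 0 → z₁ = 0 ∧ z₂ = 0) :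
    (QuadraticMap.polarBilin (minusForm k F a b)).Nondegenerate := by
  apply nondeg_of_left
  intro x h
  have H := minus_pairs (F := F) k a b
  have ha := minus_ne_zero hab
  have h2 : (2 : F) = 0 := CharTwo.two_eq_zero
  have h0 : a * x (Sum.inr 1) = 0 := by
    have := h (Pi.single (Sum.inr 0) 1)
    rw [minusForm_coe, polar_minus', h2] at this
    simpa [Pi.single_apply] using this
  have h1 : a * x (Sum.inr 0) = 0 := by
    have := h (Pi.single (Sum.inr 1) 1)
    rw [minusForm_coe, polar_minus', h2] at this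
    simpa [Pi.single_apply] using this
  have hz1 := (mul_eq_zero.1 h1).resolve_left ha
  have hz0 := (mul_eq_zero.1 h0).resolve_left ha
  funext i
  rcases i with (i | i) | i
  · have := h (Pi.single (Sum.inl (Sum.inr i)) 1)
    rw [QuadraticMap.polar_comm, H.pol_q] at this
    exact this
  · have := h (Pi.single (Sum.inl (Sum.inl i)) 1)
    rw [QuadraticMap.polar_comm, H.pol_p] at this
    exact this
  · fin_cases i
    · exact hz1
    · exact hz0

/-- The minus form has no totally singular subspace of dimension `k + 1`. -/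
theorem no_mts_minus (k : ℕ) (a b : F)
    (hab : ∀ z₁ z₂ : F, z₁ ^ 2 + a * z₁ * z₂ + b * z₂ ^ 2 = 0 → z₁ = 0 ∧ z₂ = 0)
    {W : Submodule F ((Fin k ⊕ Fin k) ⊕ Fin 2 → F)} (hW : IsMTS (minusForm k F a b) (k + 1) W) :
    False := by
  classical
  have hdim : Fintype.card ((Fin k ⊕ Fin k) ⊕ Fin 2) = 2 * (k + 1) := by
    simp [Fintype.card_sum]
    ring
  have hQ := minus_nondeg_two k a b hab
  let ι₀ : (Fin k → F) →ₗ[F] ((Fin k ⊕ Fin k) ⊕ Fin 2 → F) :=
    { toFun := fun f => Sum.elim (Sum.elim f 0) 0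
      map_add' := by
        intro f g
        funext i
        rcases i with (i | i) | i <;> simp
      map_smul' := by
        intro c f
        funext i
        rcases i with (i | i) | i <;> simp }
  have hinj : Function.Injective ι₀ := by
    intro f g hfg
    funext i
    exact congrFun hfg (Sum.inl (Sum.inl i))
  let M : Submodule F ((Fin k ⊕ Fin k) ⊕ Fin 2 → F) := LinearMap.range ι₀
  have hM : finrank F M = k := by
    rw [LinearMap.finrank_range_of_inj hinj]
    simp
  have h1 := finrank_inf_orth hdim hQ hW M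
  have hle : (W ⊓ (Pb (minusForm k F a b)).orthogonal M : Submodule F _) ≤ W ⊓ M := by
    rintro x ⟨hxW, hxM⟩
    refine ⟨hxW, ?_⟩
    have hy : ∀ i, x (Sum.inl (Sum.inr i)) = 0 := by
      intro i
      have h3 := hxM (Pi.single (Sum.inl (Sum.inl i)) 1) ⟨Pi.single i 1, by
        funext j
        rcases j with (j | j) | j <;> simp [ι₀, Pi.single_apply]⟩
      have H := minus_pairs (F := F) k a b
      have h4 := H.pol_p i x
      rw [← h4]
      exact h3
    have hQx := hW.sing x hxW
    rw [minusForm_apply] at hQx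
    simp only [quadFormMinus, hy, mul_zero, Finset.sum_const_zero, zero_add] at hQx
    have hz := hab _ _ hQx
    refine ⟨fun i => x (Sum.inl (Sum.inl i)), ?_⟩
    funext j
    rcases j with (j | j) | j
    · rfl
    · exact (hy j).symm
    · fin_cases j
      · exact hz.1.symm
      · exact hz.2.symm
  have h2 := Submodule.finrank_mono hle
  omega

section wrappers

variable {ι : Type} [Fintype ι] [DecidableEq ι] {Q : QuadraticForm F (ι → F)}
  (hQ : (polarBilin Q).Nondegenerate) (h : Nat.card F ≠ 2 ∨ Fintype.card ι ≠ 4)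

include hQ h in
theorem mem_omega_iff_rank' {q : (ι → F) → F} (hq : ⇑Q = q) (g : ↥(isometryGroup F q)) :
    g ∈ Omega F q ↔ Even (((g : GL ι F) : Matrix ι ι F) - 1).rank := by
  subst hq
  exact mem_omega_iff_rank CharTwo.two_eq_zero Q hQ h g

include hQ h in
/-- The generic no-splitting statement when there is no totally singular subspace of half
dimension. -/
theorem omega_conj_of_no_mts {m : ℕ} (hdim : Fintype.card ι = 2 * m)
    (hno : ∀ W : Submodule F (ι → F), IsMTS Q m W → False) {q : (ι → F) → F} (hq : ⇑Q = q)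
    (t s : ↥(isometryGroup F q)) (ht : orderOf t = 2) (hconj : IsConj t s) :
    ∃ g ∈ Omega F q, g * t * g⁻¹ = s := by
  subst hq
  obtain ⟨g, hg⟩ := isConj_iff.1 hconj
  have ht2 : t * t = 1 := by rw [← pow_two, ← ht, pow_orderOf_eq_one]
  have htt : ((t : GL ι F) : Matrix ι ι F) * ((t : GL ι F) : Matrix ι ι F) = 1 :=
    congrArg (fun x : ↥(isometryGroup F (⇑Q)) => ((x : GL ι F) : Matrix ι ι F)) ht2
  by_cases hex : ∀ v, ((t : GL ι F) : Matrix ι ι F) *ᵥ v = v → Q v = 0
  · exfalso
    obtain ⟨hr, hs⟩ := exceptional_of_singular hdim htt hQ hex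
    refine hno (LinearMap.range (((t : GL ι F) : Matrix ι ι F) - 1).mulVecLin) ⟨hr, ?_⟩
    rintro _ ⟨v, rfl⟩
    show Q ((((t : GL ι F) : Matrix ι ι F) - 1) *ᵥ v) = 0
    rw [Matrix.sub_mulVec, Matrix.one_mulVec, sub_eq_add_vec, add_comm]
    exact hs v
  · push Not at hex
    obtain ⟨v, htv, hv⟩ := hex
    exact exists_omega_conj_of_fixed hQ h t s g hg hv htv

end wrappers

end Cfsg.Agent.H09.OI
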