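import Mathlib
import Cfsg.Agent.Lib.H09.Pgl2

/-! Maximal subgroups of `PGL₂` in odd characteristic: fixed points, cyclic and dihedral subgroups. -/

set_option autoImplicit false
set_option linter.style.haveILetI false
set_option linter.unusedSectionVars false
set_option linter.unusedSimpArgs false
set_option linter.unusedVariables false

namespace Cfsg.Agent.H09.Dick

open MulAction
open scoped LinearAlgebra.Projectivization MatrixGroups
open Cfsg.Agent.H27.DC Cfsg.Agent.H11.SL2X Cfsg.Agent.H11.SL2T Cfsg.Agent.H03.PS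
open Cfsg.Agent.H14 (e00 e01 e10 e11 trc sl_det e00_mul e01_mul e10_mul e11_mul e00_inv e01_inv e10_inv e11_inv
  e00_one e01_one e10_one e11_one pow_char_of_trc)
open Cfsg.Agent.Lead.DicksonSL (xE yE xE_add yE_add xE_zero yE_zero e00_xE e01_xE e10_xE e11_xE
  e00_yE e01_yE e10_yE e11_yE conjM)
open Cfsg.Agent.Lead (dm wm dm_coe wm_coe wm_sq wm_conj dm_injective)

section borel

variable {F : Type*} [Field F] [Fintype F]

lemma smul_toGL (g : SL2 F) (x : XX F) : (mkG (Matrix.SpecialLinearGroup.toGL g)) • x = g • x := by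
  induction x using Projectivization.ind with
  | h v hv =>
    rw [Projectivization.PGL.mk_smul_mk, Projectivization.smul_mk]
    rfl

lemma gl_smul_apply (g : GL (Fin 2) F) (v : Fin 2 → F) (i : Fin 2) :
    (g • v) i = (g : M2 F) i 0 * v 0 + (g : M2 F) i 1 * v 1 := by
  change ((g : M2 F).mulVec v) i = _
  simp [Matrix.mulVec, dotProduct, Fin.sum_univ_two]

lemma index_stab_G (x : XX F) : (stabilizer (PG F) x).index = Fintype.card F + 1 := by
  rw [index_stabilizer]
  have h1 : orbit (PG F) x = Set.univ := by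
    ext y
    simp only [Set.mem_univ, iff_true]
    obtain ⟨g, hg⟩ := exists_smul_eq_XX x y
    exact ⟨mkG (Matrix.SpecialLinearGroup.toGL g), (smul_toGL g x).trans hg⟩
  rw [h1, Set.ncard_univ]
  have hf : Module.finrank F (Fin 2 → F) = 2 := by simp
  rw [← Nat.card_eq_fintype_card]
  exact Projectivization.card_of_finrank_two F _ hf

theorem borel_G {M : Subgroup (PG F)} (hM : IsCoatom M) {x : XX F} (hx : ∀ h ∈ M, h • x = x) :
    Nat.card M = Fintype.card F * (Fintype.card F - 1) := by
  have hi := index_stab_G x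
  have hq2 := card_two_le F
  have hle : M ≤ stabilizer (PG F) x := fun h hh => hx h hh
  have hne : stabilizer (PG F) x ≠ ⊤ := by
    intro h
    rw [h, Subgroup.index_top] at hi
    omega
  have e := eq_of_coatom_G hM hle hne
  have hc := Subgroup.card_mul_index (stabilizer (PG F) x)
  have hN := card_PGL (F := F)
  rw [hi] at hc
  rw [e]
  obtain ⟨r, hr⟩ : ∃ r, Fintype.card F = r + 1 := ⟨Fintype.card F - 1, by omega⟩
  rw [hr] at hc hN ⊢
  simp only [Nat.add_sub_cancel]
  have e3 : (r + 1) ^ 2 - 1 = r * (r + 2) := by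
    have : (r + 1) ^ 2 = r * (r + 2) + 1 := by ring
    omega
  rw [e3] at hN
  have hc' := hc.trans hN
  have : Nat.card (stabilizer (PG F) x) * (r + 1 + 1) = (r + 1) * r * (r + 1 + 1) := by
    rw [hc']
    ring
  exact Nat.eq_of_mul_eq_mul_right (by omega) this

theorem fix_or_cyc {E : Type*} [Field E] (ψ : F →+* E) {M : Subgroup (PG F)} {v : Fin 2 → E} (hv : v ≠ 0)
    (H : ∀ g : GL (Fin 2) F, mkG g ∈ M → ∃ l : E, ψ ((g : M2 F) 0 0) * v 0 + ψ ((g : M2 F) 0 1) * v 1 = l * v 0 ∧
      ψ ((g : M2 F) 1 0) * v 0 + ψ ((g : M2 F) 1 1) * v 1 = l * v 1) :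
    (∃ x : XX F, ∀ h ∈ M, h • x = x) ∨ IsCyclic M := by
  classical
  have hfix : ∀ (w : Fin 2 → F) (hw : w ≠ 0), (∀ g : GL (Fin 2) F, mkG g ∈ M → ∃ l : F, g • w = l • w) →
      ∃ x : XX F, ∀ h ∈ M, h • x = x := by
    intro w hw hall
    refine ⟨Projectivization.mk F w hw, ?_⟩
    intro h hh
    obtain ⟨g, rfl⟩ := Matrix.ProjGenLinGroup.mk_surjective h
    obtain ⟨l, hl⟩ := hall g hh
    rw [Projectivization.PGL.mk_smul_mk, Projectivization.mk_eq_mk_iff']
    exact ⟨l, hl.symm⟩
  by_cases hv1 : v 1 = 0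
  · left
    have hv0 : v 0 ≠ 0 := by
      intro h
      apply hv
      ext i
      fin_cases i
      · exact h
      · exact hv1
    refine hfix ![1, 0] (by
      intro h
      have := congrFun h 0
      simp at this) ?_
    intro g hg
    obtain ⟨l, h1, h3⟩ := H g hg
    rw [hv1, mul_zero, add_zero, mul_zero] at h3
    have h10 : (g : M2 F) 1 0 = 0 := by
      have := (mul_eq_zero.1 h3).resolve_right hv0
      simpa using this
    refine ⟨(g : M2 F) 0 0, ?_⟩
    ext i
    rw [gl_smul_apply]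
    fin_cases i <;> simp [h10]
  obtain ⟨θ, hθ⟩ : ∃ θ, θ = v 0 / v 1 := ⟨_, rfl⟩
  have H' : ∀ g : GL (Fin 2) F, mkG g ∈ M → ψ ((g : M2 F) 0 0) * θ + ψ ((g : M2 F) 0 1) = (ψ ((g : M2 F) 1 0) * θ + ψ ((g : M2 F) 1 1)) * θ := by
    intro g hg
    obtain ⟨l, h1, h3⟩ := H g hg
    have hv0' : v 0 = θ * v 1 := by
      rw [hθ]
      field_simp
    rw [hv0'] at h1 h3
    have h4 : ψ ((g : M2 F) 1 0) * θ + ψ ((g : M2 F) 1 1) = l := by
      apply mul_right_cancel₀ hv1
      linear_combination h3
    rw [h4]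
    apply mul_right_cancel₀ hv1
    linear_combination h1
  by_cases hr : ∃ u, ψ u = θ
  · left
    obtain ⟨u, hu⟩ := hr
    refine hfix ![u, 1] (by
      intro h
      have := congrFun h 1
      simp at this) ?_
    intro g hg
    have h1 := H' g hg
    rw [← hu, ← map_mul, ← map_add, ← map_mul, ← map_add, ← map_mul] at h1
    have h3 := ψ.injective h1
    refine ⟨(g : M2 F) 1 0 * u + (g : M2 F) 1 1, ?_⟩
    ext i
    rw [gl_smul_apply]
    fin_cases i
    · simp
      exact h3
    · simp
  · right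
    push Not at hr
    let f : M.comap (mkG (F := F)) →* E :=
      { toFun := fun g => ψ (((g : GL (Fin 2) F) : M2 F) 1 0) * θ + ψ (((g : GL (Fin 2) F) : M2 F) 1 1)
        map_one' := by simp
        map_mul' := by
          rintro ⟨a, ha⟩ ⟨b, hb⟩
          have hb1 := H' b hb
          simp only [Subgroup.coe_mul, Matrix.GeneralLinearGroup.coe_mul, Matrix.mul_apply, Fin.sum_univ_two, map_add, map_mul]
          linear_combination (ψ ((a : M2 F) 1 0)) * hb1 }
    have hf : Function.Injective f := by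
      rintro ⟨a, ha⟩ ⟨b, hb⟩ e
      have e' : ψ ((a : M2 F) 1 0) * θ + ψ ((a : M2 F) 1 1) = ψ ((b : M2 F) 1 0) * θ + ψ ((b : M2 F) 1 1) := e
      have key : ∀ x y x' y' : F, ψ x * θ + ψ y = ψ x' * θ + ψ y' → x = x' ∧ y = y' := by
        intro x y x' y' h
        have hx : x = x' := by
          by_contra hne
          have hne' : ψ (x - x') ≠ 0 := by
            rw [Ne, map_eq_zero]
            exact sub_ne_zero.2 hne
          apply hr ((y' - y) / (x - x'))
          rw [map_div₀, map_sub, map_sub] at *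
          field_simp
          linear_combination -h
        refine ⟨hx, ?_⟩
        rw [hx] at h
        exact ψ.injective (add_left_cancel h)
      obtain ⟨h10, h11⟩ := key _ _ _ _ e'
      have e2 := H' a ha
      have e3 := H' b hb
      rw [e'] at e2
      obtain ⟨h00, h01⟩ := key _ _ _ _ (e2.trans e3.symm)
      apply Subtype.ext
      apply Units.ext
      ext i j
      fin_cases i <;> fin_cases j
      · exact h00
      · exact h01
      · exact h10
      · exact h11
    haveI : IsCyclic (M.comap (mkG (F := F))) := isCyclic_of_injective_ringHom f hf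
    exact isCyclic_of_surjective (mkG.subgroupComap M)
      (mkG.subgroupComap_surjective_of_surjective M Matrix.ProjGenLinGroup.mk_surjective)

end borel

section cyc

variable {F : Type*} [Field F] [Fintype F]

lemma odd_prime_of_odd {p : ℕ} [Fact p.Prime] [CharP F p] (hodd : Odd (Fintype.card F)) : Odd p := by
  obtain ⟨n, -, hn⟩ := FiniteField.card F p
  rw [hn] at hodd
  exact (Nat.odd_pow_iff n.ne_zero).1 hodd

theorem cyc_case {p : ℕ} [Fact p.Prime] [CharP F p] (hodd : Odd (Fintype.card F)) (h5 : 5 ≤ Fintype.card F) {M : Subgroup (PG F)}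
    (hM : IsCoatom M) (hML : ¬ LL F ≤ M) (hcyc : IsCyclic M) : TorS M := by
  classical
  have hp : p.Prime := Fact.out
  obtain ⟨c, hc⟩ := IsCyclic.exists_generator (α := M)
  have hco : orderOf (c : PG F) = Nat.card M := by
    rw [Subgroup.orderOf_coe, orderOf_eq_card_of_forall_mem_zpowers hc]
  by_cases h3 : Nat.card M ≤ 2
  · exfalso
    haveI : Fact (Nat.Prime 2) := ⟨Nat.prime_two⟩
    have hpg : IsPGroup 2 M := by
      have h1 : 0 < Nat.card M := Nat.card_pos
      have h4 : Nat.card M = 1 ∨ Nat.card M = 2 := by omega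
      rcases h4 with h4 | h4
      · exact IsPGroup.of_card (n := 0) (by rw [h4]; rfl)
      · exact IsPGroup.of_card (n := 1) (by rw [h4]; rfl)
    exact no_small_G hodd hM hpg (by omega)
  have hc2 : (c : PG F) * c ≠ 1 := by
    intro h
    have h4 : orderOf (c : PG F) ∣ 2 := orderOf_dvd_of_pow_eq_one (by rw [pow_two]; exact h)
    rw [hco] at h4
    have := Nat.le_of_dvd (by norm_num) h4
    omega
  have hcp : (c : PG F) ^ p ≠ 1 := by
    intro h
    apply not_le_LL hodd hM hML
    intro x hx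
    obtain ⟨i, hi⟩ := Subgroup.mem_zpowers_iff.1 (hc ⟨x, hx⟩)
    have e1 : x = (c : PG F) ^ i := by
      have := congrArg Subtype.val hi
      simpa using this.symm
    apply mem_LL_of_pow hodd (odd_prime_of_odd (F := F) hodd)
    rw [e1, ← zpow_natCast, ← zpow_mul, mul_comm, zpow_mul, zpow_natCast, h, one_zpow]
  apply tor_G0 hodd h5 hM hc2 hcp
  intro h hh
  left
  obtain ⟨i, hi⟩ := Subgroup.mem_zpowers_iff.1 (hc ⟨h, hh⟩)
  have e1 : h = (c : PG F) ^ i := by
    have := congrArg Subtype.val hi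
    simpa using this.symm
  rw [e1]
  group

theorem dih_case {p : ℕ} [Fact p.Prime] [CharP F p] (hodd : Odd (Fintype.card F)) (h5 : 5 ≤ Fintype.card F) {M : Subgroup (PG F)}
    (hM : IsCoatom M) {k : ℕ} (hk : ¬ p ∣ k) (e : M ≃* DihedralGroup k) : TorS M := by
  classical
  have hp : p.Prime := Fact.out
  have hcard : Nat.card M = 2 * k := by
    rw [card_of_iso e, DihedralGroup.nat_card]
  have hk0 : k ≠ 0 := by
    rintro rfl
    have : 0 < Nat.card M := Nat.card_pos
    omega
  by_cases h3 : k ≤ 2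
  · exfalso
    haveI : Fact (Nat.Prime 2) := ⟨Nat.prime_two⟩
    have hpg : IsPGroup 2 M := by
      have h4 : Nat.card M = 2 ∨ Nat.card M = 4 := by omega
      rcases h4 with h4 | h4
      · exact IsPGroup.of_card (n := 1) (by rw [h4]; rfl)
      · exact IsPGroup.of_card (n := 2) (by rw [h4]; rfl)
    exact no_small_G hodd hM hpg (by omega)
  obtain ⟨c, hcdef⟩ : ∃ c : M, c = e.symm (DihedralGroup.r 1) := ⟨_, rfl⟩
  have hco : orderOf (c : PG F) = k := by
    rw [Subgroup.orderOf_coe, hcdef, MulEquiv.orderOf_eq, DihedralGroup.orderOf_r_one]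
  have hc2 : (c : PG F) * c ≠ 1 := by
    intro h
    have h4 : orderOf (c : PG F) ∣ 2 := orderOf_dvd_of_pow_eq_one (by rw [pow_two]; exact h)
    rw [hco] at h4
    have := Nat.le_of_dvd (by norm_num) h4
    omega
  have hcp : (c : PG F) ^ p ≠ 1 := by
    intro h
    have h4 := orderOf_dvd_of_pow_eq_one h
    rw [hco] at h4
    rcases (Nat.dvd_prime hp).1 h4 with h6 | h6
    · omega
    · rw [h6] at hk
      exact hk (dvd_refl p)
  apply tor_G0 hodd h5 hM hc2 hcp
  intro h hh
  rcases dihedral_rel e c ⟨h, hh⟩ with h6 | h6 | ⟨h6, -⟩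
  · left
    exact congrArg Subtype.val h6
  · right
    exact congrArg Subtype.val h6
  · exact absurd (congrArg Subtype.val h6) hc2

/-- Groups generated by elements of odd order lie in `PSL₂`. -/
lemma le_LL_of_gen (hodd : Odd (Fintype.card F)) {M : Subgroup (PG F)} {X₀ : Type*} [Group X₀] (e : M ≃* X₀) {x₁ x₂ : X₀}
    (hgen : ∀ N : Subgroup X₀, x₁ ∈ N → x₂ ∈ N → N = ⊤) {n₁ n₂ : ℕ} (h₁ : Odd n₁) (h₂ : Odd n₂) (h3 : (x₁ * x₂) ^ n₁ = 1)
    (h4 : x₂ ^ n₂ = 1) : M ≤ LL F := by
  let φ : X₀ →* PG F := M.subtype.comp e.symm.toMonoidHom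
  have hx2 : x₂ ∈ (LL F).comap φ := by
    apply mem_LL_of_pow hodd h₂
    rw [← map_pow, h4, map_one]
  have hx3 : x₁ * x₂ ∈ (LL F).comap φ := by
    apply mem_LL_of_pow hodd h₁
    rw [← map_pow, h3, map_one]
  have hx1 : x₁ ∈ (LL F).comap φ := by
    have := Subgroup.mul_mem _ hx3 (Subgroup.inv_mem _ hx2)
    simpa using this
  have hN := hgen _ hx1 hx2
  intro x hx
  have h5 : e ⟨x, hx⟩ ∈ (LL F).comap φ := by
    rw [hN]
    exact Subgroup.mem_top _
  have h6 : φ (e ⟨x, hx⟩) = x := by
    simp [φ]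
  rw [← h6]
  exact h5

end cyc

end Cfsg.Agent.H09.Dick
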