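import Mathlib
import Cfsg.Agent.Lib.H09.Pgl3

/-! Maximal subgroups of `PGL₂` in odd characteristic: subfield subgroups. -/

set_option autoImplicit false
set_option linter.style.haveILetI false
set_option linter.unusedSectionVars false
set_option linter.unusedSimpArgs false
set_option linter.unusedVariables false

namespace Cfsg.Agent.H09.Dick

open MulAction
open scoped LinearAlgebra.Projectivization MatrixGroups
open Cfsg.Agent.H27.ZA (Om)
open Cfsg.Agent.H27.DC Cfsg.Agent.H11.SL2X Cfsg.Agent.H11.SL2T Cfsg.Agent.H03.PS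
open Cfsg.Agent.H14 (e00 e01 e10 e11 trc sl_det e00_mul e01_mul e10_mul e11_mul e00_inv e01_inv e10_inv e11_inv
  e00_one e01_one e10_one e11_one pow_char_of_trc)
open Cfsg.Agent.Lead.DicksonSL (xE yE xE_add yE_add xE_zero yE_zero e00_xE e01_xE e10_xE e11_xE
  e00_yE e01_yE e10_yE e11_yE conjM)
open Cfsg.Agent.Lead (dm wm dm_coe wm_coe wm_sq wm_conj dm_injective)

section sub

/-- The map `PSL₂(F) → PSL₂(E)`. -/
noncomputable abbrev ψ' {F E : Type*} [Field F] [Field E] (ι : F →+* E) : PS2 F →* PS2 E := psMap ι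

variable {F E K : Type*} [Field F] [Field E] [Field K] [Fintype F] [Fintype E] [Fintype K]
  (ψ : F →+* E) (hsq : ∀ a : Fˣ, IsSquare (ψ a))

/-- The transvection in `PGL₂`. -/
noncomputable abbrev xG (s : F) : PG F := iotaP (pr (xE s))

lemma PsiG_xG (s : F) : PsiG ψ hsq (xG s) = pr (xE (ψ s)) := by
  rw [xG, PsiG_iota, psMap_pr]
  exact congrArg _ (φ_xE ψ s)

lemma PH_comp_le (f : K →+* F) : PH (ψ.comp f) ≤ PH ψ := by
  rintro _ ⟨g, rfl, t, g₀, ht, hg⟩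
  refine mem_PH (t := t) (g₀ := g₀.map f) ht ?_
  rw [hg]
  rfl

lemma xG_mem_iff (f : K →+* F) (y : F) : PsiG ψ hsq (xG y) ∈ PH (ψ.comp f) ↔ ∃ u, f u = y := by
  rw [PsiG_xG]
  constructor
  · intro h
    obtain ⟨u, hu⟩ := mem_range_of_PH h
    exact ⟨u, ψ.injective hu⟩
  · rintro ⟨u, rfl⟩
    exact range_le_PH _ (xE_mem_range (ψ.comp f) u)

/-- Scalar multiples of matrices over a subfield, seen inside the big field. -/
lemma of_PH_comp (f : K →+* F) {g : GL (Fin 2) F} (h : PsiG ψ hsq (mkG g) ∈ PH (ψ.comp f)) :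
    ∃ (c : F) (g₀ : M2 K), c ≠ 0 ∧ (g : M2 F) = c • g₀.map f := by
  obtain ⟨γ, t, ht, hγ, e⟩ := PsiG_lift ψ hsq g
  obtain ⟨γ', e', t', g₀, ht', hγ'⟩ := h
  rw [e] at e'
  obtain ⟨r, hr, e3⟩ := pr_eq_iff.1 e'
  have hr0 : r ≠ 0 := by
    rintro rfl
    simp at hr
  rw [hγ, hγ'] at e3
  have key : (g : M2 F).map ψ = (t⁻¹ * (r * t')) • ((g₀.map f).map ψ) := by
    have e4 : (g₀.map f).map ψ = g₀.map (ψ.comp f) := rfl
    rw [e4, ← smul_smul, ← smul_smul, ← e3, smul_smul, inv_mul_cancel₀ ht, one_smul]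
  have hne : g₀.map f ≠ 0 := by
    intro h0
    have := key
    rw [h0] at this
    apply gl_det_ne g
    have h5 : (g : M2 F) = 0 := by
      ext i j
      have := congrFun (congrFun this i) j
      simpa using this
    rw [h5]
    simp
  obtain ⟨i, j, hij⟩ : ∃ i j, (g₀.map f) i j ≠ 0 := by
    by_contra hcon
    push Not at hcon
    apply hne
    ext i j
    exact hcon i j
  obtain ⟨c, hc⟩ : ∃ c, c = (g : M2 F) i j / (g₀.map f) i j := ⟨_, rfl⟩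
  have hcψ : ψ c = t⁻¹ * (r * t') := by
    have h5 := congrFun (congrFun key i) j
    simp only [Matrix.map_apply, Matrix.smul_apply, smul_eq_mul] at h5
    have h6 : (g₀.map f) i j = f (g₀ i j) := rfl
    rw [h6] at hij
    have h7 : ψ (f (g₀ i j)) ≠ 0 := by
      rw [Ne, map_eq_zero]
      exact hij
    rw [hc, map_div₀, h5, h6]
    field_simp
  have hc0 : c ≠ 0 := by
    intro h0
    rw [h0, map_zero] at hcψ
    have h8 : t⁻¹ * (r * t') ≠ 0 := mul_ne_zero (inv_ne_zero ht) (mul_ne_zero hr0 ht')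
    exact h8 hcψ.symm
  refine ⟨c, g₀, hc0, ?_⟩
  ext a b
  have h5 := congrFun (congrFun key a) b
  simp only [Matrix.map_apply, Matrix.smul_apply, smul_eq_mul] at h5
  apply ψ.injective
  simp only [Matrix.map_apply, Matrix.smul_apply, smul_eq_mul, map_mul]
  rw [h5, hcψ]

lemma G0_ne_top (f' : K →+* F) (y' : F) (hy' : ∀ u, f' u ≠ y') : (PH (ψ.comp f')).comap (PsiG ψ hsq) ≠ ⊤ := by
  intro h
  have h1 : xG y' ∈ (PH (ψ.comp f')).comap (PsiG ψ hsq) := by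
    rw [h]
    exact Subgroup.mem_top _
  obtain ⟨u, hu⟩ := (xG_mem_iff ψ hsq f' y').1 h1
  exact hy' u hu

/-- Subgroups lying in a proper subfield subgroup. -/
theorem final_sub {p : ℕ} [Fact p.Prime] [CharP F p] (hodd : Odd (Fintype.card F)) {M : Subgroup (PG F)} (hM : IsCoatom M)
    (hML : ¬ LL F ≤ M) (f₀ : K →+* F) (hle : M.map (PsiG ψ hsq) ≤ PH (ψ.comp f₀)) (hns : ∃ y, ∀ u, f₀ u ≠ y) :
    (∃ r : ℕ, r.Prime ∧ Odd r ∧ Fintype.card F = Fintype.card K ^ r ∧ Nonempty (M ≃* PG K)) ∧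
      M.map (PsiG ψ hsq) = PH (ψ.comp f₀) := by
  classical
  haveI hK2 : CharP K p := (RingHom.charP_iff f₀ f₀.injective p).2 inferInstance
  have hKo : Odd (Fintype.card K) := odd_card_of_char (p := p) hodd
  obtain ⟨y, hy⟩ := hns
  have hleG : M ≤ (PH (ψ.comp f₀)).comap (PsiG ψ hsq) := Subgroup.map_le_iff_le_comap.1 hle
  have eM := eq_of_coatom_G hM hleG (G0_ne_top ψ hsq f₀ y hy)
  have hmap : M.map (PsiG ψ hsq) = PH (ψ.comp f₀) := by
    rw [eM, Subgroup.map_comap_eq, range_PsiG]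
    exact inf_eq_right.2 (PH_comp_le ψ f₀)
  have hiso : Nonempty (M ≃* PG K) := by
    obtain ⟨d⟩ := PH_iso_PGL (ψ.comp f₀) (fun a => hsq (Units.map f₀.toMonoidHom a))
    exact ⟨(M.equivMapOfInjective _ (PsiG_inj ψ hsq)).trans ((MulEquiv.subgroupCongr hmap).trans d)⟩
  letI := f₀.toAlgebra
  have hm : Fintype.card K ^ Module.finrank K F = Fintype.card F :=
    (Module.card_eq_pow_finrank (K := K) (V := F)).symm
  obtain ⟨m, hmdef⟩ : ∃ m, m = Module.finrank K F := ⟨_, rfl⟩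
  rw [← hmdef] at hm
  have hq := card_two_le F
  have hm0 : m ≠ 0 := by
    rintro rfl
    rw [pow_zero] at hm
    omega
  have hm1 : m ≠ 1 := by
    rintro rfl
    rw [pow_one] at hm
    have hbij : Function.Bijective f₀ := (Fintype.bijective_iff_injective_and_card f₀).2 ⟨f₀.injective, hm⟩
    obtain ⟨u, hu⟩ := hbij.2 y
    exact hy u hu
  have hmeven : ¬ Even m := by
    rintro ⟨a, rfl⟩
    have hm' : Fintype.card K ^ (2 * a) = Fintype.card F := by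
      rw [two_mul]
      exact hm
    have hs := sq_of_even hodd f₀ hm' hKo
    apply not_le_LL hodd hM hML
    intro s hs'
    obtain ⟨g, rfl⟩ := Matrix.ProjGenLinGroup.mk_surjective s
    have h3 := hleG hs'
    obtain ⟨c, g₀, hc, hg⟩ := of_PH_comp ψ hsq f₀ h3
    apply mem_LL_iff.2
    rw [hg, Matrix.det_smul, Fintype.card_fin]
    have e : (g₀.map f₀).det = f₀ g₀.det := by
      rw [← RingHom.mapMatrix_apply, ← RingHom.map_det]
    rw [e]
    obtain ⟨w, hw⟩ := hs g₀.det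
    rw [hw]
    exact ⟨c * w, by ring⟩
  have hmpr : m.Prime := by
    by_contra hnp
    obtain ⟨a, b, ha, hb, hab⟩ : ∃ a b, 2 ≤ a ∧ 2 ≤ b ∧ a * b = m := by
      obtain ⟨a, ha1, ha2, ha3⟩ := Nat.exists_dvd_of_not_prime2 (by omega : 2 ≤ m) hnp
      obtain ⟨b, rfl⟩ := ha1
      refine ⟨a, b, ?_, ?_, rfl⟩
      · exact ha2
      · by_contra hb
        have : b = 0 ∨ b = 1 := by omega
        rcases this with rfl | rfl
        · simp at hm0
        · simp at ha3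
    subst hab
    obtain ⟨L, hL1, ⟨y₁, hy₁, hy₁'⟩, y₂, hy₂⟩ := exists_intermediate (p := p) f₀ ha hb hm
    have hle2 : PH (ψ.comp f₀) ≤ PH (ψ.comp L.subtype) := by
      rintro _ ⟨g, rfl, t, g₀, ht, hg⟩
      let f₁ : K →+* L := f₀.codRestrict L hL1
      refine mem_PH (t := t) (g₀ := g₀.map f₁) ht ?_
      rw [hg]
      rfl
    have hlt : (PH (ψ.comp f₀)).comap (PsiG ψ hsq) < (PH (ψ.comp L.subtype)).comap (PsiG ψ hsq) := by
      refine lt_of_le_of_ne (Subgroup.comap_mono hle2) ?_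
      intro e
      have h1 : xG y₁ ∈ (PH (ψ.comp L.subtype)).comap (PsiG ψ hsq) :=
        (xG_mem_iff ψ hsq L.subtype y₁).2 ⟨⟨y₁, hy₁⟩, rfl⟩
      rw [← e] at h1
      obtain ⟨u, hu⟩ := (xG_mem_iff ψ hsq f₀ y₁).1 h1
      exact hy₁' u hu
    have hM2 : IsCoatom ((PH (ψ.comp f₀)).comap (PsiG ψ hsq)) := eM ▸ hM
    exact G0_ne_top ψ hsq L.subtype y₂ (fun u hu => hy₂ (hu ▸ u.2)) (hM2.2 _ hlt)
  have hmodd : Odd m := Nat.not_even_iff_odd.1 hmeven
  exact ⟨⟨m, hmpr, hmodd, hm.symm, hiso⟩, hmap⟩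

end sub

section big

/-- A maximal subgroup which is, up to conjugacy, the image of `PGL₂` of a subfield. -/
def SubS {F E : Type*} [Field F] [Field E] [Fintype F] [Fintype E] (ψ : F →+* E) (hsq : ∀ a : Fˣ, IsSquare (ψ a)) (M : Subgroup (PG F)) : Prop :=
  ∃ (F₀ : Type) (_ : Field F₀) (_ : Fintype F₀) (f₀ : F₀ →+* F) (c : PG F) (r : ℕ), r.Prime ∧ Odd r ∧
    Fintype.card F = Fintype.card F₀ ^ r ∧ (M.map (cjG c)).map (PsiG ψ hsq) = PH (ψ.comp f₀) ∧ Nonempty (M ≃* PG F₀)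

variable {F E : Type*} [Field F] [Field E] [Fintype F] [Fintype E] (ψ : F →+* E) (hsq : ∀ a : Fˣ, IsSquare (ψ a))

/-- Unipotent elements of the image come from `PSL₂(F)`. -/
lemma pull_unip {p : ℕ} [Fact p.Prime] [CharP F p] (hodd : Odd (Fintype.card F)) {M : Subgroup (PG F)} {τ : PS2 E →* PS2 E}
    (hτ : Function.Injective τ) {z : PS2 E} (hz : z ∈ (M.map (PsiG ψ hsq)).map τ) (hzp : z ^ p = 1) :
    ∃ σ : SL2 F, pr σ ∈ M.comap iotaP ∧ τ (psMap ψ (pr σ)) = z := by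
  obtain ⟨_, ⟨m, hm, rfl⟩, rfl⟩ := hz
  have h1 : m ^ p = 1 := by
    apply PsiG_inj ψ hsq
    apply hτ
    rw [map_pow, map_pow, hzp, map_one, map_one]
  have h2 : m ∈ LL F := mem_LL_of_pow hodd (odd_prime_of_odd (F := F) hodd) h1
  obtain ⟨s, rfl⟩ := exists_iota_of_mem h2
  obtain ⟨σ, rfl⟩ := pr_surj s
  exact ⟨σ, hm, by rw [PsiG_iota]⟩

lemma pr_xE_inj {a a' : E} (h : pr (xE a) = pr (xE a')) : a = a' := by
  obtain ⟨r, hr, e⟩ := pr_eq_iff.1 h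
  have h0 := congrFun (congrFun e 0) 0
  have h1 := congrFun (congrFun e 0) 1
  have h0' : (1 : E) = r * 1 := by simpa [xE] using h0
  have h1' : a' = r * a := by simpa [xE] using h1
  rw [mul_one] at h0'
  rw [h1', ← h0', one_mul]

lemma pr_xE_ne_one : pr (xE (1 : E)) ≠ 1 := by
  intro h
  obtain ⟨r, hr, e⟩ := pr_eq_one_iff.1 h
  have h1 := congrFun (congrFun e 0) 1
  simp [xE] at h1

lemma yE_pow_p (p : ℕ) [Fact p.Prime] [CharP E p] (b : E) : pr (yE b) ^ p = 1 := by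
  rw [← pr_pow', Cfsg.Agent.Lead.DicksonSL.yE_pow, CharP.cast_eq_zero E p, zero_mul, yE_zero]
  rfl

theorem big_descend {p : ℕ} [Fact p.Prime] [CharP F p] [CharP E p] (hodd : Odd (Fintype.card F))
    (hK : ∀ t : F, ∃ l : E, l * l - ψ t * l + 1 = 0) {M : Subgroup (PG F)} (C₁ : M2 E) (hC₁ : C₁.det ≠ 0) (C₂ : M2 E) (hC₂ : C₂.det ≠ 0)
    (h41 : 4 ≤ Nat.card {a : E // xE a ∈ GG (((M.map (PsiG ψ hsq)).map (αM C₁ hC₁)).map (αM C₂ hC₂))})
    (hx1 : xE (1 : E) ∈ GG (((M.map (PsiG ψ hsq)).map (αM C₁ hC₁)).map (αM C₂ hC₂))) {b : E} (hb : b ≠ 0)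
    (hyb : yE b ∈ GG (((M.map (PsiG ψ hsq)).map (αM C₁ hC₁)).map (αM C₂ hC₂))) :
    ∃ (C₁' : M2 F) (hC₁' : C₁'.det ≠ 0) (C₂' : M2 F) (hC₂' : C₂'.det ≠ 0),
      4 ≤ Nat.card {a : F // xE a ∈ GG (((M.comap iotaP).map (αM C₁' hC₁')).map (αM C₂' hC₂'))} ∧
      xE (1 : F) ∈ GG (((M.comap iotaP).map (αM C₁' hC₁')).map (αM C₂' hC₂')) ∧
      ∃ b' : F, b' ≠ 0 ∧ yE b' ∈ GG (((M.comap iotaP).map (αM C₁' hC₁')).map (αM C₂' hC₂')) := by
  classical
  obtain ⟨τ, hτdef⟩ : ∃ τ : PS2 E →* PS2 E, τ = (αM C₂ hC₂).comp (αM C₁ hC₁) := ⟨_, rfl⟩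
  have hτinj : Function.Injective τ := by
    rw [hτdef, MonoidHom.coe_comp]
    exact (αM_inj C₂ hC₂).comp (αM_inj C₁ hC₁)
  have hH : ((M.map (PsiG ψ hsq)).map (αM C₁ hC₁)).map (αM C₂ hC₂) = (M.map (PsiG ψ hsq)).map τ := by
    rw [hτdef, Subgroup.map_map]
  rw [hH] at h41 hx1 hyb
  have hτpr : ∀ g : SL2 E, τ (pr g) = pr (conjM C₂ hC₂ (conjM C₁ hC₁ g)) := fun g => by
    rw [hτdef]
    rfl
  obtain ⟨Cb, hCbdef⟩ : ∃ Cb : M2 E, Cb = C₂ * C₁ := ⟨_, rfl⟩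
  have hCb : Cb.det ≠ 0 := by
    rw [hCbdef, Matrix.det_mul]
    exact mul_ne_zero hC₂ hC₁
  have hCbu : IsUnit Cb.det := isUnit_iff_ne_zero.2 hCb
  have hconj : ∀ g : SL2 E, ((conjM C₂ hC₂ (conjM C₁ hC₁ g) : SL2 E) : M2 E) = Cb * g * Cb⁻¹ := by
    intro g
    rw [conjM_coe, conjM_coe, hCbdef, Matrix.mul_inv_rev]
    simp only [mul_assoc]
  obtain ⟨v, hvdef⟩ : ∃ v : Fin 2 → E, v = Cb⁻¹.mulVec eI := ⟨_, rfl⟩
  have hv : v ≠ 0 := by
    intro h
    have h3 : Cb.mulVec v = eI := by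
      rw [hvdef, Matrix.mulVec_mulVec, Matrix.mul_nonsing_inv Cb hCbu, Matrix.one_mulVec]
    rw [h, Matrix.mulVec_zero] at h3
    exact eI_ne h3.symm
  have hsm : ∀ (g : SL2 E) (w : Fin 2 → E), g • w = (g : M2 E).mulVec w := fun g w => rfl
  have hmove' : ∀ (g X : SL2 E) (r : E), ((conjM C₂ hC₂ (conjM C₁ hC₁ g) : SL2 E) : M2 E) = r • (X : M2 E) →
      g • v = r • Cb⁻¹.mulVec ((X : M2 E).mulVec eI) := by
    intro g X r e
    rw [hconj] at e
    have e2 : (g : M2 E) * Cb⁻¹ = r • (Cb⁻¹ * (X : M2 E)) := by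
      calc (g : M2 E) * Cb⁻¹ = Cb⁻¹ * (Cb * g * Cb⁻¹) := by
            simp only [← mul_assoc, Matrix.nonsing_inv_mul Cb hCbu, one_mul]
        _ = r • (Cb⁻¹ * (X : M2 E)) := by
            rw [e, Matrix.mul_smul]
    rw [hsm, hvdef, Matrix.mulVec_mulVec, e2, Matrix.smul_mulVec, ← Matrix.mulVec_mulVec]
  have key : ∀ (g : SL2 E) (a : E), pr (conjM C₂ hC₂ (conjM C₁ hC₁ g)) = pr (xE a) → ∃ l : E, l * l = 1 ∧ g • v = l • v := by
    intro g a h
    obtain ⟨r, hr, e⟩ := pr_eq_iff.1 h.symm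
    refine ⟨r, by rw [← pow_two]; exact hr, ?_⟩
    rw [hmove' g _ r e, hvdef]
    congr 2
    have := xE_eI a
    rw [hsm, one_smul] at this
    exact this
  obtain ⟨x, hxdef⟩ : ∃ x : XX E, x = Projectivization.mk E v hv := ⟨_, rfl⟩
  have hp : ∀ a : E, pr (xE a) ^ p = 1 := fun a => pr_xE_pow p a
  have hex : ∀ a : {a : E // xE a ∈ GG ((M.map (PsiG ψ hsq)).map τ)}, ∃ σ : SL2 F, pr σ ∈ M.comap iotaP ∧
      τ (psMap ψ (pr σ)) = pr (xE (a : E)) := fun a => pull_unip ψ hsq hodd hτinj a.2 (hp _)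
  choose σ hσ1 hσ2 using hex
  have hmemG : ∀ a, Matrix.SpecialLinearGroup.map ψ (σ a) ∈ GG ((M.comap iotaP).map (ψ' ψ)) := fun a => ⟨pr (σ a), hσ1 a, rfl⟩
  have hmemY : ∀ a, piH _ ⟨Matrix.SpecialLinearGroup.map ψ (σ a), hmemG a⟩ ∈ Yb ((M.comap iotaP).map (ψ' ψ)) x := by
    intro a
    refine ⟨⟨Matrix.SpecialLinearGroup.map ψ (σ a), hmemG a⟩, ?_, rfl⟩
    rw [hxdef]
    apply (mem_YY_mk hv).2
    apply key _ a
    rw [← hτpr]
    exact hσ2 a
  let f : {a : E // xE a ∈ GG ((M.map (PsiG ψ hsq)).map τ)} → Yb ((M.comap iotaP).map (ψ' ψ)) x :=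
    fun a => ⟨piH _ ⟨Matrix.SpecialLinearGroup.map ψ (σ a), hmemG a⟩, hmemY a⟩
  have hfv : ∀ a, (((f a : (M.comap iotaP).map (ψ' ψ)) : PS2 E)) = pr (Matrix.SpecialLinearGroup.map ψ (σ a)) := fun a => rfl
  have hf : Function.Injective f := by
    intro a a' e
    have e1 : pr (Matrix.SpecialLinearGroup.map ψ (σ a)) = pr (Matrix.SpecialLinearGroup.map ψ (σ a')) := by
      rw [← hfv, ← hfv, e]
    apply Subtype.ext
    apply pr_xE_inj
    rw [← hσ2, ← hσ2]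
    exact congrArg τ e1
  have h4 : 4 ≤ Nat.card (Yb ((M.comap iotaP).map (ψ' ψ)) x) := h41.trans (Nat.card_le_card_of_injective f hf)
  have hO : Om (⊥ : Subgroup ((M.comap iotaP).map (ψ' ψ))) (Yb ((M.comap iotaP).map (ψ' ψ))) x := by
    refine ⟨_, hmemY ⟨1, hx1⟩, ?_⟩
    intro h
    rw [Subgroup.mem_bot] at h
    have h1 : pr (Matrix.SpecialLinearGroup.map ψ (σ ⟨1, hx1⟩)) = 1 := congrArg Subtype.val h
    apply pr_xE_ne_one (E := E)
    rw [← hσ2 ⟨1, hx1⟩]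
    change τ (pr (Matrix.SpecialLinearGroup.map ψ _)) = 1
    rw [h1, map_one]
  obtain ⟨σy, hσy1, hσy2⟩ := pull_unip ψ hsq hodd hτinj hyb (yE_pow_p p b)
  have hmove : ∃ h ∈ M.comap iotaP, actP (ψ' ψ h) x ≠ x := by
    refine ⟨pr σy, hσy1, ?_⟩
    intro hfx
    have h1 : Matrix.SpecialLinearGroup.map ψ σy • Projectivization.mk E v hv = Projectivization.mk E v hv := by
      rw [hxdef] at hfx
      exact hfx
    obtain ⟨l, hl⟩ := (fix_mk' _ hv).1 h1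
    have h3 : pr (conjM C₂ hC₂ (conjM C₁ hC₁ (Matrix.SpecialLinearGroup.map ψ σy))) = pr (yE b) := by
      rw [← hτpr]
      exact hσy2
    obtain ⟨r, hr, e⟩ := pr_eq_iff.1 h3.symm
    have h5 := hmove' _ _ r e
    rw [hl, hvdef] at h5
    have hr0 : r ≠ 0 := by
      rintro rfl
      simp at hr
    have h6 : l • (eI : Fin 2 → E) = r • ((yE b : SL2 E) : M2 E).mulVec eI := by
      have h7 := congrArg Cb.mulVec h5
      rw [Matrix.mulVec_smul, Matrix.mulVec_smul, Matrix.mulVec_mulVec, Matrix.mulVec_mulVec, Matrix.mul_nonsing_inv Cb hCbu,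
        Matrix.one_mulVec, Matrix.one_mulVec] at h7
      exact h7
    have h8 := congrFun h6 1
    have h9 : (r • ((yE b : SL2 E) : M2 E).mulVec eI) 1 = r * b := by
      simp [yE, eI, Matrix.mulVec, dotProduct, Fin.sum_univ_two]
    rw [h9] at h8
    have h10 : (l • (eI : Fin 2 → E)) 1 = 0 := by
      simp [eI]
    rw [h10] at h8
    exact (mul_ne_zero hr0 hb) h8.symm
  exact big_case2 p hK hO h4 hmove

include ψ hsq in
/-- The subfield case over `F`. -/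
theorem big_final {p : ℕ} [Fact p.Prime] [CharP F p] [CharP E p] (hodd : Odd (Fintype.card F)) {M : Subgroup (PG F)} (hM : IsCoatom M)
    (hML : ¬ LL F ≤ M) (C₁ : M2 F) (hC₁ : C₁.det ≠ 0) (C₂ : M2 F) (hC₂ : C₂.det ≠ 0)
    (h4 : 4 ≤ Nat.card {a : F // xE a ∈ GG (((M.comap iotaP).map (αM C₁ hC₁)).map (αM C₂ hC₂))})
    (hx1 : xE (1 : F) ∈ GG (((M.comap iotaP).map (αM C₁ hC₁)).map (αM C₂ hC₂))) {b : F} (hb : b ≠ 0)
    (hyb : yE b ∈ GG (((M.comap iotaP).map (αM C₁ hC₁)).map (αM C₂ hC₂))) : SubS ψ hsq M := by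
  classical
  obtain ⟨c, hc⟩ : ∃ c : PG F, c = mkG (glM C₂ hC₂) * mkG (glM C₁ hC₁) := ⟨_, rfl⟩
  obtain ⟨M', hM'⟩ : ∃ M' : Subgroup (PG F), M' = M.map (cjG c) := ⟨_, rfl⟩
  have hM'c : IsCoatom M' := hM' ▸ coatom_map_bij (cjG_bij c) hM
  have hM'L : ¬ LL F ≤ M' := hM' ▸ not_le_cj hodd c hML
  have heq : M ≃* M' := (M.equivMapOfInjective _ (cjG_bij c).1).trans (MulEquiv.subgroupCongr hM'.symm)
  have hio : ∀ s ∈ ((M.comap iotaP).map (αM C₁ hC₁)).map (αM C₂ hC₂), iotaP s ∈ M' := by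
    rintro _ ⟨_, ⟨s, hs, rfl⟩, rfl⟩
    rw [hM']
    refine ⟨iotaP s, hs, ?_⟩
    rw [iota_αM, iota_αM, cjG_apply, cjG_apply, cjG_apply, hc]
    group
  obtain ⟨H, hH⟩ : ∃ H : Subgroup (PS2 E), H = M'.map (PsiG ψ hsq) := ⟨_, rfl⟩
  have hX₁ : ∀ a : F, xE a ∈ GG (((M.comap iotaP).map (αM C₁ hC₁)).map (αM C₂ hC₂)) → xE (ψ a) ∈ GG H := by
    intro a ha
    change pr (xE (ψ a)) ∈ H
    rw [hH, ← PsiG_xG ψ hsq]
    exact ⟨_, hio _ ha, rfl⟩
  have hY₁ : ∀ a : F, yE a ∈ GG (((M.comap iotaP).map (αM C₁ hC₁)).map (αM C₂ hC₂)) → yE (ψ a) ∈ GG H := by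
    intro a ha
    change pr (yE (ψ a)) ∈ H
    rw [hH]
    refine ⟨_, hio _ ha, ?_⟩
    rw [PsiG_iota]
    change pr (Matrix.SpecialLinearGroup.map ψ (yE a)) = _
    exact congrArg _ (φ_yE ψ a)
  have hPH : H ≤ PH ψ := by
    rw [hH, ← range_PsiG ψ hsq]
    rintro _ ⟨x, -, rfl⟩
    exact ⟨x, rfl⟩
  have h4' : 4 ≤ Nat.card {a : E // xE a ∈ GG H} := by
    refine h4.trans (Nat.card_le_card_of_injective (fun a => ⟨ψ a, hX₁ _ a.2⟩) ?_)
    intro a a' e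
    exact Subtype.ext (ψ.injective (congrArg Subtype.val e))
  have hx1' : xE (1 : E) ∈ GG H := by
    have := hX₁ 1 hx1
    rwa [map_one] at this
  have hb' : ψ b ≠ 0 := by
    rw [Ne, map_eq_zero]
    exact hb
  have hyb' := hY₁ b hyb
  obtain ⟨E', hE⟩ := exists_subfield h4' hb' hyb' one_ne_zero hx1'
  have hE' : ∀ x, x ∈ E' ↔ xE x ∈ GG H := by
    intro x
    rw [hE, mul_one]
  obtain ⟨K, i1, i2, f₀, hf₀⟩ := typed_sub p (E'.comap ψ)
  haveI hKp : CharP K p := (RingHom.charP_iff f₀ f₀.injective p).2 inferInstance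
  have hf : ∀ s, (∃ u, (ψ.comp f₀) u = s) ↔ s ∈ E' := by
    intro s
    constructor
    · rintro ⟨u, rfl⟩
      have := (hf₀ (f₀ u)).1 ⟨u, rfl⟩
      exact this
    · intro hs
      have h3 : pr (xE s) ∈ PH ψ := hPH ((hE' s).1 hs)
      obtain ⟨w, rfl⟩ := mem_range_of_PH h3
      obtain ⟨u, rfl⟩ := (hf₀ w).2 hs
      exact ⟨u, rfl⟩
  have hX : ∀ s, xE s ∈ GG H ↔ ∃ u, (ψ.comp f₀) u = s := fun s => by rw [hf, hE']
  have hY : ∀ s, yE s ∈ GG H ↔ ∃ u, (ψ.comp f₀) u = s := by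
    intro s
    rw [hf]
    by_cases hs : s = 0
    · subst hs
      rw [yE_zero]
      exact ⟨fun _ => E'.zero_mem, fun _ => Subgroup.one_mem _⟩
    · constructor
      · intro h
        have h1 := (inv_F (GG H) h4' one_ne_zero hx1' hs h).1
        have h2 := (hE' _).2 h1
        simpa using E'.inv_mem h2
      · intro h
        have h1 := (hE' _).1 (E'.inv_mem h)
        have h2 := (inv_F (GG H) h4' (inv_ne_zero hs) h1 hb' hyb').2
        simpa using h2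
  have hom := fun g hg hc => om_F (GG H) h4' one_ne_zero hx1' hb' hyb' (g := g) hg hc
  have hsl := sl_le (ψ.comp f₀) hX hY
  have hst := fun {g} (hg : g ∈ GG H) => struct_mat (ψ.comp f₀) hX hY hom hg
  have hle : H ≤ PH (ψ.comp f₀) := by
    intro s hs
    obtain ⟨g, rfl⟩ := pr_surj s
    obtain ⟨t, g₀, ht, hm⟩ := hst (g := g) hs
    exact mem_PH ht hm
  have hy : ∃ y, ∀ u, f₀ u ≠ y := by
    by_contra hcon
    push Not at hcon
    apply hM'L
    rintro _ ⟨g, rfl⟩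
    have hbij : Function.Bijective f₀ := ⟨f₀.injective, fun y => hcon y⟩
    let e' : K ≃+* F := RingEquiv.ofBijective f₀ hbij
    have h1 : Φ (ψ.comp f₀) (Matrix.SpecialLinearGroup.map e'.symm.toRingHom g) = Matrix.SpecialLinearGroup.map ψ g := by
      apply Subtype.ext
      ext i j
      change ψ (f₀ (e'.symm ((g : M2 F) i j))) = ψ ((g : M2 F) i j)
      congr 1
      exact e'.apply_symm_apply _
    have h3 : pr (Matrix.SpecialLinearGroup.map ψ g) ∈ H := by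
      have := hsl (Matrix.SpecialLinearGroup.map e'.symm.toRingHom g)
      rw [h1] at this
      exact this
    rw [hH] at h3
    obtain ⟨m, hm, e⟩ := h3
    have h5 : m = iotaP (pr g) := by
      apply PsiG_inj ψ hsq
      rw [e, PsiG_iota, psMap_pr]
    rw [h5] at hm
    exact hm
  obtain ⟨⟨r, h1, h3, h5, ⟨d⟩⟩, h6⟩ := final_sub ψ hsq hodd hM'c hM'L f₀ (hH ▸ hle) hy
  exact ⟨K, i1, i2, f₀, c, r, h1, h3, h5, hM' ▸ h6, ⟨heq.trans d⟩⟩

end big

end Cfsg.Agent.H09.Dick
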