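import Mathlib
import Cfsg.Agent.Lib.H09.Pgl4

/-! Maximal subgroups of `PGL₂` in odd characteristic: the symmetric group of degree four. -/

set_option autoImplicit false
set_option linter.style.haveILetI false
set_option linter.unusedSectionVars false
set_option linter.unusedSimpArgs false
set_option linter.unusedVariables false

namespace Cfsg.Agent.H09.Dick

open MulAction
open scoped LinearAlgebra.Projectivization MatrixGroups
open Cfsg.Agent.H27.DC Cfsg.Agent.H11.SL2X Cfsg.Agent.H11.SL2T Cfsg.Agent.H03.PS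
open Cfsg.Agent.H14 (e00 e01 e10 e11 trc sl_det e00_mul e01_mul e10_mul e11_mul e00_inv e01_inv e10_inv e11_inv
  e00_one e01_one e10_one e11_one pow_char_of_trc)
open Cfsg.Agent.Lead.DicksonSL (xE yE xE_add yE_add xE_zero yE_zero e00_xE e01_xE e10_xE e11_xE
  e00_yE e01_yE e10_yE e11_yE conjM)
open Cfsg.Agent.Lead (dm wm dm_coe wm_coe wm_sq wm_conj dm_injective)

section gens

open Equiv

/-- Generators of the symmetric group of degree four. -/
def x4S : Perm (Fin 4) := swap 0 1 * swap 2 3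
/-- Generators of the symmetric group of degree four. -/
def y4S : Perm (Fin 4) := swap 0 1 * swap 1 2
/-- Generators of the symmetric group of degree four. -/
def z4S : Perm (Fin 4) := swap 0 1

lemma s4_rels : x4S * x4S = 1 ∧ x4S ≠ 1 ∧ y4S ^ 3 = 1 ∧ y4S ≠ 1 ∧ (x4S * y4S) ^ 3 = 1 ∧ x4S * y4S ≠ 1 ∧
    z4S * x4S * z4S⁻¹ = x4S ∧ z4S * y4S * z4S⁻¹ = y4S⁻¹ := by decide +kernel

lemma s4_words : ∀ g : Perm (Fin 4), ∃ (a b : Fin 2) (c : Fin 3) (d : Fin 2),
    g = z4S ^ (d : ℕ) * x4S ^ (a : ℕ) * (y4S * x4S * y4S⁻¹) ^ (b : ℕ) * y4S ^ (c : ℕ) := by decide +kernel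

theorem s4_gen (N : Subgroup (Perm (Fin 4))) (h1 : x4S ∈ N) (h2 : y4S ∈ N) (h3 : z4S ∈ N) : N = ⊤ := by
  rw [eq_top_iff]
  intro g _
  obtain ⟨a, b, c, d, rfl⟩ := s4_words g
  exact N.mul_mem (N.mul_mem (N.mul_mem (N.pow_mem h3 _) (N.pow_mem h1 _))
    (N.pow_mem (N.mul_mem (N.mul_mem h2 h1) (N.inv_mem h2)) _)) (N.pow_mem h2 _)

end gens

section matrices

variable {F : Type*} [Field F]

lemma irr_A4 (h2 : (2 : F) ≠ 0) {a b : SL2 F} (hta : trc a = 0) (htb : trc b = -1) (htab : trc (a * b) = -1) (v : Fin 2 → F)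
    (hv : v ≠ 0) : ¬ ((∃ l : F, a • v = l • v) ∧ (∃ l : F, b • v = l • v)) := by
  rintro ⟨⟨α, hα⟩, ⟨β, hβ⟩⟩
  have c1 := char_of_eig hv hα
  have c2 := char_of_eig hv hβ
  have hab : (a * b) • v = (β * α) • v := by
    rw [mul_smul, hβ, smul_comm, hα, smul_smul]
  have c3 := char_of_eig hv hab
  rw [hta] at c1
  rw [htb] at c2
  rw [htab] at c3
  have e1 : β * (1 + α) + 2 = 0 := by
    linear_combination c3 - β ^ 2 * c1 + c2
  have e2 : 2 * (β - α + 1) = 0 := by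
    linear_combination (1 - α) * e1 + β * c1
  have e3 : β = α - 1 := by
    have := (mul_eq_zero.1 e2).resolve_left h2
    linear_combination this
  rw [e3] at c2
  have e4 : α = 0 := by
    linear_combination -c2 + c1
  rw [e4] at c1
  simp at c1

lemma conj_trace (g : GL (Fin 2) F) (X : M2 F) {r : F} (h : X * g = r • ((g : M2 F) * X)) : X.trace = r * X.trace := by
  have h1 : ((g⁻¹ : GL (Fin 2) F) : M2 F) * (X * g) = r • X := by
    rw [h, Matrix.mul_smul, ← mul_assoc, ← Matrix.GeneralLinearGroup.coe_mul, inv_mul_cancel]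
    simp
  have h3 := congrArg Matrix.trace h1
  rw [Matrix.trace_mul_comm, mul_assoc, ← Matrix.GeneralLinearGroup.coe_mul, mul_inv_cancel] at h3
  simp only [Matrix.GeneralLinearGroup.coe_one, mul_one, Matrix.trace_smul, smul_eq_mul] at h3
  exact h3

lemma centr_std (h2 : (2 : F) ≠ 0) {b₀ : SL2 F} (htb : trc b₀ = -1) (htab : trc (wm * b₀) = -1) {T : PG F}
    (h1 : T * iotaP (pr wm) = iotaP (pr wm) * T) (h3 : T * iotaP (pr b₀) = iotaP (pr b₀) * T) : T = 1 := by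
  obtain ⟨g, rfl⟩ := Matrix.ProjGenLinGroup.mk_surjective T
  have h1' : mkG (g * Matrix.SpecialLinearGroup.toGL wm) = mkG (Matrix.SpecialLinearGroup.toGL wm * g) := by
    rw [map_mul, map_mul]
    exact h1
  have h3' : mkG (g * Matrix.SpecialLinearGroup.toGL b₀) = mkG (Matrix.SpecialLinearGroup.toGL b₀ * g) := by
    rw [map_mul, map_mul]
    exact h3
  obtain ⟨r, hr, e1⟩ := mkG_eq_iff.1 h1'
  obtain ⟨s, hs, e3⟩ := mkG_eq_iff.1 h3'
  simp only [Matrix.GeneralLinearGroup.coe_mul, toGL_coe'] at e1 e3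
  have htr : ∀ c : SL2 F, ((c : SL2 F) : M2 F).trace = trc c := fun c => (trc_eq_trace c).symm
  have hs1 : s = 1 := by
    have h5 := conj_trace g _ e3
    rw [htr, htb] at h5
    have : (s - 1) * (-1) = 0 := by linear_combination -h5
    have h6 := (mul_eq_zero.1 this).resolve_right (by simp)
    linear_combination h6
  rw [hs1, one_smul] at e3
  have e5 : ((wm * b₀ : SL2 F) : M2 F) * g = r • ((g : M2 F) * ((wm * b₀ : SL2 F) : M2 F)) := by
    rw [Matrix.SpecialLinearGroup.coe_mul, mul_assoc, e3, ← mul_assoc, e1, smul_mul_assoc, mul_assoc]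
  have hr1 : r = 1 := by
    have h5 := conj_trace g _ e5
    rw [htr, htab] at h5
    have : (r - 1) * (-1) = 0 := by linear_combination -h5
    have h6 := (mul_eq_zero.1 this).resolve_right (by simp)
    linear_combination h6
  rw [hr1, one_smul] at e1
  obtain ⟨α, β, γ, δ, hg⟩ : ∃ α β γ δ, (g : M2 F) = !![α, β; γ, δ] := ⟨_, _, _, _, (Matrix.eta_fin_two _)⟩
  obtain ⟨x, y, z, w, hb⟩ : ∃ x y z w, ((b₀ : SL2 F) : M2 F) = !![x, y; z, w] := ⟨_, _, _, _, (Matrix.eta_fin_two _)⟩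
  have hd := b₀.2
  rw [hb, Matrix.det_fin_two_of] at hd
  have ht1 : x + w = -1 := by
    have := htr b₀
    rw [htb, hb, Matrix.trace_fin_two_of] at this
    exact this
  have ht2 : z - y = -1 := by
    rw [trc_wm_mul] at htab
    have e10 : e10 b₀ = z := by
      change ((b₀ : SL2 F) : M2 F) 1 0 = z
      rw [hb]
      rfl
    have e01 : e01 b₀ = y := by
      change ((b₀ : SL2 F) : M2 F) 0 1 = y
      rw [hb]
      rfl
    rw [e10, e01] at htab
    exact htab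
  rw [hg, wm_coe, Matrix.mul_fin_two, Matrix.mul_fin_two] at e1
  rw [hg, hb, Matrix.mul_fin_two, Matrix.mul_fin_two] at e3
  have a00 := congrFun (congrFun e1 0) 0
  have a01 := congrFun (congrFun e1 0) 1
  have c00 := congrFun (congrFun e3 0) 0
  have c01 := congrFun (congrFun e3 0) 1
  simp at a00 a01 c00 c01
  have hβ : β = 0 := by
    by_contra hβ
    have h5 : β * (z + y) = 0 := by
      linear_combination -c00 + y * a00
    have h6 : β * (w - x) = 0 := by
      linear_combination -c01 + y * a01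
    have h7 := (mul_eq_zero.1 h5).resolve_left hβ
    have h8 := (mul_eq_zero.1 h6).resolve_left hβ
    have h9 : (2 : F) = 0 := by
      have e1' : y = - z := by linear_combination h7
      have e2' : w = x := by linear_combination h8
      rw [e1'] at hd ht2
      rw [e2'] at hd ht1
      have e3' : 2 * x = -1 := by linear_combination ht1
      have e4' : 2 * z = -1 := by linear_combination ht2
      linear_combination -4 * hd + (2 * x - 1) * e3' + (2 * z - 1) * e4'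
    exact h2 h9
  apply mkG_eq_one_iff.2
  refine ⟨α, ?_⟩
  rw [hg]
  ext i j
  fin_cases i <;> fin_cases j <;> simp [hβ, a00, a01]

end matrices

section s4main

lemma eq_of_same_action {G : Type*} [Group G] {A B Z W : G} (hZA : Z * A = A * Z) (hZB : Z * B = B⁻¹ * Z) (hWA : W * A = A * W)
    (hWB : W * B = B⁻¹ * W) (hc : ∀ T : G, T * A = A * T → T * B = B * T → T = 1) : Z = W := by
  have h1 : W⁻¹ * A = A * W⁻¹ := by
    calc W⁻¹ * A = W⁻¹ * (A * W) * W⁻¹ := by group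
      _ = W⁻¹ * (W * A) * W⁻¹ := by rw [hWA]
      _ = A * W⁻¹ := by group
  have h3 : W⁻¹ * B⁻¹ = B * W⁻¹ := by
    have e : B⁻¹ = W * B * W⁻¹ := by
      rw [hWB]
      group
    calc W⁻¹ * B⁻¹ = W⁻¹ * (W * B * W⁻¹) := by rw [← e]
      _ = B * W⁻¹ := by group
  have h4 := hc (W⁻¹ * Z) (by rw [mul_assoc, hZA, ← mul_assoc, h1, mul_assoc]) (by rw [mul_assoc, hZB, ← mul_assoc, h3, mul_assoc])
  calc Z = W * (W⁻¹ * Z) := by group
    _ = W := by rw [h4, mul_one]

variable {F E : Type*} [Field F] [Field E] [Fintype F] [Fintype E] (ψ : F →+* E) (hsq : ∀ a : Fˣ, IsSquare (ψ a))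

lemma map_wm : Matrix.SpecialLinearGroup.map ψ (wm : SL2 F) = (wm : SL2 E) := by
  apply Subtype.ext
  change ((wm : SL2 F) : M2 F).map ψ = _
  rw [wm_coe, wm_coe]
  ext i j
  fin_cases i <;> fin_cases j <;> simp

set_option maxHeartbeats 400000 in
include ψ hsq in
theorem s4_case {p : ℕ} [Fact p.Prime] [CharP F p] (hodd : Odd (Fintype.card F)) {M : Subgroup (PG F)} (hM : IsCoatom M)
    (hML : ¬ LL F ≤ M) (e : M ≃* Equiv.Perm (Fin 4)) :
    (Fintype.card F = p ∧ (p % 8 = 3 ∨ p % 8 = 5)) ∨ SubS ψ hsq M := by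
  classical
  have h2 : (2 : F) ≠ 0 := Ring.two_ne_zero (ringChar_ne_two_of_odd hodd)
  obtain ⟨r1, r2, r3, r4, r5, r6, r7, r8⟩ := s4_rels
  obtain ⟨φ, hφdef⟩ : ∃ φ : Equiv.Perm (Fin 4) →* PG F, φ = M.subtype.comp e.symm.toMonoidHom := ⟨_, rfl⟩
  have hφ : Function.Injective φ := by
    rw [hφdef]
    exact M.subtype_injective.comp e.symm.injective
  have hφM : ∀ g, φ g ∈ M := by
    intro g
    rw [hφdef]
    exact (e.symm g).2
  have hy : φ y4S ∈ LL F := mem_LL_of_pow hodd (n := 3) (by decide) (by rw [← map_pow, r3, map_one])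
  have hxy : φ (x4S * y4S) ∈ LL F := mem_LL_of_pow hodd (n := 3) (by decide) (by rw [← map_pow, r5, map_one])
  have hx : φ x4S ∈ LL F := by
    have := (LL F).mul_mem hxy ((LL F).inv_mem hy)
    rw [map_mul] at this
    simpa using this
  obtain ⟨sx, hsx⟩ := exists_iota_of_mem hx
  obtain ⟨sy, hsy⟩ := exists_iota_of_mem hy
  have hne1 : ∀ {g : Equiv.Perm (Fin 4)} {s : PS2 F}, iotaP s = φ g → g ≠ 1 → s ≠ 1 := by
    rintro g s h hg rfl
    apply hg
    apply hφ
    rw [← h, map_one, map_one]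
  have hrel : sx * sx = 1 ∧ sx ≠ 1 ∧ sy ^ 3 = 1 ∧ sy ≠ 1 ∧ (sx * sy) ^ 3 = 1 ∧ sx * sy ≠ 1 := by
    refine ⟨iotaP_inj ?_, hne1 hsx r2, iotaP_inj ?_, hne1 hsy r4, iotaP_inj ?_, hne1 (g := x4S * y4S) (by rw [map_mul, hsx, hsy, map_mul]) r6⟩
    · rw [map_mul, hsx, ← map_mul, r1, map_one, map_one]
    · rw [map_pow, hsy, ← map_pow, r3, map_one, map_one]
    · rw [map_pow, map_mul, hsx, hsy, ← map_mul, ← map_pow, r5, map_one, map_one]
  obtain ⟨a₁, b₁, ha, hb, hta, htb, htab⟩ := lift_A4 h2 (MonoidHom.id _) Function.injective_id hrel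
  obtain ⟨K, i1, i2, f, hf⟩ := typed_sub p (frobField F p 1)
  haveI hKp : CharP K p := (RingHom.charP_iff f f.injective p).2 inferInstance
  have hKo : Fintype.card K % 2 = 1 := Nat.odd_iff.1 (odd_card_of_char (p := p) hodd)
  obtain ⟨B, hB1, hB2⟩ := std_B hKo (-1)
  have htb₀ : trc (Φ f B) = -1 := by
    rw [trc_Φ, hB1, map_neg, map_one]
  have hB3 : e10 B - e01 B = -1 := by
    rw [← trc_wm_mul]
    exact hB2
  have htab₀ : trc (wm * Φ f B) = -1 := by
    rw [trc_wm_mul]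
    change f (e10 B) - f (e01 B) = -1
    rw [← map_sub, hB3, map_neg, map_one]
  obtain ⟨C, hC, hca, hcb⟩ := pair_conj h2 hta trc_wm (htb.trans htb₀.symm) (htab.trans htab₀.symm) (irr_A4 h2 hta htb htab)
  obtain ⟨c, hc⟩ : ∃ c : PG F, c = mkG (glM C hC) := ⟨_, rfl⟩
  have hcx : cjG c (φ x4S) = iotaP (pr wm) := by
    have h3 := iota_αM C hC (pr a₁)
    rw [αM_pr, hca] at h3
    rw [h3, ha, hc, ← hsx]
    rfl
  have hcy : cjG c (φ y4S) = iotaP (pr (Φ f B)) := by
    have h3 := iota_αM C hC (pr b₁)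
    rw [αM_pr, hcb] at h3
    rw [h3, hb, hc, ← hsy]
    rfl
  have hd := sl_det B
  have hB1' : e00 B + e11 B = -1 := hB1
  have hy' : e01 B = e10 B + 1 := by linear_combination -hB3
  have hw' : e11 B = -1 - e00 B := by linear_combination hB1'
  rw [hy', hw'] at hd
  obtain ⟨C₀, hC₀⟩ : ∃ C₀ : M2 K, C₀ = !![2 * e10 B + 1, -(2 * e00 B + 1); -(2 * e00 B + 1), -(2 * e10 B + 1)] := ⟨_, rfl⟩
  have hC₀det : C₀.det = 2 := by
    rw [hC₀, Matrix.det_fin_two_of]
    linear_combination 4 * hd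
  have hdetW : (C₀.map f).det = 2 := by
    rw [← RingHom.mapMatrix_apply, ← RingHom.map_det, hC₀det, map_ofNat]
  have hdet0 : (C₀.map f).det ≠ 0 := by
    rw [hdetW]
    exact h2
  obtain ⟨x₀, hx₀⟩ : ∃ x₀, x₀ = f (e00 B) := ⟨_, rfl⟩
  obtain ⟨z₀, hz₀⟩ : ∃ z₀, z₀ = f (e10 B) := ⟨_, rfl⟩
  have hR : x₀ * (-1 - x₀) - (z₀ + 1) * z₀ = 1 := by
    rw [hx₀, hz₀]
    have := congrArg f hd
    simpa using this
  have hC' : C₀.map f = !![2 * z₀ + 1, -(2 * x₀ + 1); -(2 * x₀ + 1), -(2 * z₀ + 1)] := by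
    rw [hC₀, hx₀, hz₀]
    ext i j
    fin_cases i <;> fin_cases j <;> simp [map_ofNat]
  have hb₀ : ((Φ f B : SL2 F) : M2 F) = !![x₀, z₀ + 1; z₀, -1 - x₀] := by
    rw [hx₀, hz₀]
    ext i j
    fin_cases i <;> fin_cases j
    · rfl
    · change f (e01 B) = _
      rw [hy']
      simp
    · rfl
    · change f (e11 B) = _
      rw [hw']
      simp
  obtain ⟨W, hW⟩ : ∃ W : GL (Fin 2) F, W = glM (C₀.map f) hdet0 := ⟨_, rfl⟩
  have hWc : (W : M2 F) = !![2 * z₀ + 1, -(2 * x₀ + 1); -(2 * x₀ + 1), -(2 * z₀ + 1)] := by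
    rw [hW, glM_coe, hC']
  have hWA : mkG W * iotaP (pr wm) = iotaP (pr wm) * mkG W := by
    rw [iotaP_pr, ← map_mul, ← map_mul]
    apply mkG_eq_iff.2
    refine ⟨-1, by simp, ?_⟩
    rw [Matrix.GeneralLinearGroup.coe_mul, Matrix.GeneralLinearGroup.coe_mul, toGL_coe', hWc, wm_coe, Matrix.mul_fin_two, Matrix.mul_fin_two]
    ext i j
    fin_cases i <;> fin_cases j <;> simp <;> ring
  have hWB : mkG W * iotaP (pr (Φ f B)) = (iotaP (pr (Φ f B)))⁻¹ * mkG W := by
    rw [eq_inv_mul_iff_mul_eq, ← mul_assoc, iotaP_pr, ← map_mul, ← map_mul]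
    apply mkG_eq_iff.2
    refine ⟨1, one_ne_zero, ?_⟩
    rw [Matrix.GeneralLinearGroup.coe_mul, Matrix.GeneralLinearGroup.coe_mul, toGL_coe', hWc, hb₀, Matrix.mul_fin_two, Matrix.mul_fin_two, one_smul]
    ext i j
    fin_cases i <;> fin_cases j <;> simp
    · linear_combination -(2 * z₀ + 1) * hR
    · linear_combination (2 * x₀ + 1) * hR
    · linear_combination (2 * x₀ + 1) * hR
    · linear_combination (2 * z₀ + 1) * hR
  have r7' : z4S * x4S = x4S * z4S := mul_inv_eq_iff_eq_mul.1 r7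
  have r8' : z4S * y4S = y4S⁻¹ * z4S := mul_inv_eq_iff_eq_mul.1 r8
  have hZA : cjG c (φ z4S) * iotaP (pr wm) = iotaP (pr wm) * cjG c (φ z4S) := by
    rw [← hcx]
    calc cjG c (φ z4S) * cjG c (φ x4S) = cjG c (φ (z4S * x4S)) := by simp only [map_mul]
      _ = cjG c (φ (x4S * z4S)) := by rw [r7']
      _ = _ := by simp only [map_mul]
  have hZB : cjG c (φ z4S) * iotaP (pr (Φ f B)) = (iotaP (pr (Φ f B)))⁻¹ * cjG c (φ z4S) := by
    rw [← hcy]
    calc cjG c (φ z4S) * cjG c (φ y4S) = cjG c (φ (z4S * y4S)) := by simp only [map_mul]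
      _ = cjG c (φ (y4S⁻¹ * z4S)) := by rw [r8']
      _ = _ := by simp only [map_mul, map_inv]
  have hZW : cjG c (φ z4S) = mkG W :=
    eq_of_same_action hZA hZB hWA hWB (fun T h5 h6 => centr_std h2 htb₀ htab₀ h5 h6)
  haveI hLn := normal_LL hodd
  have hns : ¬ IsSquare (2 : F) := by
    intro hs
    have h3 : mkG W ∈ LL F := by
      apply mem_LL_iff.2
      rw [hW, glM_coe, hdetW]
      exact hs
    rw [← hZW] at h3
    have h5 : c⁻¹ * cjG c (φ z4S) * c⁻¹⁻¹ ∈ LL F := hLn.conj_mem _ h3 _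
    have h6 : φ z4S ∈ LL F := by
      have e1 : c⁻¹ * cjG c (φ z4S) * c⁻¹⁻¹ = φ z4S := by
        rw [cjG_apply]
        group
      rwa [e1] at h5
    apply not_le_LL hodd hM hML
    have h7 := s4_gen ((LL F).comap φ) hx hy h6
    intro m hm
    have h8 : e ⟨m, hm⟩ ∈ (LL F).comap φ := by
      rw [h7]
      exact Subgroup.mem_top _
    have h9 : φ (e ⟨m, hm⟩) = m := by
      rw [hφdef]
      simp
    rw [← h9]
    exact h8
  have hN := s4_gen ((PH (ψ.comp f)).comap ((PsiG ψ hsq).comp ((cjG c).comp φ)))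
    (by
      change PsiG ψ hsq (cjG c (φ x4S)) ∈ PH (ψ.comp f)
      rw [hcx, PsiG_iota, psMap_pr, map_wm]
      exact wm_mem_PH _)
    (by
      change PsiG ψ hsq (cjG c (φ y4S)) ∈ PH (ψ.comp f)
      rw [hcy, PsiG_iota, psMap_pr]
      exact Φ_mem_PH (ψ.comp f) B)
    (by
      change PsiG ψ hsq (cjG c (φ z4S)) ∈ PH (ψ.comp f)
      rw [hZW]
      obtain ⟨γ, t, ht, hγ, e'⟩ := PsiG_lift ψ hsq W
      rw [e']
      refine mem_PH (g₀ := C₀) ht ?_
      rw [hγ, hW, glM_coe]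
      rfl)
  obtain ⟨M', hM'⟩ : ∃ M' : Subgroup (PG F), M' = M.map (cjG c) := ⟨_, rfl⟩
  have hM'c : IsCoatom M' := hM' ▸ coatom_map_bij (cjG_bij c) hM
  have hM'L : ¬ LL F ≤ M' := hM' ▸ not_le_cj hodd c hML
  have heq : M ≃* M' := (M.equivMapOfInjective _ (cjG_bij c).1).trans (MulEquiv.subgroupCongr hM'.symm)
  have hle : M'.map (PsiG ψ hsq) ≤ PH (ψ.comp f) := by
    rw [hM']
    rintro _ ⟨_, ⟨m, hm, rfl⟩, rfl⟩
    have h8 : e ⟨m, hm⟩ ∈ (PH (ψ.comp f)).comap ((PsiG ψ hsq).comp ((cjG c).comp φ)) := by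
      rw [hN]
      exact Subgroup.mem_top _
    have h9 : φ (e ⟨m, hm⟩) = m := by
      rw [hφdef]
      simp
    have h10 : PsiG ψ hsq (cjG c (φ (e ⟨m, hm⟩))) ∈ PH (ψ.comp f) := h8
    rwa [h9] at h10
  by_cases hsurj : ∀ y, ∃ u, f u = y
  · left
    have hall : ∀ y : F, y ^ p = y := by
      intro y
      have := (hf y).1 (hsurj y)
      rwa [mem_frobField, pow_one] at this
    have hq := q_eq_p hall
    refine ⟨hq, ?_⟩
    by_contra hcon
    apply hns
    apply FiniteField.isSquare_two_iff.2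
    rw [hq]
    omega
  · right
    push Not at hsurj
    obtain ⟨⟨r, h1, h3, h5, ⟨d⟩⟩, h6⟩ := final_sub ψ hsq hodd hM'c hM'L f hle hsurj
    exact ⟨K, i1, i2, f, c, r, h1, h3, h5, hM' ▸ h6, ⟨heq.trans d⟩⟩

end s4main

end Cfsg.Agent.H09.Dick
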