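import Mathlib
import Cfsg.Agent.Lib.H09.Pgl5

/-! Maximal subgroups of `PGL₂` in odd characteristic: the main theorem. -/

set_option autoImplicit false
set_option linter.style.haveILetI false
set_option linter.unusedSectionVars false
set_option linter.unusedSimpArgs false
set_option linter.unusedVariables false

namespace Cfsg.Agent.H09.Dick

open MulAction
open scoped LinearAlgebra.Projectivization MatrixGroups
open Cfsg.Agent.H27.DC Cfsg.Agent.H11.SL2X Cfsg.Agent.H11.SL2T Cfsg.Agent.H03.PS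
open Cfsg.Agent.H14 (e00 e01 e10 e11 trc sl_det e00_mul e01_mul e10_mul e11_mul e00_inv e01_inv e10_inv e11_inv
  e00_one e01_one e10_one e11_one pow_char_of_trc)
open Cfsg.Agent.Lead.DicksonSL (xE yE xE_add yE_add xE_zero yE_zero e00_xE e01_xE e10_xE e11_xE
  e00_yE e01_yE e10_yE e11_yE conjM)
open Cfsg.Agent.Lead (dm wm dm_coe wm_coe wm_sq wm_conj dm_injective)

section five

open scoped Pointwise in
/-- Two subgroups of order `4` in a group of order `60` are conjugate. -/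
lemma sylow_conj_four {G : Type*} [Group G] [Finite G] (hG : Nat.card G = 60) {P Q : Subgroup G} (hP : Nat.card P = 4) (hQ : Nat.card Q = 4) :
    ∃ h : G, Q.map (MulAut.conj h).toMonoidHom = P := by
  haveI : Fact (Nat.Prime 2) := ⟨Nat.prime_two⟩
  have hsyl : ∀ R : Subgroup G, Nat.card R = 4 → ∃ S : Sylow 2 G, (S : Subgroup G) = R := by
    intro R hR
    have hpg : IsPGroup 2 R := IsPGroup.of_card (n := 2) (by rw [hR]; rfl)
    obtain ⟨S, hS⟩ := hpg.exists_le_sylow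
    refine ⟨S, ?_⟩
    obtain ⟨n, hn⟩ := IsPGroup.iff_card.1 S.isPGroup'
    have hd : 2 ^ n ∣ 60 := by
      rw [← hn, ← hG]
      exact Subgroup.card_subgroup_dvd_card _
    have hn2 : n ≤ 2 := by
      by_contra hcon
      have h8 : 2 ^ 3 ∣ 2 ^ n := pow_dvd_pow 2 (by omega)
      have := dvd_trans h8 hd
      norm_num at this
    have hle : 2 ^ n ≤ 2 ^ 2 := Nat.pow_le_pow_right (by norm_num) hn2
    symm
    apply Subgroup.eq_of_le_of_card_ge hS
    rw [hR, hn]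
    exact hle
  obtain ⟨S₁, hS₁⟩ := hsyl P hP
  obtain ⟨S₂, hS₂⟩ := hsyl Q hQ
  obtain ⟨h, hh⟩ := MulAction.exists_smul_eq G S₂ S₁
  refine ⟨h, ?_⟩
  have e1 : ((h • S₂ : Sylow 2 G) : Subgroup G) = MulAut.conj h • (S₂ : Subgroup G) := by
    rw [Sylow.smul_def, Sylow.pointwise_smul_def]
  rw [← hS₁, ← hh, ← hS₂, e1]
  rfl

variable {F : Type*} [Field F] [Fintype F]

theorem no_D4 {p : ℕ} [Fact p.Prime] [CharP F p] (hq : Fintype.card F = 5) (hodd : Odd (Fintype.card F)) {M : Subgroup (PG F)} (hM : IsCoatom M)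
    (hML : ¬ LL F ≤ M) (e : M ≃* DihedralGroup 4) : False := by
  classical
  haveI hLn := normal_LL hodd
  have hMc : Nat.card M = 8 := by rw [card_of_iso e, DihedralGroup.nat_card]
  have hPS : Nat.card (PS2 F) = 60 := by
    have h1 := card_G hodd
    rw [hq, show 5 * (5 ^ 2 - 1) = 120 by norm_num] at h1
    omega
  -- the intersection with `PSL₂`
  have hrel : (LL F).relIndex M = 2 := by
    have h1 : (LL F).relIndex M ∣ (LL F).index := Subgroup.relIndex_dvd_index_of_normal _ _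
    rw [index_LL hodd] at h1
    rcases (Nat.dvd_prime Nat.prime_two).1 h1 with h3 | h3
    · exact absurd (Subgroup.relIndex_eq_one.1 h3) (not_le_LL hodd hM hML)
    · exact h3
  obtain ⟨P, hPdef⟩ : ∃ P, P = M.comap (iotaP (F := F)) := ⟨_, rfl⟩
  have hPmap : P.map iotaP = LL F ⊓ M := by
    rw [hPdef, Subgroup.map_comap_eq, range_iotaP]
  have hPc : Nat.card P = 4 := by
    have h1 : Nat.card P = Nat.card (P.map iotaP) := Nat.card_congr (P.equivMapOfInjective _ iotaP_inj).toEquiv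
    have h3 : Nat.card ((LL F).subgroupOf M) = Nat.card ↥(LL F ⊓ M) := by
      rw [← Subgroup.subgroupOf_map_subtype]
      exact Nat.card_congr (((LL F).subgroupOf M).equivMapOfInjective _ M.subtype_injective).toEquiv
    have h4 := Subgroup.card_mul_index ((LL F).subgroupOf M)
    have h5 : ((LL F).subgroupOf M).index = 2 := hrel
    rw [h5, hMc] at h4
    rw [h1, hPmap, ← h3]
    omega
  -- a copy of `A₄`
  obtain ⟨n, -, hn⟩ := FiniteField.card F p
  obtain ⟨X, ⟨d⟩⟩ : ∃ X : Subgroup (PS2 F), Nonempty (X ≃* alternatingGroup (Fin 4)) := (Cfsg.Agent.S0802.result p n hn).2 (by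
    rintro ⟨hp, -⟩
    subst hp
    rw [hn] at hodd
    exact absurd hodd (by simp [Nat.odd_pow_iff, n.ne_zero]))
  obtain ⟨ρ, hρ⟩ : ∃ ρ : alternatingGroup (Fin 4) →* PS2 F, ρ = X.subtype.comp d.symm.toMonoidHom := ⟨_, rfl⟩
  have hρi : Function.Injective ρ := by
    rw [hρ]
    exact X.subtype_injective.comp d.symm.injective
  have hcard4 : Nat.card (Fin 4) = 4 := by simp
  obtain ⟨Q, hQ⟩ : ∃ Q, Q = (alternatingGroup.kleinFour (Fin 4)).map ρ := ⟨_, rfl⟩
  have hQc : Nat.card Q = 4 := by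
    rw [hQ, ← Nat.card_congr ((alternatingGroup.kleinFour (Fin 4)).equivMapOfInjective _ hρi).toEquiv]
    exact alternatingGroup.kleinFour_card_of_card_eq_four hcard4
  obtain ⟨h, hh⟩ := sylow_conj_four hPS hPc hQc
  haveI hVn := alternatingGroup.normal_kleinFour (α := Fin 4) hcard4
  have hnorm : ∀ (g : alternatingGroup (Fin 4)), ∀ s ∈ P, (h * ρ g * h⁻¹) * s * (h * ρ g * h⁻¹)⁻¹ ∈ P := by
    intro g s hs
    rw [← hh, hQ] at hs
    obtain ⟨_, ⟨v, hv, rfl⟩, rfl⟩ := hs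
    rw [← hh, hQ]
    refine ⟨_, ⟨g * v * g⁻¹, hVn.conj_mem v hv g, rfl⟩, ?_⟩
    change h * ρ (g * v * g⁻¹) * h⁻¹ = _
    rw [map_mul, map_mul, map_inv]
    simp only [MulAut.conj_apply, MulEquiv.coe_toMonoidHom]
    group
  obtain ⟨_, _, h3, h4, _, _⟩ := a4g_rel
  obtain ⟨y, hy⟩ : ∃ y, y = iotaP (h * ρ b4g * h⁻¹) := ⟨_, rfl⟩
  have hy3 : y ^ 3 = 1 := by
    rw [hy, ← map_pow]
    have e1 : (h * ρ b4g * h⁻¹) ^ 3 = h * ρ (b4g ^ 3) * h⁻¹ := by
      rw [map_pow, conj_pow]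
    rw [e1, h3, map_one]
    simp
  have hy1 : y ≠ 1 := by
    intro h5
    rw [hy] at h5
    have h6 : h * ρ b4g * h⁻¹ = 1 := iotaP_inj (h5.trans (map_one _).symm)
    have h7 : ρ b4g = 1 := by
      have : ρ b4g = h⁻¹ * (h * ρ b4g * h⁻¹) * h := by group
      rw [this, h6]
      group
    exact h4 (hρi (h7.trans (map_one _).symm))
  have hy2 : y⁻¹ = iotaP (h * ρ b4g⁻¹ * h⁻¹) := by
    have e1 : (h * ρ b4g * h⁻¹)⁻¹ = h * ρ b4g⁻¹ * h⁻¹ := by
      rw [map_inv]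
      group
    rw [hy, ← map_inv, e1]
  have hyM : y ∉ M := by
    intro h5
    haveI : Fact (Nat.Prime 3) := ⟨Nat.prime_three⟩
    have h6 : orderOf y = 3 := orderOf_eq_prime hy3 hy1
    have h7 := Subgroup.orderOf_dvd_natCard M h5
    rw [h6, hMc] at h7
    norm_num at h7
  have hmemP : ∀ u, u ∈ LL F ⊓ M → ∃ s ∈ P, iotaP s = u := by
    intro u hu
    rw [← hPmap] at hu
    obtain ⟨s, hs, rfl⟩ := hu
    exact ⟨s, hs, rfl⟩
  have hyN : y ∈ Subgroup.normalizer (LL F ⊓ M : Subgroup (PG F)) := by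
    have hfw : ∀ (g : alternatingGroup (Fin 4)) (u : PG F), u ∈ LL F ⊓ M → iotaP (h * ρ g * h⁻¹) * u * (iotaP (h * ρ g * h⁻¹))⁻¹ ∈ LL F ⊓ M := by
      intro g u hu
      obtain ⟨s, hs, rfl⟩ := hmemP u hu
      rw [← hPmap]
      refine ⟨_, hnorm g s hs, ?_⟩
      rw [map_mul, map_mul, map_inv]
    rw [Subgroup.mem_normalizer_iff]
    intro u
    constructor
    · intro hu
      rw [hy]
      exact hfw _ u hu
    · intro hu
      have h5 := hfw b4g⁻¹ _ hu
      rw [← hy2] at h5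
      have e1 : y⁻¹ * (y * u * y⁻¹) * y⁻¹⁻¹ = u := by group
      rwa [e1] at h5
  have hMN : M ≤ Subgroup.normalizer (LL F ⊓ M : Subgroup (PG F)) := by
    intro m hm
    rw [Subgroup.mem_normalizer_iff]
    intro u
    constructor
    · rintro ⟨h5, h6⟩
      exact ⟨hLn.conj_mem u h5 m, M.mul_mem (M.mul_mem hm h6) (M.inv_mem hm)⟩
    · rintro ⟨h5, h6⟩
      have e1 : u = m⁻¹ * (m * u * m⁻¹) * m⁻¹⁻¹ := by group
      rw [e1]
      exact ⟨hLn.conj_mem _ h5 _, M.mul_mem (M.mul_mem (M.inv_mem hm) h6) (M.inv_mem (M.inv_mem hm))⟩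
  have hlt : M < Subgroup.normalizer (LL F ⊓ M : Subgroup (PG F)) := by
    refine lt_of_le_of_ne hMN ?_
    intro e1
    exact hyM (e1 ▸ hyN)
  have htop := hM.2 _ hlt
  haveI : IsSimpleGroup (PS2 F) := Cfsg.Agent.H11.PSL_simple' 2 le_rfl (by omega)
  have hPn : P.Normal := by
    refine ⟨fun s hs g => ?_⟩
    have h5 : iotaP g ∈ Subgroup.normalizer (LL F ⊓ M : Subgroup (PG F)) := by
      rw [htop]
      exact Subgroup.mem_top _
    rw [Subgroup.mem_normalizer_iff] at h5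
    have h6 : iotaP s ∈ LL F ⊓ M := by
      rw [← hPmap]
      exact ⟨s, hs, rfl⟩
    have h7 := (h5 _).1 h6
    rw [hPdef]
    change iotaP (g * s * g⁻¹) ∈ M
    rw [map_mul, map_mul, map_inv]
    exact h7.2
  rcases (inferInstance : IsSimpleGroup (PS2 F)).eq_bot_or_eq_top_of_normal P hPn with h5 | h5
  · rw [h5, Subgroup.card_bot] at hPc
    omega
  · rw [h5, Subgroup.card_top] at hPc
    omega

end five

section main

universe u

variable {F : Type u} [Field F] [Fintype F]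

/-- An extension field into which `PGL₂` embeds. -/
lemma exists_ext_sq (F : Type u) [Field F] [Fintype F] : ∃ (E : Type u) (_ : Field E) (_ : Fintype E) (ψ : F →+* E) (hsq : ∀ a : Fˣ, IsSquare (ψ a)),
    ∀ t : F, ∃ l : E, l * l - ψ t * l + 1 = 0 := by
  obtain ⟨E, _, _, _, hE⟩ := exists_ext2 F
  obtain ⟨ψ, hψ⟩ : ∃ ψ : F →+* E, ψ = algebraMap F E := ⟨_, rfl⟩
  rw [← hψ] at hE
  refine ⟨E, inferInstance, inferInstance, ψ, ?_, ?_⟩
  · intro a
    obtain ⟨l, hl⟩ := hE 0 (-(a : F))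
    refine ⟨l, ?_⟩
    simp only [map_zero, zero_mul, sub_zero, map_neg] at hl
    linear_combination -hl
  · intro t
    obtain ⟨l, hl⟩ := hE t 1
    rw [map_one] at hl
    exact ⟨l, hl⟩

/-- The structure of the maximal subgroups of `PGL₂` not containing `PSL₂` in odd characteristic. -/
theorem max_pgl_struct {E : Type u} [Field E] [Fintype E] (ψ : F →+* E) (hsq : ∀ a : Fˣ, IsSquare (ψ a))
    (hK : ∀ t : F, ∃ l : E, l * l - ψ t * l + 1 = 0) (hodd : Odd (Fintype.card F)) (h3 : 3 < Fintype.card F) {M : Subgroup (PG F)}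
    (hM : IsCoatom M) (hML : ¬ LL F ≤ M) :
    (∃ x : XX F, ∀ h ∈ M, h • x = x) ∨ TorS M ∨
    ((Fintype.card F).Prime ∧ (Fintype.card F % 8 = 3 ∨ Fintype.card F % 8 = 5) ∧ Nonempty (M ≃* Equiv.Perm (Fin 4))) ∨
    SubS ψ hsq M := by
  classical
  obtain ⟨p, hchar⟩ := CharP.exists F
  haveI hpf : Fact p.Prime := ⟨CharP.char_is_prime F p⟩
  have hp : p.Prime := Fact.out
  have hqo : Fintype.card F % 2 = 1 := Nat.odd_iff.1 hodd
  have h5 : 5 ≤ Fintype.card F := by omega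
  haveI hcE : CharP E p := charP_of_injective_ringHom ψ.injective p
  obtain ⟨H, hH⟩ : ∃ H, H = M.map (PsiG ψ hsq) := ⟨_, rfl⟩
  have e₀ : M ≃* H := (M.equivMapOfInjective _ (PsiG_inj ψ hsq)).trans (MulEquiv.subgroupCongr hH.symm)
  have hpE : p ∣ Fintype.card E := by
    obtain ⟨n, -, hn⟩ := FiniteField.card E p
    rw [hn]
    exact dvd_pow_self p n.ne_zero
  rcases dickson_int2 rfl p H with ⟨k, hk, ha⟩ | ⟨x, hx⟩ | ⟨⟨e⟩⟩ | ⟨⟨e⟩⟩ | ⟨⟨e⟩⟩ | ⟨C₁, hC₁, C₂, hC₂, h41, hx1, b, hb, hyb⟩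
  · have hnp : ¬ p ∣ k := not_dvd_of_k hp hpE (card_two_le E) hk
    right
    left
    rcases ha with ⟨hcyc, -⟩ | ⟨⟨e⟩⟩
    · haveI := hcyc
      exact cyc_case (p := p) hodd h5 hM hML (isCyclic_of_surjective e₀.symm.toMonoidHom e₀.symm.surjective)
    · exact dih_case (p := p) hodd h5 hM hnp (e₀.trans e)
  · have hev : ∀ g : GL (Fin 2) F, mkG g ∈ M → ∃ l : E, ψ ((g : M2 F) 0 0) * x.rep 0 + ψ ((g : M2 F) 0 1) * x.rep 1 = l * x.rep 0 ∧
        ψ ((g : M2 F) 1 0) * x.rep 0 + ψ ((g : M2 F) 1 1) * x.rep 1 = l * x.rep 1 := by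
      intro g hg
      obtain ⟨γ, t, ht, hγ, e'⟩ := PsiG_lift ψ hsq g
      have h6 : actP (pr γ) x = x := by
        rw [← e']
        apply hx
        rw [hH]
        exact ⟨_, hg, rfl⟩
      obtain ⟨l, hl⟩ := eig_of_fix γ h6
      have hc : ∀ i, t * (ψ ((g : M2 F) i 0) * x.rep 0 + ψ ((g : M2 F) i 1) * x.rep 1) = l * x.rep i := by
        intro i
        have h7 := congrFun hl i
        have h8 : (γ • x.rep) i = (γ : M2 E) i 0 * x.rep 0 + (γ : M2 E) i 1 * x.rep 1 := by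
          change ((γ : M2 E).mulVec x.rep) i = _
          simp [Matrix.mulVec, dotProduct, Fin.sum_univ_two]
        rw [h8, hγ] at h7
        simp only [Matrix.smul_apply, Matrix.map_apply, smul_eq_mul, Pi.smul_apply] at h7
        linear_combination h7
      refine ⟨l / t, ?_, ?_⟩
      · field_simp
        linear_combination hc 0
      · field_simp
        linear_combination hc 1
    rcases fix_or_cyc ψ x.rep_nonzero hev with hx₀ | hcyc
    · exact Or.inl hx₀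
    · exact Or.inr (Or.inl (cyc_case (p := p) hodd h5 hM hML hcyc))
  · obtain ⟨_, _, r3, _, r5, _⟩ := a4g_rel
    exact absurd (le_LL_of_gen hodd (e₀.trans e) gen_A4 (n₁ := 3) (n₂ := 3) (by decide) (by decide) r5 r3) (not_le_LL hodd hM hML)
  · rcases s4_case ψ hsq hodd hM hML (e₀.trans e) with ⟨h6, h7⟩ | h6
    · right
      right
      left
      refine ⟨h6 ▸ hp, ?_, ⟨e₀.trans e⟩⟩
      rw [h6]
      exact h7
    · exact Or.inr (Or.inr (Or.inr h6))
  · obtain ⟨_, _, r3, _, r5, _⟩ := a5g_rel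
    exact absurd (le_LL_of_gen hodd (e₀.trans e) gen_A5 (n₁ := 5) (n₂ := 3) (by decide) (by decide) r5 r3) (not_le_LL hodd hM hML)
  · rw [hH] at h41 hx1 hyb
    obtain ⟨C₁', hC₁', C₂', hC₂', h42, hx2, b', hb', hyb'⟩ := big_descend ψ hsq hodd hK C₁ hC₁ C₂ hC₂ h41 hx1 hb hyb
    exact Or.inr (Or.inr (Or.inr (big_final ψ hsq hodd hM hML C₁' hC₁' C₂' hC₂' h42 hx2 hb' hyb')))

/-- The maximal subgroups of `PGL₂` not containing `PSL₂` in odd characteristic. -/
theorem max_pgl_odd (hodd : Odd (Fintype.card F)) (h3 : 3 < Fintype.card F) {M : Subgroup (PG F)} (hM : IsCoatom M) (hML : ¬ LL F ≤ M) :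
    Nat.card M = Fintype.card F * (Fintype.card F - 1) ∨
    (Fintype.card F ≠ 5 ∧ Nonempty (M ≃* DihedralGroup (Fintype.card F - 1))) ∨
    Nonempty (M ≃* DihedralGroup (Fintype.card F + 1)) ∨
    ((Fintype.card F).Prime ∧ (Fintype.card F % 8 = 3 ∨ Fintype.card F % 8 = 5) ∧ Nonempty (M ≃* Equiv.Perm (Fin 4))) ∨
    (∃ (F₀ : Type) (_ : Field F₀) (_ : Fintype F₀) (r : ℕ), r.Prime ∧ Odd r ∧ Fintype.card F = Fintype.card F₀ ^ r ∧
        Nonempty (M ≃* Matrix.ProjGenLinGroup (Fin 2) F₀)) := by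
  obtain ⟨E, _, _, ψ, hsq, hK⟩ := exists_ext_sq F
  obtain ⟨p, hchar⟩ := CharP.exists F
  haveI hpf : Fact p.Prime := ⟨CharP.char_is_prime F p⟩
  rcases max_pgl_struct ψ hsq hK hodd h3 hM hML with ⟨x, hx⟩ | ⟨δ, c₀, k, -, -, -, -, -, -, ⟨e⟩, h6⟩ | h6 | ⟨F₀, i1, i2, f₀, c, r, h1, h2, h5, -, d⟩
  · exact Or.inl (borel_G hM hx)
  · right
    rcases h6 with ⟨-, rfl⟩ | ⟨-, rfl⟩
    · left
      refine ⟨?_, ⟨e⟩⟩
      intro h7
      rw [h7] at e
      exact no_D4 (p := p) h7 hodd hM hML e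
    · right
      left
      exact ⟨e⟩
  · exact Or.inr (Or.inr (Or.inr (Or.inl h6)))
  · exact Or.inr (Or.inr (Or.inr (Or.inr ⟨F₀, i1, i2, r, h1, h2, h5, d⟩)))

end main

end Cfsg.Agent.H09.Dick
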