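import Mathlib
import Cfsg.Agent.Lib.H09.Pgl6

/-! Maximal subgroups of `PGL₂` not containing `PSL₂` meet `PSL₂` in a maximal subgroup. -/

set_option autoImplicit false
set_option linter.style.haveILetI false
set_option linter.unusedSectionVars false
set_option linter.unusedSimpArgs false
set_option linter.unusedVariables false

namespace Cfsg.Agent.H09.Dick

open MulAction
open scoped LinearAlgebra.Projectivization MatrixGroups
open Cfsg.Agent.H27.DC Cfsg.Agent.H11.SL2X Cfsg.Agent.H11.SL2T Cfsg.Agent.H03.PS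
open Cfsg.Agent.H14 (e00 e01 e10 e11 trc sl_det e00_mul e01_mul e10_mul e11_mul e00_inv e01_inv e10_inv e11_inv
  e00_one e01_one e10_one e11_one pow_char_of_trc)
open Cfsg.Agent.Lead.DicksonSL (xE yE xE_add yE_add xE_zero yE_zero e00_xE e01_xE e10_xE e11_xE
  e00_yE e01_yE e10_yE e11_yE conjM)
open Cfsg.Agent.Lead (dm wm dm_coe wm_coe wm_sq wm_conj dm_injective)

section transfer

variable {F : Type*} [Field F] [Fintype F]

theorem coatom_transfer {M : Subgroup (PG F)} (h : IsCoatom (M.comap (iotaP (F := F)))) :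
    IsCoatom ((M ⊓ LL F).subgroupOf (LL F)) := by
  refine ⟨fun h1 => h.1 ?_, fun N hN => ?_⟩
  · rw [eq_top_iff]
    intro s _
    have h2 : (⟨iotaP s, mem_LL_of_iota s⟩ : LL F) ∈ (M ⊓ LL F).subgroupOf (LL F) := by
      rw [h1]
      trivial
    rw [Subgroup.mem_subgroupOf] at h2
    exact h2.1
  · obtain ⟨φ, hφ⟩ : ∃ φ : PS2 F →* LL F, ∀ s, (φ s : PG F) = iotaP s :=
      ⟨iotaP.codRestrict (LL F) mem_LL_of_iota, fun _ => rfl⟩
    have hsur : ∀ y : LL F, ∃ s, φ s = y := by
      intro y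
      obtain ⟨s, hs⟩ := exists_iota_of_mem y.2
      exact ⟨s, Subtype.ext ((hφ s).trans hs)⟩
    obtain ⟨x, hx, hx'⟩ := SetLike.exists_of_lt hN
    have hlt : M.comap (iotaP (F := F)) < N.comap φ := by
      refine lt_of_le_of_ne ?_ ?_
      · intro s hs
        apply hN.le
        rw [Subgroup.mem_subgroupOf]
        refine ⟨?_, (φ s).2⟩
        rw [hφ]
        exact hs
      · intro e
        obtain ⟨s, rfl⟩ := hsur x
        have h3 : s ∈ N.comap φ := hx
        rw [← e] at h3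
        apply hx'
        rw [Subgroup.mem_subgroupOf]
        refine ⟨?_, (φ s).2⟩
        rw [hφ]
        exact h3
    have h3 := h.2 _ hlt
    rw [eq_top_iff]
    intro y _
    obtain ⟨s, rfl⟩ := hsur y
    have : s ∈ N.comap φ := by
      rw [h3]
      trivial
    exact this

lemma comap_map_cj (g : GL (Fin 2) F) (M : Subgroup (PG F)) :
    (M.comap (iotaP (F := F))).map (αM (g : M2 F) (gl_det_ne g)) = (M.map (cjG (mkG g))).comap iotaP := by
  have hg : glM (g : M2 F) (gl_det_ne g) = g := Units.ext (glM_coe _ _)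
  ext s
  constructor
  · rintro ⟨s₀, hs₀, rfl⟩
    change iotaP (αM (g : M2 F) (gl_det_ne g) s₀) ∈ M.map (cjG (mkG g))
    rw [iota_αM, hg]
    exact ⟨_, hs₀, rfl⟩
  · intro hs
    have hsur : Function.Surjective (αM (g : M2 F) (gl_det_ne g)) :=
      Finite.injective_iff_surjective.1 (αM_inj _ _)
    obtain ⟨s₀, rfl⟩ := hsur s
    refine ⟨s₀, ?_, rfl⟩
    change iotaP (αM (g : M2 F) (gl_det_ne g) s₀) ∈ M.map (cjG (mkG g)) at hs
    rw [iota_αM, hg] at hs
    obtain ⟨x, hx, e⟩ := hs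
    have e2 := (cjG_bij (mkG g)).1 e
    change iotaP s₀ ∈ M
    rw [← e2]
    exact hx

lemma coatom_of_conj {M : Subgroup (PG F)} (c : PG F) (h : IsCoatom ((M.map (cjG c)).comap (iotaP (F := F)))) :
    IsCoatom (M.comap (iotaP (F := F))) := by
  obtain ⟨g, hg⟩ : ∃ g : GL (Fin 2) F, mkG g = c⁻¹ := QuotientGroup.mk'_surjective _ c⁻¹
  have e : (M.map (cjG c)).map (cjG (mkG g)) = M := by
    rw [hg, Subgroup.map_map]
    ext x
    constructor
    · rintro ⟨y, hy, rfl⟩
      have : (cjG c⁻¹).comp (cjG c) y = y := by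
        simp [cjG_apply, mul_assoc]
      rwa [this]
    · intro hx
      refine ⟨x, hx, ?_⟩
      simp [cjG_apply, mul_assoc]
  have h1 := coatom_map_of_inj (αM_inj _ (gl_det_ne g)) h
  rwa [comap_map_cj, e] at h1

lemma LL_eq_top_of_even (h : ¬ Odd (Fintype.card F)) : LL F = ⊤ := by
  rw [eq_top_iff]
  rintro x -
  obtain ⟨g, rfl⟩ := QuotientGroup.mk'_surjective (Subgroup.center (GL (Fin 2) F)) x
  have h1 : mkG g ∈ LL F := by
    rw [mem_LL_iff]
    have hc : ringChar F = 2 := FiniteField.even_card_iff_char_two.2 (by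
      rw [Nat.not_odd_iff] at h
      exact h)
    exact FiniteField.isSquare_of_char_two hc _
  exact h1

lemma iotaP_bij_of_even (h : ¬ Odd (Fintype.card F)) : Function.Bijective (iotaP (F := F)) := by
  refine ⟨iotaP_inj, fun x => ?_⟩
  have hx : x ∈ LL F := by
    rw [LL_eq_top_of_even h]
    trivial
  exact exists_iota_of_mem hx

lemma coatom_comap_of_bij {G H : Type*} [Group G] [Group H] {φ : G →* H} (hφ : Function.Bijective φ) {M : Subgroup H} (hM : IsCoatom M) :
    IsCoatom (M.comap φ) := by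
  have := (MulEquiv.comapSubgroup (MulEquiv.ofBijective φ hφ)).isCoatom_iff M
  exact this.2 hM

/-- The stabiliser of a point is maximal in `PSL₂`. -/
theorem stab_coatom (x : XX F) {P : Subgroup (PS2 F)} (hP : ∀ s, s ∈ P ↔ actP s x = x) : IsCoatom P := by
  classical
  constructor
  · intro h
    have hc : Nat.card (XX F) = Fintype.card F + 1 := by
      have hf : Module.finrank F (Fin 2 → F) = 2 := by simp
      rw [← Nat.card_eq_fintype_card]
      exact Projectivization.card_of_finrank_two F _ hf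
    have hq2 := card_two_le F
    haveI : Nontrivial (XX F) := Finite.one_lt_card_iff_nontrivial.1 (by omega)
    obtain ⟨y, hy⟩ : ∃ y : XX F, y ≠ x := exists_ne x
    obtain ⟨g, hg⟩ := exists_smul_eq_XX x y
    have h1 : pr g ∈ P := by
      rw [h]
      trivial
    exact hy (hg.symm.trans ((hP _).1 h1))
  · intro N hN
    obtain ⟨n, hn, hn'⟩ := SetLike.exists_of_lt hN
    have hnx : actP n x ≠ x := fun e => hn' ((hP _).2 e)
    rw [eq_top_iff]
    intro s _
    by_cases hs : actP s x = x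
    · exact hN.le ((hP _).2 hs)
    · have htwo : IsMultiplyPretransitive (SL2 F) (XX F) 2 := inferInstance
      obtain ⟨t, ht1, ht2⟩ := (is_two_pretransitive_iff.1 htwo) (Ne.symm hnx) (Ne.symm hs)
      have ht : pr t ∈ N := hN.le ((hP _).2 ht1)
      have h1 : actP (pr t * n) x = actP s x := by
        rw [actP_mul]
        exact ht2
      have h2 : (pr t * n)⁻¹ * s ∈ P := by
        rw [hP, map_mul, Equiv.Perm.mul_apply, ← h1, ← Equiv.Perm.mul_apply, ← map_mul, inv_mul_cancel, map_one, Equiv.Perm.one_apply]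
      have h3 := N.mul_mem (N.mul_mem ht hn) (hN.le h2)
      rwa [mul_inv_cancel_left] at h3

lemma card_comap_of_not_le (hodd : Odd (Fintype.card F)) {M : Subgroup (PG F)} (hML : ¬ M ≤ LL F) :
    2 * Nat.card (M.comap (iotaP (F := F))) = Nat.card M := by
  haveI hLn := normal_LL hodd
  have hrel : (LL F).relIndex M = 2 := by
    have h1 : (LL F).relIndex M ∣ (LL F).index := Subgroup.relIndex_dvd_index_of_normal _ _
    rw [index_LL hodd] at h1
    rcases (Nat.dvd_prime Nat.prime_two).1 h1 with h3 | h3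
    · exact absurd (Subgroup.relIndex_eq_one.1 h3) hML
    · exact h3
  obtain ⟨P, hPdef⟩ : ∃ P, P = M.comap (iotaP (F := F)) := ⟨_, rfl⟩
  have hPmap : P.map iotaP = LL F ⊓ M := by
    rw [hPdef, Subgroup.map_comap_eq, range_iotaP]
  rw [← hPdef]
  have h1 : Nat.card P = Nat.card (P.map iotaP) := Nat.card_congr (P.equivMapOfInjective _ iotaP_inj).toEquiv
  have h3 : Nat.card ((LL F).subgroupOf M) = Nat.card ↥(LL F ⊓ M) := by
    rw [← Subgroup.subgroupOf_map_subtype]
    exact Nat.card_congr (((LL F).subgroupOf M).equivMapOfInjective _ M.subtype_injective).toEquiv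
  have h4 := Subgroup.card_mul_index ((LL F).subgroupOf M)
  have h5 : ((LL F).subgroupOf M).index = 2 := hrel
  rw [h5] at h4
  rw [h1, hPmap, ← h3]
  omega

lemma not_fix_of_card (hodd : Odd (Fintype.card F)) {D : Subgroup (PS2 F)}
    (hD : Nat.card D = Fintype.card F + 1 ∨ Nat.card D = Fintype.card F - 1) (h3 : 3 ≤ Fintype.card F) (x : XX F) :
    ¬ ∀ h ∈ D, actP h x = x := by
  intro hx
  letI : MulAction (PS2 F) (XX F) := MulAction.compHom _ actP
  have hi := index_stab x
  have hle : D ≤ stabilizer (PS2 F) x := fun h hh => hx h hh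
  have hd := Subgroup.card_dvd_of_le hle
  have hc := Subgroup.card_mul_index (stabilizer (PS2 F) x)
  rw [hi] at hc
  have hG := card_G hodd
  obtain ⟨m, hm⟩ := hodd
  rw [hm] at hG hc hD h3
  have hm0 : 0 < m := by omega
  have e0 : (2 * m + 1) ^ 2 - 1 = 4 * m * (m + 1) := by
    have : (2 * m + 1) ^ 2 = 4 * m * (m + 1) + 1 := by ring
    omega
  rw [e0] at hG
  have e1 : Nat.card (stabilizer (PS2 F) x) = (2 * m + 1) * m := by
    have h5 : Nat.card (stabilizer (PS2 F) x) * (4 * (m + 1)) = (2 * m + 1) * m * (4 * (m + 1)) := by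
      rw [← hc] at hG
      nlinarith
    exact Nat.eq_of_mul_eq_mul_right (by omega) h5
  rw [e1] at hd
  rcases hD with h1 | h1
  · rw [h1] at hd
    have h5 : 2 * m + 1 + 1 ∣ m := by
      refine (Nat.dvd_add_right hd).1 ?_
      exact ⟨m, by ring⟩
    have := Nat.le_of_dvd hm0 h5
    omega
  · rw [h1] at hd
    obtain ⟨d, hd⟩ := hd
    have h5 : (2 * m + 1) * m = (2 * d) * m := by
      rw [hd]
      simp only [Nat.add_sub_cancel]
      ring
    have h6 := Nat.eq_of_mul_eq_mul_right hm0 h5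
    omega

lemma exists_nonsq_det (hodd : Odd (Fintype.card F)) {δ : F} (hδ : δ ≠ 0) : ∃ x ∈ TG δ, x ∉ LL F := by
  classical
  have hc : ringChar F ≠ 2 := ringChar_ne_two_of_odd hodd
  obtain ⟨η, hη⟩ := FiniteField.exists_nonsquare hc
  have hη0 : η ≠ 0 := by
    rintro rfl
    exact hη IsSquare.zero
  have hqo : Fintype.card F % 2 = 1 := Nat.odd_iff.1 hodd
  obtain ⟨a, b, hab⟩ := FiniteField.exists_root_sum_quadratic (R := F)
    (f := Polynomial.C 1 * Polynomial.X ^ 2 + Polynomial.C 0 * Polynomial.X + Polynomial.C (-η))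
    (g := Polynomial.C (-δ) * Polynomial.X ^ 2 + Polynomial.C 0 * Polynomial.X + Polynomial.C 0)
    (Polynomial.degree_quadratic one_ne_zero) (Polynomial.degree_quadratic (neg_ne_zero.2 hδ)) hqo
  simp at hab
  have hdet : (!![a, δ * b; b, a] : M2 F).det = η := by
    rw [Matrix.det_fin_two_of]
    linear_combination hab
  have hdet' : (!![a, δ * b; b, a] : M2 F).det ≠ 0 := by
    rw [hdet]
    exact hη0
  refine ⟨mkG (glM _ hdet'), ⟨_, ?_, rfl⟩, ?_⟩
  · change _ ∈ XS δ
    rw [mem_XS, glM_coe]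
    simp
  · rw [mem_LL_iff, glM_coe, hdet]
    exact hη

/-- The intersection of a dihedral maximal subgroup with `PSL₂` is maximal. -/
theorem tor_coatom (hodd : Odd (Fintype.card F)) (h5 : 5 ≤ Fintype.card F) {M : Subgroup (PG F)} {δ : F} (hδ : δ ≠ 0)
    (hcy : IsCyclic (TG δ)) {K : ℕ} (hk : Nat.card (TG δ) = K) (hT : TG δ ≤ M) (hw : wG F ∈ M) (hMc : Nat.card M = 2 * K)
    (hML : ¬ M ≤ LL F) (hnum : (K = Fintype.card F + 1 ∧ Fintype.card F ≠ 7 ∧ Fintype.card F ≠ 9) ∨
      (K = Fintype.card F - 1 ∧ Fintype.card F ≠ 5 ∧ Fintype.card F ≠ 7 ∧ Fintype.card F ≠ 9 ∧ Fintype.card F ≠ 11)) :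
    IsCoatom (M.comap (iotaP (F := F))) := by
  classical
  obtain ⟨m, hm⟩ := id hodd
  obtain ⟨k, hk2⟩ : ∃ k, K = 2 * k := by
    rcases hnum with ⟨h, -⟩ | ⟨h, -⟩
    · exact ⟨m + 1, by omega⟩
    · exact ⟨m, by omega⟩
  have hk2' : 2 ≤ k := by
    rcases hnum with ⟨h, -⟩ | ⟨h, -⟩ <;> omega
  obtain ⟨t, ht⟩ := IsCyclic.exists_generator (α := TG δ)
  have hto : orderOf t = K := by
    rw [orderOf_eq_card_of_forall_mem_zpowers ht, hk]
  have ht' : orderOf (t : PG F) = K := by
    rw [Subgroup.orderOf_coe, hto]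
  have htL : (t : PG F) ∉ LL F := by
    intro hL
    obtain ⟨x, hx, hx'⟩ := exists_nonsq_det hodd hδ
    obtain ⟨n, hn⟩ := ht ⟨x, hx⟩
    apply hx'
    have h1 : (t : PG F) ^ n = x := congrArg Subtype.val hn
    rw [← h1]
    exact (LL F).zpow_mem hL n
  obtain ⟨c₀, hc₀⟩ := exists_iota_of_mem (mul_self_mem_LL hodd (t : PG F))
  have hcT : iotaP c₀ ∈ TG δ := by
    rw [hc₀]
    exact (TG δ).mul_mem t.2 t.2
  have hco : orderOf c₀ = k := by
    rw [← orderOf_injective iotaP iotaP_inj c₀, hc₀, ← pow_two, orderOf_pow' _ two_ne_zero, ht', hk2]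
    have : Nat.gcd (2 * k) 2 = 2 := Nat.gcd_eq_right (Nat.dvd_mul_right _ _)
    rw [this]
    omega
  obtain ⟨W, hWM, hWL, hWc⟩ : ∃ W : PG F, W ∈ M ∧ W ∈ LL F ∧ W * iotaP c₀ * W⁻¹ = (iotaP c₀)⁻¹ := by
    by_cases hwL : wG F ∈ LL F
    · exact ⟨wG F, hw, hwL, wG_conj δ _ hcT⟩
    · refine ⟨wG F * t, M.mul_mem hw (hT t.2), ?_, ?_⟩
      · rw [Subgroup.mul_mem_iff_of_index_two (index_LL hodd)]
        exact iff_of_false hwL htL
      · have e1 := wG_conj δ _ hcT
        rw [← e1, hc₀]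
        group
  obtain ⟨W₀, rfl⟩ := exists_iota_of_mem hWL
  have hcard : 2 * Nat.card (M.comap (iotaP (F := F))) = Nat.card M := card_comap_of_not_le hodd hML
  have hcard' : Nat.card (M.comap (iotaP (F := F))) = K := by omega
  have hg : Nat.gcd 2 (Fintype.card F - 1) = 2 := Nat.gcd_eq_left ⟨m, by omega⟩
  refine torus_coatom rfl (hT hcT) hWM hco (by omega) ?_ hk2' ?_ ?_
  · apply iotaP_inj
    rw [map_mul, map_mul, map_inv, map_inv]
    exact hWc
  · intro x
    refine not_fix_of_card hodd ?_ (by omega) x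
    rcases hnum with ⟨h, -⟩ | ⟨h, -⟩
    · exact Or.inl (hcard'.trans h)
    · exact Or.inr (hcard'.trans h)
  · rw [hg]
    rcases hnum with ⟨h, h7, h9⟩ | ⟨h, h5', h7, h9, h11⟩
    · refine Or.inl ⟨by omega, ?_⟩
      simp
      omega
    · refine Or.inr ⟨by omega, ?_⟩
      simp
      omega

end transfer

section bigsub

variable {F K : Type*} [Field F] [Fintype F] [Field K] [Fintype K]

/-- Subfield subgroups of prime degree over a field with at least four elements are maximal. -/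
theorem big_coatom (f : K →+* F) {r : ℕ} (hr : r.Prime) (hq : Fintype.card F = Fintype.card K ^ r) (hK4 : 4 ≤ Fintype.card K) :
    IsCoatom (PH f) := by
  classical
  have hr2 := hr.two_le
  have hlt : Fintype.card K < Fintype.card F := by
    rw [hq]
    calc Fintype.card K < Fintype.card K ^ 2 := by nlinarith
      _ ≤ Fintype.card K ^ r := Nat.pow_le_pow_right (by omega) hr2
  have hrange : ∃ y, ∀ u, f u ≠ y := by
    by_contra hcon
    push Not at hcon
    have := Fintype.card_of_bijective (f := f) ⟨f.injective, hcon⟩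
    omega
  obtain ⟨y₀, hy₀⟩ := hrange
  refine ⟨PH_ne_top hy₀, ?_⟩
  intro H hH
  have hsubX : ∀ u, pr (xE (f u)) ∈ H := fun u => hH.le (range_le_PH f (xE_mem_range f u))
  have hsubY : ∀ u, pr (yE (f u)) ∈ H := fun u => hH.le (range_le_PH f (yE_mem_range f u))
  have h4' : 4 ≤ Nat.card {a : F // xE a ∈ GG H} := by
    refine le_trans ?_ (Nat.card_le_card_of_injective (fun a : K => (⟨f a, hsubX a⟩ : {a : F // xE a ∈ GG H})) ?_)
    · rw [Nat.card_eq_fintype_card]
      exact hK4
    · intro a a' e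
      exact f.injective (congrArg Subtype.val e)
  have hx1 : xE (1 : F) ∈ GG H := by
    have := hsubX 1
    rwa [map_one] at this
  have hy1 : yE (1 : F) ∈ GG H := by
    have := hsubY 1
    rwa [map_one] at this
  obtain ⟨E, hE⟩ := exists_subfield h4' one_ne_zero hy1 one_ne_zero hx1
  have hE' : ∀ x, x ∈ E ↔ xE x ∈ GG H := by
    intro x
    rw [hE, mul_one]
  have hfE : ∀ u, f u ∈ E := fun u => (hE' _).2 (hsubX u)
  haveI : Fintype E := Fintype.ofFinite _
  have hX : ∀ s, xE s ∈ GG H ↔ ∃ u : E, E.subtype u = s := by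
    intro s
    rw [← hE']
    exact ⟨fun h => ⟨⟨s, h⟩, rfl⟩, by rintro ⟨u, rfl⟩; exact u.2⟩
  have hY : ∀ s, yE s ∈ GG H ↔ ∃ u : E, E.subtype u = s := by
    intro s
    have hf : (∃ u : E, E.subtype u = s) ↔ s ∈ E :=
      ⟨by rintro ⟨u, rfl⟩; exact u.2, fun h => ⟨⟨s, h⟩, rfl⟩⟩
    rw [hf]
    by_cases hs : s = 0
    · subst hs
      rw [yE_zero]
      exact ⟨fun _ => E.zero_mem, fun _ => Subgroup.one_mem _⟩
    · constructor
      · intro h
        have h1 := (inv_F (GG H) h4' one_ne_zero hx1 hs h).1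
        have h2 := (hE' _).2 h1
        simpa using E.inv_mem h2
      · intro h
        have h1 := (hE' _).1 (E.inv_mem h)
        have h2 := (inv_F (GG H) h4' (inv_ne_zero hs) h1 one_ne_zero hy1).2
        simpa using h2
  have hom := fun g hg hc => om_F (GG H) h4' one_ne_zero hx1 one_ne_zero hy1 (g := g) hg hc
  have hsl := sl_le E.subtype hX hY
  have hst := fun {g} (hg : g ∈ GG H) => struct_mat E.subtype hX hY hom hg
  -- degrees
  obtain ⟨f', hf'⟩ : ∃ f' : K →+* E, ∀ u, (f' u : F) = f u := ⟨f.codRestrict E hfE, fun _ => rfl⟩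
  letI := f'.toAlgebra
  have hd1 : Fintype.card K ^ Module.finrank K E = Fintype.card E := (Module.card_eq_pow_finrank (K := K) (V := E)).symm
  have hd2 : Fintype.card E ^ Module.finrank E F = Fintype.card F := (Module.card_eq_pow_finrank (K := E) (V := F)).symm
  obtain ⟨a, ha⟩ : ∃ a, a = Module.finrank K E := ⟨_, rfl⟩
  obtain ⟨b, hb⟩ : ∃ b, b = Module.finrank E F := ⟨_, rfl⟩
  rw [← ha] at hd1
  rw [← hb] at hd2
  have hab : a * b = r := by
    apply Nat.pow_right_injective (show 2 ≤ Fintype.card K by omega)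
    simp only
    rw [pow_mul, hd1, hd2, hq]
  rcases (Nat.dvd_prime hr).1 (Dvd.intro _ hab) with h1 | h1
  · -- the subfield is the image of `f`
    exfalso
    subst h1
    rw [pow_one] at hd1
    have hbij : Function.Bijective f' := (Fintype.bijective_iff_injective_and_card f').2 ⟨f'.injective, hd1⟩
    let e : K ≃+* E := RingEquiv.ofBijective f' hbij
    have hle : H ≤ PH f := by
      intro s hs
      obtain ⟨g, rfl⟩ := pr_surj s
      obtain ⟨t, g₀, ht, hm⟩ := hst (g := g) hs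
      refine mem_PH ht (g₀ := g₀.map e.symm) ?_
      rw [hm]
      congr 1
      ext i j
      change ((g₀ i j : E) : F) = f (e.symm (g₀ i j))
      rw [← hf']
      congr 2
      exact (e.apply_symm_apply _).symm
    exact absurd hle (not_le_of_gt hH)
  · -- the subfield is everything
    subst h1
    have hb1 : b = 1 := by
      have hrp := hr.pos
      nlinarith [Nat.eq_of_mul_eq_mul_left hrp (by rw [mul_one]; exact hab : a * b = a * 1)]
    rw [hb1, pow_one] at hd2
    have hbij : Function.Bijective E.subtype := (Fintype.bijective_iff_injective_and_card _).2 ⟨E.subtype.injective, hd2⟩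
    let e' : E ≃+* F := RingEquiv.ofBijective E.subtype hbij
    rw [eq_top_iff]
    rintro s -
    obtain ⟨g, rfl⟩ := pr_surj s
    have h1 : Φ E.subtype (Matrix.SpecialLinearGroup.map e'.symm.toRingHom g) = g := by
      apply Subtype.ext
      ext i j
      change E.subtype (e'.symm ((g : M2 F) i j)) = (g : M2 F) i j
      exact e'.apply_symm_apply _
    rw [← h1]
    exact hsl _

end bigsub

section small

variable {F : Type*} [Field F] [Fintype F]

lemma dih_comm_of_cube {k : ℕ} {a b : DihedralGroup k} (ha : a ^ 3 = 1) (hb : b ^ 3 = 1) : a * b = b * a := by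
  have key : ∀ x : DihedralGroup k, x ^ 3 = 1 → ∃ i, x = DihedralGroup.r i := by
    rintro (i | i) hx
    · exact ⟨i, rfl⟩
    · have h2 : (DihedralGroup.sr i) ^ 2 = 1 := by
        rw [pow_two]
        exact DihedralGroup.sr_mul_self i
      rw [pow_succ, h2, one_mul] at hx
      cases hx
  obtain ⟨i, rfl⟩ := key a ha
  obtain ⟨j, rfl⟩ := key b hb
  simp [DihedralGroup.r_mul_r, add_comm]

/-- A subgroup of order twelve that lies in no larger candidate is maximal. -/
theorem coatom_of_card12 {p : ℕ} [Fact p.Prime] [CharP F p] (hodd : Odd (Fintype.card F)) (h5 : 5 ≤ Fintype.card F)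
    {P : Subgroup (PS2 F)} (hP : Nat.card P = 12)
    (h8 : Fintype.card F % 8 = 3 ∨ Fintype.card F % 8 = 5) (h10 : ¬ (Fintype.card F % 10 = 1 ∨ Fintype.card F % 10 = 9))
    (hdih : ∀ (k : ℕ) (N : Subgroup (PS2 F)), (2 * k = Fintype.card F - 1 ∨ 2 * k = Fintype.card F + 1) →
      Nonempty (N ≃* DihedralGroup k) → P ≤ N → False)
    (hsub : ∀ (F₀ : Type) (_ : Field F₀) (_ : Fintype F₀) (r : ℕ), r.Prime → Odd r → Fintype.card F = Fintype.card F₀ ^ r →
      Nat.card (PS2 F₀) = 12) : IsCoatom P := by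
  classical
  have hG := card_G hodd
  have hG60 : 60 ≤ Nat.card (PS2 F) := by
    have := card_G_ge hodd h5
    omega
  have hne : P ≠ ⊤ := by
    intro h
    rw [h] at hP
    have h1 : Nat.card (⊤ : Subgroup (PS2 F)) = Nat.card (PS2 F) := Nat.card_congr Subgroup.topEquiv.toEquiv
    omega
  obtain ⟨N, hN, hPN⟩ := (eq_top_or_exists_le_coatom P).resolve_left hne
  suffices hc : Nat.card N = 12 by
    have e : P = N := Subgroup.eq_of_le_of_card_ge hPN (by rw [hc, hP])
    rwa [e]
  have hd : 12 ∣ Nat.card N := hP ▸ Subgroup.card_dvd_of_le hPN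
  rcases max_odd (p := p) hodd h5 hN with h1 | ⟨-, k, h1, h3⟩ | ⟨-, -, k, h1, h3⟩ | ⟨F₀, i1, i2, h1, -⟩ |
      ⟨F₀, i1, i2, r, h1, h3, h4, ⟨e⟩⟩ | ⟨h1, -⟩ | ⟨-, -, -, ⟨e⟩⟩ | ⟨h1, h3, -⟩
  · exfalso
    obtain ⟨d, hd⟩ := hd
    rw [hd] at h1
    have h3 : (Fintype.card F * (Fintype.card F - 1)) % 8 = 0 := by
      rw [← h1]
      omega
    rw [Nat.mul_mod] at h3
    rcases h8 with h4 | h4
    · have h6 : (Fintype.card F - 1) % 8 = 2 := by omega
      rw [h4, h6] at h3
      omega
    · have h6 : (Fintype.card F - 1) % 8 = 4 := by omega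
      rw [h4, h6] at h3
      omega
  · exact (hdih k N (Or.inl h1) h3 hPN).elim
  · exact (hdih k N (Or.inr h1) h3 hPN).elim
  · exfalso
    have hqo : Fintype.card F % 2 = 1 := Nat.odd_iff.1 hodd
    obtain ⟨n, hn⟩ : ∃ n, n = Fintype.card F₀ := ⟨_, rfl⟩
    rw [← hn] at h1
    have hn2 : n % 2 = 1 := by
      rw [h1, Nat.pow_mod] at hqo
      have : n % 2 = 0 ∨ n % 2 = 1 := by omega
      rcases this with h | h
      · rw [h] at hqo
        omega
      · exact h
    have hn8 : n % 8 = 1 ∨ n % 8 = 3 ∨ n % 8 = 5 ∨ n % 8 = 7 := by omega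
    have h3 : Fintype.card F % 8 = 1 := by
      rw [h1, Nat.pow_mod]
      rcases hn8 with h | h | h | h <;> rw [h]
    omega
  · rw [card_of_iso e]
    exact hsub F₀ i1 i2 r h1 h3 h4
  · exact absurd h1 h10
  · rw [card_of_iso e, card_A4]
  · exfalso
    rw [← h1] at h3
    omega

lemma pow3_mod (s : ℕ) : 3 ^ (2 * s + 1) % 40 = 3 ∨ 3 ^ (2 * s + 1) % 40 = 27 := by
  induction s with
  | zero => norm_num
  | succ n ih =>
    have : 3 ^ (2 * (n + 1) + 1) = 3 ^ (2 * n + 1) * 9 := by ring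
    rw [this]
    omega

theorem three_coatom {K : Type*} [Field K] [Fintype K] {p : ℕ} [Fact p.Prime] [CharP F p] (hodd : Odd (Fintype.card F)) (f : K →+* F)
    {r : ℕ} (hr : r.Prime) (hro : Odd r) (hq : Fintype.card F = Fintype.card K ^ r) (hK3 : Fintype.card K = 3) :
    IsCoatom (psMap f).range := by
  rw [hK3] at hq
  obtain ⟨s, hs⟩ := hro
  have hmod := pow3_mod s
  rw [← hs, ← hq] at hmod
  have h3dvd : 3 ∣ Fintype.card F := by
    rw [hq]
    exact dvd_pow_self 3 hr.ne_zero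
  have h5 : 5 ≤ Fintype.card F := by
    rw [hq]
    have hr2 := hr.two_le
    calc 5 ≤ 3 ^ 2 := by norm_num
      _ ≤ 3 ^ r := Nat.pow_le_pow_right (by norm_num) hr2
  have hc12 : Nat.card (PS2 K) = 12 := by
    have h1 := card_PS2 K
    rw [hK3] at h1
    norm_num at h1
    omega
  have hP : Nat.card (psMap f).range = 12 := by
    rw [← hc12]
    exact (Nat.card_congr (MonoidHom.ofInjective (psMap_injective f)).toEquiv).symm
  refine coatom_of_card12 (p := p) hodd h5 hP (by omega) (by omega) ?_ ?_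
  · rintro k N hk ⟨e⟩ hle
    have h1 : 12 ∣ Nat.card N := hP ▸ Subgroup.card_dvd_of_le hle
    rw [card_of_iso e, DihedralGroup.nat_card] at h1
    omega
  · intro F₀ i1 i2 r' h1 h3 h4
    rw [hq] at h4
    obtain ⟨a, -, ha⟩ := (Nat.dvd_prime_pow Nat.prime_three).1 (show Fintype.card F₀ ∣ 3 ^ r from h4 ▸ dvd_pow_self _ h1.ne_zero)
    rw [ha, ← pow_mul] at h4
    have h6 := Nat.pow_right_injective (le_refl 2 |>.trans (by norm_num : 2 ≤ 3)) h4
    have ha1 : a = 1 := by
      have h7 : a ∣ r := ⟨r', h6⟩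
      rcases (Nat.dvd_prime hr).1 h7 with h8 | h8
      · exact h8
      · exfalso
        subst h8
        have h9 : r' = 1 := by
          have hrp := hr.pos
          have : a * r' = a * 1 := by omega
          exact Nat.eq_of_mul_eq_mul_left hrp this
        exact h1.ne_one h9
    subst ha1
    rw [pow_one] at ha
    have h9 := card_PS2 F₀
    rw [ha] at h9
    norm_num at h9
    omega

end small

section main

universe u

variable {F : Type u} [Field F] [Fintype F]

lemma comap_eq_PH {E K : Type*} [Field E] [Fintype E] [Field K] [Fintype K] (ψ : F →+* E) (hsq : ∀ a : Fˣ, IsSquare (ψ a)) (f₀ : K →+* F)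
    {M : Subgroup (PG F)} (h : M.map (PsiG ψ hsq) = PH (ψ.comp f₀)) : M.comap (iotaP (F := F)) = PH f₀ := by
  ext s
  constructor
  · obtain ⟨γ, rfl⟩ := pr_surj s
    intro hs
    have h1 : PsiG ψ hsq (iotaP (pr γ)) ∈ PH (ψ.comp f₀) := by
      rw [← h]
      exact ⟨_, hs, rfl⟩
    rw [iotaP_pr] at h1
    obtain ⟨c, g₀, hc, e⟩ := of_PH_comp ψ hsq f₀ h1
    exact mem_PH hc e
  · rintro ⟨γ, rfl, t, g₀, ht, hm⟩
    have h1 : PsiG ψ hsq (iotaP (pr γ)) ∈ M.map (PsiG ψ hsq) := by
      rw [h, PsiG_iota, psMap_pr]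
      refine mem_PH (t := ψ t) (g₀ := g₀) ((map_ne_zero ψ).2 ht) ?_
      ext i j
      change ψ ((γ : M2 F) i j) = _
      rw [hm]
      simp
    obtain ⟨x, hx, ex⟩ := h1
    have h3 := PsiG_inj ψ hsq ex
    change iotaP (pr γ) ∈ M
    rwa [← h3]

/-- A second three-cycle in `S₄`. -/
def v4S : Equiv.Perm (Fin 4) := Equiv.swap 0 1 * Equiv.swap 1 3

lemma s4_cubes : y4S ^ 3 = 1 ∧ v4S ^ 3 = 1 ∧ y4S * v4S ≠ v4S * y4S := by
  unfold y4S v4S
  decide +kernel

/-- The intersection of an `S₄` in `PGL₂` with `PSL₂` is maximal in the cases at hand. -/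
theorem s4_coatom {p : ℕ} [Fact p.Prime] [CharP F p] (hodd : Odd (Fintype.card F)) (h5 : 5 ≤ Fintype.card F) {M : Subgroup (PG F)}
    (hM : IsCoatom M) (hML : ¬ LL F ≤ M) (e : M ≃* Equiv.Perm (Fin 4)) (hpr : (Fintype.card F).Prime)
    (h8 : Fintype.card F % 8 = 3 ∨ Fintype.card F % 8 = 5) (h10 : ¬ (Fintype.card F % 10 = 1 ∨ Fintype.card F % 10 = 9)) :
    IsCoatom (M.comap (iotaP (F := F))) := by
  classical
  have hMc : Nat.card M = 24 := by
    rw [card_of_iso e, card_S4]
  have hcard := card_comap_of_not_le hodd (not_le_LL hodd hM hML)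
  obtain ⟨φ, hφdef⟩ : ∃ φ : Equiv.Perm (Fin 4) →* PG F, φ = M.subtype.comp e.symm.toMonoidHom := ⟨_, rfl⟩
  have hφ : Function.Injective φ := by
    rw [hφdef]
    exact M.subtype_injective.comp e.symm.injective
  have hφM : ∀ x, φ x ∈ M := by
    intro x
    rw [hφdef]
    exact (e.symm x).2
  obtain ⟨h1, h3, hne⟩ := s4_cubes
  obtain ⟨a₀, ha₀⟩ := exists_iota_of_mem (mem_LL_of_pow hodd (n := 3) (by decide) (by rw [← map_pow, h1, map_one] : (φ y4S) ^ 3 = 1))
  obtain ⟨b₀, hb₀⟩ := exists_iota_of_mem (mem_LL_of_pow hodd (n := 3) (by decide) (by rw [← map_pow, h3, map_one] : (φ v4S) ^ 3 = 1))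
  have ha3 : a₀ ^ 3 = 1 := by
    apply iotaP_inj
    rw [map_pow, ha₀, ← map_pow, h1, map_one, map_one]
  have hb3 : b₀ ^ 3 = 1 := by
    apply iotaP_inj
    rw [map_pow, hb₀, ← map_pow, h3, map_one, map_one]
  have hab : a₀ * b₀ ≠ b₀ * a₀ := by
    intro h
    apply hne
    apply hφ
    have := congrArg iotaP h
    rw [map_mul, map_mul, ha₀, hb₀] at this
    rw [map_mul, map_mul, this]
  have haP : a₀ ∈ M.comap (iotaP (F := F)) := by
    change iotaP a₀ ∈ M
    rw [ha₀]
    exact hφM _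
  have hbP : b₀ ∈ M.comap (iotaP (F := F)) := by
    change iotaP b₀ ∈ M
    rw [hb₀]
    exact hφM _
  refine coatom_of_card12 (p := p) hodd h5 (by omega) h8 h10 ?_ ?_
  · rintro k N - ⟨e'⟩ hle
    have h6 := dih_comm_of_cube (a := e' ⟨a₀, hle haP⟩) (b := e' ⟨b₀, hle hbP⟩)
      (by rw [← map_pow, show (⟨a₀, hle haP⟩ : N) ^ 3 = 1 from Subtype.ext ha3, map_one])
      (by rw [← map_pow, show (⟨b₀, hle hbP⟩ : N) ^ 3 = 1 from Subtype.ext hb3, map_one])
    rw [← map_mul, ← map_mul] at h6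
    exact hab (congrArg Subtype.val (e'.injective h6))
  · intro F₀ i1 i2 r h6 h9 h11
    have := (Nat.Prime.pow_eq_iff hpr).1 h11.symm
    exact absurd this.2 h6.ne_one

/-- A maximal subgroup of `PGL₂` not containing `PSL₂` meets `PSL₂` in a maximal subgroup. -/
theorem pgl_inter_coatom (h4 : 4 ≤ Fintype.card F) (h7 : Fintype.card F ≠ 7) (h9 : Fintype.card F ≠ 9) (h11 : Fintype.card F ≠ 11)
    (h40 : (Fintype.card F).Prime → Fintype.card F % 40 ∉ ({11, 19, 21, 29} : Finset ℕ)) {M : Subgroup (PG F)} (hM : IsCoatom M)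
    (hML : ¬ LL F ≤ M) : IsCoatom ((M ⊓ LL F).subgroupOf (LL F)) := by
  classical
  apply coatom_transfer
  by_cases hodd : Odd (Fintype.card F)
  swap
  · exact coatom_comap_of_bij (iotaP_bij_of_even hodd) hM
  obtain ⟨p, hchar⟩ := CharP.exists F
  haveI hpf : Fact p.Prime := ⟨CharP.char_is_prime F p⟩
  have hqo : Fintype.card F % 2 = 1 := Nat.odd_iff.1 hodd
  have h5 : 5 ≤ Fintype.card F := by omega
  obtain ⟨E, _, _, ψ, hsq, hK⟩ := exists_ext_sq F
  rcases max_pgl_struct ψ hsq hK hodd (by omega) hM hML with ⟨x, hx⟩ | ⟨δ, c₀, k, hδ, hcy, hk, hT, hw, hMc, ⟨e⟩, h6⟩ | ⟨hpr, h8, ⟨e⟩⟩ |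
      ⟨F₀, i1, i2, f₀, c, r, hr, hro, hq, hmap, d⟩
  · -- the stabiliser of a point
    have hle : M ≤ stabilizer (PG F) x := fun h hh => hx h hh
    have hi := index_stab_G x
    have hne : stabilizer (PG F) x ≠ ⊤ := by
      intro h
      rw [h, Subgroup.index_top] at hi
      omega
    have e := eq_of_coatom_G hM hle hne
    refine stab_coatom x (fun s => ?_)
    obtain ⟨g, rfl⟩ := pr_surj s
    change iotaP (pr g) ∈ M ↔ g • x = x
    rw [e, iotaP_pr, mem_stabilizer_iff, smul_toGL]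
  · -- tori
    refine coatom_of_conj c₀ ?_
    have hM'' := coatom_map_bij (cjG_bij c₀) hM
    have hL'' := not_le_LL hodd hM'' (not_le_cj hodd c₀ hML)
    have hc'' : Nat.card (M.map (cjG c₀)) = Nat.card M := (Nat.card_congr (M.equivMapOfInjective _ (cjG_bij c₀).1).toEquiv).symm
    refine tor_coatom hodd h5 hδ hcy hk hT hw (hc''.trans hMc) hL'' ?_
    rcases h6 with ⟨-, h6⟩ | ⟨-, h6⟩
    · refine Or.inr ⟨h6, ?_, h7, h9, h11⟩
      intro h5'
      rw [h6, h5'] at e
      exact no_D4 h5' hodd hM hML e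
    · exact Or.inl ⟨h6, h7, h9⟩
  · -- `S₄`
    have h := h40 hpr
    simp only [Finset.mem_insert, Finset.mem_singleton, not_or] at h
    exact s4_coatom (p := p) hodd h5 hM hML e hpr h8 (by omega)
  · -- subfield subgroups
    refine coatom_of_conj c ?_
    rw [comap_eq_PH ψ hsq f₀ hmap]
    haveI hKp : CharP F₀ p := (RingHom.charP_iff f₀ f₀.injective p).2 inferInstance
    have hKo : Odd (Fintype.card F₀) := odd_card_of_char (p := p) hodd
    have hro' := hro
    obtain ⟨a, ha⟩ := hro'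
    have e2 := PH_eq_range_of_nonsq f₀ (nonsq_of_odd hodd f₀ (a := a) (by rw [← ha, hq]) hKo)
    by_cases hK4 : 4 ≤ Fintype.card F₀
    · exact big_coatom f₀ hr hq hK4
    · have hK3 : Fintype.card F₀ = 3 := by
        have h1 := card_two_le F₀
        have h3 := Nat.odd_iff.1 hKo
        omega
      rw [e2]
      exact three_coatom (p := p) hodd f₀ hr hro hq hK3

end main

end Cfsg.Agent.H09.Dick
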