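import Mathlib
import Cfsg.Agent.Lib.H28.Forms

/-! The rank of an alternating matrix over a field is even. -/

set_option autoImplicit false

namespace Cfsg.Agent.H09

open Matrix

theorem even_rank_of_alternating {ι : Type} [Fintype ι] [DecidableEq ι] {F : Type*} [Field F] [Finite F]
    (A : Matrix ι ι F) (hA : ∀ v : ι → F, v ⬝ᵥ (A *ᵥ v) = 0) : Even A.rank := by
  classical
  have hskew : ∀ u v : ι → F, u ⬝ᵥ (A *ᵥ v) = - (v ⬝ᵥ (A *ᵥ u)) := by
    intro u v
    have h := hA (u + v)
    simp only [Matrix.mulVec_add, dotProduct_add, add_dotProduct, hA, zero_add, add_zero] at h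
    rw [add_comm] at h
    exact eq_neg_of_add_eq_zero_left h
  set K := LinearMap.ker A.mulVecLin with hK
  obtain ⟨W, hW⟩ := Submodule.exists_isCompl K
  have hdim : Module.finrank F W = A.rank := by
    have h1 : Module.finrank F K + Module.finrank F W = Module.finrank F (ι → F) :=
      Submodule.finrank_add_eq_of_isCompl hW
    have h2 : Module.finrank F (LinearMap.range A.mulVecLin) + Module.finrank F K = Module.finrank F (ι → F) :=
      LinearMap.finrank_range_add_finrank_ker A.mulVecLin
    have h3 : Module.finrank F (LinearMap.range A.mulVecLin) = A.rank := rfl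
    omega
  rw [← hdim]
  by_contra hodd
  rw [Nat.not_even_iff_odd] at hodd
  set d := Module.finrank F W with hd
  let E : (Fin d → F) ≃ₗ[F] W := (Module.finBasis F W).equivFun.symm
  let g : (Fin d → F) → (Fin d → F) → F := fun x y => (E x : ι → F) ⬝ᵥ (A *ᵥ (E y : ι → F))
  have hmemK : ∀ u ∈ K, A *ᵥ u = 0 := fun u hu => hu
  have hg : Cfsg.Geo.IsSymplecticForm g := by
    refine ⟨⟨fun x y v => ?_, fun c x v => ?_, fun v x y => ?_, fun c v x => ?_⟩, fun v w => ?_, fun v => ?_, fun v hv => ?_⟩
    · simp only [g, map_add, Submodule.coe_add, add_dotProduct]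
    · simp only [g, map_smul, Submodule.coe_smul, smul_dotProduct, smul_eq_mul]
    · simp only [g, map_add, Submodule.coe_add, Matrix.mulVec_add, dotProduct_add]
    · simp only [g, map_smul, Submodule.coe_smul, Matrix.mulVec_smul, dotProduct_smul, smul_eq_mul]
    · exact hskew _ _
    · exact hA _
    · have h0 : (E v : ι → F) ≠ 0 := by
        intro h
        apply hv
        apply E.injective
        rw [map_zero]
        exact Subtype.ext h
      have hnK : (E v : ι → F) ∉ K := by
        intro hk
        have h5 : (E v : ι → F) ∈ K ⊓ W := ⟨hk, (E v).2⟩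
        rw [hW.inf_eq_bot] at h5
        exact h0 ((Submodule.mem_bot F).1 h5)
      have hne : A *ᵥ (E v : ι → F) ≠ 0 := fun h => hnK h
      obtain ⟨i, hi⟩ := Function.ne_iff.1 hne
      have hx : ∃ u : ι → F, u ⬝ᵥ (A *ᵥ (E v : ι → F)) ≠ 0 := by
        refine ⟨Pi.single i 1, ?_⟩
        simpa [single_dotProduct] using hi
      obtain ⟨u, hu⟩ := hx
      have hutop : u ∈ K ⊔ W := by rw [hW.sup_eq_top]; exact Submodule.mem_top
      obtain ⟨y, hy, z, hz, rfl⟩ := Submodule.mem_sup.1 hutop
      have hy0 : y ⬝ᵥ (A *ᵥ (E v : ι → F)) = 0 := by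
        rw [hskew, hmemK y hy, dotProduct_zero, neg_zero]
      rw [add_dotProduct, hy0, zero_add] at hu
      have hEz : ((E (E.symm ⟨z, hz⟩) : W) : ι → F) = z := by simp
      have h1 : g (E.symm ⟨z, hz⟩) v ≠ 0 := by
        simp only [g]
        rw [hEz]
        exact hu
      refine ⟨⟨_, h1⟩, ⟨E.symm ⟨z, hz⟩, ?_⟩⟩
      intro h2
      apply h1
      simp only [g] at h2 ⊢
      rw [hskew, h2, neg_zero]
  exact Cfsg.Agent.H28.no_symplectic_odd (ι := Fin d) (by simpa using hodd) hg

end Cfsg.Agent.H09
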