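import Mathlib

/-! Rank computations: factorizations and one-sided inverses. -/

set_option autoImplicit false

namespace Cfsg.Agent.H09

open Matrix

theorem rank_eq_of_factor {F : Type*} [Field F] {m : Type*} [Fintype m] [DecidableEq m] {l : ℕ}
    (M : Matrix m m F) (A : Matrix m (Fin l) F) (B : Matrix (Fin l) m F)
    (C : Matrix (Fin l) m F) (D : Matrix m (Fin l) F)
    (h1 : M = A * B) (h2 : C * M * D = 1) : M.rank = l := by
  apply le_antisymm
  · rw [h1]
    refine (Matrix.rank_mul_le_left _ _).trans ?_
    have := Matrix.rank_le_card_width A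
    rwa [Fintype.card_fin] at this
  · have h3 : (C * M * D).rank = l := by
      rw [h2, Matrix.rank_one, Fintype.card_fin]
    rw [← h3]
    refine (Matrix.rank_mul_le_left _ _).trans ?_
    exact Matrix.rank_mul_le_right _ _

end Cfsg.Agent.H09
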