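import Mathlib
import Cfsg.Agent.Lib.H09.InvWitt
import Cfsg.Agent.Lib.Lead.SUOrder
import Cfsg.Agent.Lib.Lead.PSUGen
import Cfsg.Agent.S0755
import Cfsg.Agent.S0751
import Cfsg.Agent.S0837

/-! Involutions in unitary groups in characteristic two. -/

set_option autoImplicit false

namespace Cfsg.Agent.H09.SUI

open Module Matrix

section abstract

variable {F : Type*} [Field F] [Finite F] {V : Type*} [AddCommGroup V] [Module F V]
  [FiniteDimensional F V] {σ : F →+* F}

theorem gram_herm (hσ : σ ≠ RingHom.id F) (hσ2 : ∀ a : F, σ (σ a) = a)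
    {B : V →ₛₗ[σ] V →ₗ[F] F} (hS : B.IsSymm) (hn : ∀ x, (∀ y, B x y = 0) → x = 0)
    {N : V →ₗ[F] V} (hadj : ∀ u v, B (N u) v = B u (N v)) {r : ℕ}
    (hr : finrank F (LinearMap.range N) = r) :
    ∃ e : Fin r → V, ∀ i j, B (e i) (N (e j)) = (1 : Matrix (Fin r) (Fin r) F) i j := by
  classical
  subst hr
  obtain ⟨U, hU⟩ := Submodule.exists_isCompl (LinearMap.ker N)
  have hfr : finrank F U = finrank F (LinearMap.range N) := by
    have h1 := LinearMap.finrank_range_add_finrank_ker N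
    have h2 := Submodule.finrank_add_eq_of_isCompl hU
    omega
  let h : U →ₛₗ[σ] U →ₗ[F] F := LinearMap.mk₂'ₛₗ σ (RingHom.id F)
    (fun x y => B (x : V) (N (y : V)))
    (by intro x x' y; simp)
    (by intro c x y; simp)
    (by intro x y y'; simp)
    (by intro c x y; simp)
  have hh : ∀ x y : U, h x y = B (x : V) (N (y : V)) := fun _ _ => rfl
  have hsw : ∀ x y : V, B y x = σ (B x y) := fun x y => (hS.eq x y).symm
  have hsymm : h.IsSymm := by
    refine ⟨fun x y => ?_⟩
    show σ (h x y) = h y x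
    rw [hh, hh, ← hsw, hadj]
  have hnl : ∀ x : U, (∀ y : U, h x y = 0) → x = 0 := by
    intro x hx
    have h0 : (x : V) ∈ LinearMap.ker N := by
      rw [LinearMap.mem_ker]
      apply hn
      intro v
      have hv : v ∈ LinearMap.ker N ⊔ U := by rw [hU.sup_eq_top]; trivial
      obtain ⟨k, hk, u, hu, rfl⟩ := Submodule.mem_sup.1 hv
      rw [hadj, map_add, LinearMap.mem_ker.1 hk, zero_add]
      exact hx ⟨u, hu⟩
    have h1 : (x : V) ∈ LinearMap.ker N ⊓ U := ⟨h0, x.2⟩
    rw [hU.inf_eq_bot] at h1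
    exact Subtype.ext h1
  have hnd : h.Nondegenerate := by
    constructor
    · exact hnl
    · intro y hy
      apply hnl
      intro x
      have h1 : h x y = 0 := hy x
      have h2 : h y x = σ (h x y) := (hsymm.eq x y).symm
      rw [h2, h1, map_zero]
  obtain ⟨b, hb⟩ := Cfsg.Agent.S0755.exists_family σ hσ hσ2 _ U h hsymm hnd hfr
  refine ⟨fun i => (b i : V), fun i j => ?_⟩
  rw [← hh, hb, Matrix.one_apply]

end abstract

section Hm

variable {F : Type*} [Field F] [Fintype F] {q n : ℕ}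

local notation "herm" => Cfsg.hermForm n F q

/-- The form as a sesquilinear form, with the given Frobenius. -/
noncomputable def formB (hF : Fintype.card F = q ^ 2) (φ : F →+* F) (hφ : ∀ x, φ x = x ^ q) :
    (Fin n → F) →ₛₗ[φ] (Fin n → F) →ₗ[F] F :=
  LinearMap.mk₂'ₛₗ φ (RingHom.id F) (fun x y => Cfsg.hermForm n F q y x)
    (by
      intro x x' y
      exact Lead.herm_add_right hF _ _ _)
    (by
      intro c x y
      show Cfsg.hermForm n F q _ (c • x) = _
      rw [Lead.herm_smul_right hF, hφ]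
      rfl)
    (by
      intro x y y'
      exact Lead.herm_add_left _ _ _)
    (by
      intro c x y
      show Cfsg.hermForm n F q (c • y) _ = _
      rw [Lead.herm_smul_left]
      rfl)

theorem formB_apply (hF : Fintype.card F = q ^ 2) (φ : F →+* F) (hφ : ∀ x, φ x = x ^ q)
    (x y : Fin n → F) : formB hF φ hφ x y = Cfsg.hermForm n F q y x := rfl

theorem herm_nondeg (hF : Fintype.card F = q ^ 2) (x : Fin n → F)
    (h : ∀ y, Cfsg.hermForm n F q y x = 0) : x = 0 := by
  classical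
  have h2 : q ≠ 0 := by
    have := Lead.two_le_q hF
    omega
  funext i
  have h1 := h (Pi.single i 1)
  simp only [Cfsg.hermForm, Pi.single_apply, ite_mul, one_mul, zero_mul, Finset.sum_ite_eq',
    Finset.mem_univ, if_true] at h1
  simpa [h2] using h1

theorem formB_symm (hF : Fintype.card F = q ^ 2) (φ : F →+* F) (hφ : ∀ x, φ x = x ^ q) :
    (formB (n := n) hF φ hφ).IsSymm := by
  refine ⟨fun x y => ?_⟩
  show φ (formB hF φ hφ x y) = formB hF φ hφ y x
  rw [formB_apply, formB_apply, hφ, ← Lead.herm_conj hF]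

theorem formB_nondeg (hF : Fintype.card F = q ^ 2) (φ : F →+* F) (hφ : ∀ x, φ x = x ^ q) :
    (formB (n := n) hF φ hφ).Nondegenerate := by
  constructor
  · intro x hx
    apply herm_nondeg hF
    intro y
    exact hx y
  · intro y hy
    apply herm_nondeg hF
    intro x
    have h1 := hy x
    rw [formB_apply] at h1
    rw [Lead.herm_conj hF, h1, zero_pow]
    have := Lead.two_le_q hF
    omega

/-- Isometries with equal rank. -/
theorem exists_herm_isometry (hF : Fintype.card F = q ^ 2) {N₁ N₂ : (Fin n → F) →ₗ[F] (Fin n → F)}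
    (hadj₁ : ∀ u v, Cfsg.hermForm n F q (N₁ u) v = Cfsg.hermForm n F q u (N₁ v))
    (hadj₂ : ∀ u v, Cfsg.hermForm n F q (N₂ u) v = Cfsg.hermForm n F q u (N₂ v))
    (hNN₁ : ∀ v, N₁ (N₁ v) = 0) (hNN₂ : ∀ v, N₂ (N₂ v) = 0)
    {r : ℕ} (hr₁ : finrank F (LinearMap.range N₁) = r) (hr₂ : finrank F (LinearMap.range N₂) = r) :
    (∃ g : (Fin n → F) ≃ₗ[F] (Fin n → F),
      (∀ u v, Cfsg.hermForm n F q (g u) (g v) = Cfsg.hermForm n F q u v) ∧ ∀ v, g (N₁ v) = N₂ (g v)) ∧
    ∃ e : Fin r → (Fin n → F), ∀ i, Cfsg.hermForm n F q (N₂ (e i)) (e i) = 1 := by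
  classical
  obtain ⟨φ, hφ⟩ := Lead.exists_frob hF
  have hσ : φ ≠ RingHom.id F := by
    intro h
    obtain ⟨x, hx⟩ := S0837.exists_ne_frob hF
    apply hx
    rw [← hφ, h]
    rfl
  have hσ2 : ∀ a : F, φ (φ a) = a := by
    intro a
    rw [hφ, hφ, ← pow_mul, ← sq, ← hF, FiniteField.pow_card]
  let B := formB (n := n) hF φ hφ
  have hB : ∀ x y, B x y = Cfsg.hermForm n F q y x := fun _ _ => rfl
  have hS : B.IsSymm := formB_symm hF φ hφ
  have hND : B.Nondegenerate := formB_nondeg hF φ hφ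
  have hn' : ∀ x, (∀ y, B x y = 0) → x = 0 := fun x hx => hND.1 x hx
  have hadjB₁ : ∀ u v, B (N₁ u) v = B u (N₁ v) := fun u v => by rw [hB, hB, hadj₁]
  have hadjB₂ : ∀ u v, B (N₂ u) v = B u (N₂ v) := fun u v => by rw [hB, hB, hadj₂]
  obtain ⟨e₁, he₁⟩ := gram_herm hσ hσ2 hS hn' hadjB₁ hr₁
  obtain ⟨e₂, he₂⟩ := gram_herm hσ hσ2 hS hn' hadjB₂ hr₂
  refine ⟨?_, e₂, fun i => ?_⟩
  · obtain ⟨g, hg, hgN⟩ := IW.conj_of_same_gram hadjB₁ hadjB₂ hNN₁ hNN₂ he₁ he₂ (mul_one 1)
      (by simp [hr₁]) (by simp [hr₂])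
      (fun X Y ψ hψ => Cfsg.Agent.S0751.result φ hσ hσ2 B hS hND X Y ψ hψ)
    exact ⟨g, fun u v => hg v u, hgN⟩
  · have := he₂ i i
    rw [hB] at this
    rw [this, Matrix.one_apply_eq]

/-- Correcting the determinant: a hyperbolic scalar on a plane. -/
noncomputable def hypMat (q : ℕ) (x y : Fin n → F) (κ : F) : Matrix (Fin n) (Fin n) F :=
  1 + κ • (Matrix.vecMulVec x (fun j => y j ^ q) + Matrix.vecMulVec y (fun j => x j ^ q))

theorem hypMat_mulVec (x y : Fin n → F) (κ : F) (v : Fin n → F) :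
    hypMat q x y κ *ᵥ v = v + κ • (Cfsg.hermForm n F q v y • x + Cfsg.hermForm n F q v x • y) := by
  funext k
  simp only [hypMat, Matrix.add_mulVec, Matrix.one_mulVec, Matrix.smul_mulVec,
    Matrix.vecMulVec_mulVec, Pi.add_apply, Pi.smul_apply, smul_eq_mul, Cfsg.hermForm,
    MulOpposite.smul_eq_mul_unop, MulOpposite.unop_op, dotProduct]
  have h1 : ∀ w : Fin n → F, (∑ i, w i ^ q * v i) = ∑ i, v i * w i ^ q :=
    fun w => Finset.sum_congr rfl fun i _ => mul_comm _ _
  rw [h1, h1]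
  ring

theorem hypMat_det (x y : Fin n → F) (κ : F) (hxx : Cfsg.hermForm n F q x x = 0)
    (hyy : Cfsg.hermForm n F q y y = 0) (hxy : Cfsg.hermForm n F q x y = 1)
    (hyx : Cfsg.hermForm n F q y x = 1) :
    (hypMat q x y κ).det = (1 + κ) ^ 2 := by
  let A : Matrix (Fin n) (Fin 2) F := Matrix.of fun i j => ![κ * x i, κ * y i] j
  let C : Matrix (Fin 2) (Fin n) F := Matrix.of fun j i => ![y i ^ q, x i ^ q] j
  have e : hypMat q x y κ = 1 + A * C := by
    ext i j
    simp only [hypMat, Matrix.add_apply, Matrix.smul_apply, Matrix.vecMulVec_apply, smul_eq_mul,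
      Matrix.mul_apply, Fin.sum_univ_two, A, C, Matrix.of_apply, Matrix.cons_val_zero, Matrix.cons_val_one]
    ring
  have hs : ∀ u w : Fin n → F, (∑ i, w i ^ q * (κ * u i)) = κ * Cfsg.hermForm n F q u w := by
    intro u w
    simp only [Cfsg.hermForm, Finset.mul_sum]
    exact Finset.sum_congr rfl fun i _ => by ring
  rw [e, Matrix.det_one_add_mul_comm, Matrix.det_fin_two]
  simp only [Matrix.add_apply, Matrix.mul_apply, A, C, Matrix.of_apply, Matrix.cons_val_zero, Matrix.cons_val_one,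
    Matrix.one_apply_eq]
  simp only [hs, hxx, hyy, hxy, hyx]
  simp
  ring

theorem hypMat_preserves (hF : Fintype.card F = q ^ 2) (x y : Fin n → F) (lam : F)
    (hlam : lam ^ (q + 1) = 1) (hxx : Cfsg.hermForm n F q x x = 0)
    (hyy : Cfsg.hermForm n F q y y = 0) (hxy : Cfsg.hermForm n F q x y = 1)
    (hyx : Cfsg.hermForm n F q y x = 1) (u v : Fin n → F) :
    Cfsg.hermForm n F q (hypMat q x y (lam - 1) *ᵥ u) (hypMat q x y (lam - 1) *ᵥ v) =
      Cfsg.hermForm n F q u v := by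
  have hκ : (lam - 1) ^ q = lam ^ q - 1 := by
    obtain ⟨φ, hφ⟩ := Lead.exists_frob hF
    rw [← hφ, ← hφ, map_sub, map_one]
  rw [hypMat_mulVec, hypMat_mulVec]
  simp only [Lead.herm_add_left, Lead.herm_add_right hF, Lead.herm_smul_left, Lead.herm_smul_right hF,
    hxx, hyy, hxy, hyx]
  rw [← Lead.herm_conj hF v y, ← Lead.herm_conj hF v x, hκ]
  have h1 : lam ^ q * lam = 1 := by rw [← pow_succ, hlam]
  linear_combination (Cfsg.hermForm n F q u y * Cfsg.hermForm n F q x v + Cfsg.hermForm n F q u x * Cfsg.hermForm n F q y v) * h1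

theorem hypMat_comm (hF : Fintype.card F = q ^ 2) (x y : Fin n → F) (κ : F)
    {N : (Fin n → F) →ₗ[F] (Fin n → F)} (hadj : ∀ u v, Cfsg.hermForm n F q (N u) v = Cfsg.hermForm n F q u (N v))
    (hNx : N x = y) (hNy : N y = 0) (v : Fin n → F) :
    hypMat q x y κ *ᵥ N v = N (hypMat q x y κ *ᵥ v) := by
  rw [hypMat_mulVec, hypMat_mulVec]
  simp only [map_add, map_smul, hNx, hNy, smul_zero, add_zero]
  have h0 : Cfsg.hermForm n F q v 0 = 0 := by
    have hq := Lead.two_le_q hF
    simp only [Cfsg.hermForm, Pi.zero_apply]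
    rw [zero_pow (by omega)]
    simp
  rw [hadj v y, hadj v x, hNy, hNx, h0, zero_smul, zero_add]

theorem det_pow_of_preserving (hF : Fintype.card F = q ^ 2) (M : Matrix (Fin n) (Fin n) F)
    (h : ∀ u v, Cfsg.hermForm n F q (M *ᵥ u) (M *ᵥ v) = Cfsg.hermForm n F q u v) :
    M.det ^ (q + 1) = 1 := by
  classical
  obtain ⟨φ, hφ⟩ := Lead.exists_frob hF
  have h1 : Mᵀ * M.map φ = 1 := by
    ext i j
    have h := h (Pi.single i 1) (Pi.single j 1)
    rw [Lead.herm_single_single hF] at h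
    simp only [Matrix.mulVec_single_one] at h
    rw [Matrix.one_apply, ← h]
    simp only [Matrix.mul_apply, Matrix.transpose_apply, Matrix.map_apply, hφ, Cfsg.hermForm]
    rfl
  have h2 := congrArg Matrix.det h1
  rw [Matrix.det_mul, Matrix.det_transpose, Matrix.det_one] at h2
  have h3 : (M.map φ).det = φ M.det := (RingHom.map_det φ M).symm
  rw [h3, hφ] at h2
  rw [pow_succ, mul_comm]
  exact h2

end Hm

end Cfsg.Agent.H09.SUI
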