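import Mathlib
import Cfsg.Agent.Lib.H09.Sol4

/-! Solvable two-generated subgroups of `PSL₂(3^p)`: the counts. -/

set_option autoImplicit false
set_option linter.style.haveILetI false
set_option linter.unusedSectionVars false
set_option linter.unusedSimpArgs false
set_option linter.unusedVariables false

namespace Cfsg.Agent.H09.Dick

open MulAction
open Cfsg.Agent.H11.SL2X Cfsg.Agent.H11.SL2T Cfsg.Agent.H27.DC Cfsg.Agent.H10
open Cfsg.Agent.H14 (e00 e01 e10 e11 trc sl_det e00_mul e01_mul e10_mul e11_mul e00_one e01_one e10_one e11_one)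
open Cfsg.Agent.Lead.DicksonSL (xE yE xE_add yE_add xE_zero yE_zero e00_xE e01_xE e10_xE e11_xE
  e00_yE e01_yE e10_yE e11_yE exists_fixed)
open Cfsg.Agent.Lead (dm wm dm_coe wm_coe wm_sq wm_conj dm_injective)

section three

variable {F : Type*} [Field F] [Fintype F] [CharP F 3]

lemma card_three_aux {s : F} (hs : s ≠ 0) :
    Nat.card {γ : SL2 F // (s * e10 γ) ^ 2 = 1 ∧ (e00 γ + e11 γ) ^ 3 = e00 γ + e11 γ} = 6 * Fintype.card F := by
  classical
  have h2 := two_ne' (F := F)
  have hc2 : Nat.card {c : F // (s * c) ^ 2 = 1} = 2 := by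
    apply card_pair' (u := s⁻¹) (v := -s⁻¹)
    · intro h
      have h3 : (2 : F) * s⁻¹ = 0 := by linear_combination h
      exact (mul_ne_zero h2 (inv_ne_zero hs)) h3
    · intro c
      constructor
      · intro h
        have h3 : (s * c - 1) * (s * c + 1) = 0 := by linear_combination h
        rcases mul_eq_zero.1 h3 with h4 | h4
        · left
          field_simp
          linear_combination h4
        · right
          field_simp
          linear_combination h4
      · rintro (rfl | rfl)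
        · field_simp
        · field_simp
  have ht3 : Nat.card {t : F // t ^ 3 = t} = 3 := by
    apply card_triple' (u := 0) (v := 1) (w := -1)
    · exact zero_ne_one
    · intro h
      exact one_ne_zero (by linear_combination h : (1 : F) = 0)
    · exact one_ne_neg'
    · intro t
      constructor
      · intro h
        have h3 : t * ((t - 1) * (t + 1)) = 0 := by linear_combination h
        rcases mul_eq_zero.1 h3 with h4 | h4
        · exact Or.inl h4
        · rcases mul_eq_zero.1 h4 with h5 | h5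
          · exact Or.inr (Or.inl (by linear_combination h5))
          · exact Or.inr (Or.inr (by linear_combination h5))
      · rintro (rfl | rfl | rfl) <;> ring
  have e : {γ : SL2 F // (s * e10 γ) ^ 2 = 1 ∧ (e00 γ + e11 γ) ^ 3 = e00 γ + e11 γ} ≃
      ({c : F // (s * c) ^ 2 = 1} × {t : F // t ^ 3 = t}) × F :=
    { toFun := fun g => ((⟨e10 g.1, g.2.1⟩, ⟨e00 g.1 + e11 g.1, g.2.2⟩), e00 g.1)
      invFun := fun p => ⟨⟨!![p.2, (p.2 * (p.1.2.1 - p.2) - 1) / p.1.1.1; p.1.1.1, p.1.2.1 - p.2], by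
          have hc : p.1.1.1 ≠ 0 := by
            intro h
            have := p.1.1.2
            rw [h] at this
            simp at this
          rw [Matrix.det_fin_two_of]
          field_simp
          ring⟩, by
            change (s * p.1.1.1) ^ 2 = 1
            exact p.1.1.2, by
            change (p.2 + (p.1.2.1 - p.2)) ^ 3 = p.2 + (p.1.2.1 - p.2)
            rw [add_sub_cancel]
            exact p.1.2.2⟩
      left_inv := ?_
      right_inv := ?_ }
  · rw [Nat.card_congr e, Nat.card_prod, Nat.card_prod, hc2, ht3, Nat.card_eq_fintype_card]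
  · rintro ⟨g, hc, ht⟩
    apply Subtype.ext
    have hc' : e10 g ≠ 0 := by
      intro h
      rw [h] at hc
      simp at hc
    have hd := sl_det g
    apply Cfsg.Agent.H14.sl_ext
    · rfl
    · change (e00 g * (e00 g + e11 g - e00 g) - 1) / e10 g = e01 g
      field_simp
      linear_combination hd
    · rfl
    · change e00 g + e11 g - e00 g = e11 g
      ring
  · rintro ⟨⟨⟨c, hc⟩, ⟨t, ht⟩⟩, a⟩
    apply Prod.ext
    · apply Prod.ext
      · rfl
      · apply Subtype.ext
        change a + (t - a) = t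
        ring
    · rfl

lemma card_three {s : F} (hs : s ≠ 0) :
    Nat.card {γ : SL2 F // e10 γ = 0 ∨ ((s * e10 γ) ^ 2 = 1 ∧ (e00 γ + e11 γ) ^ 3 = e00 γ + e11 γ)} =
      Fintype.card F * (Fintype.card F + 5) := by
  rw [card_or (fun a h h' => by
    have := h'.1
    rw [h] at this
    simp at this), card_c0, card_three_aux hs]
  have h1 : 1 ≤ Fintype.card F := Fintype.card_pos
  obtain ⟨r, hr⟩ : ∃ r, Fintype.card F = r + 1 := ⟨Fintype.card F - 1, by omega⟩
  rw [hr]
  simp only [Nat.add_sub_cancel]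
  ring

/-- Elements of order three. -/
theorem card_sol_three {p : ℕ} (hp : p.Prime) (hodd : Odd p) (hF : Fintype.card F = 3 ^ p) {x : PS2 F} (hx : orderOf x = 3) :
    2 * Nat.card {y : PS2 F // Group.IsSolvable (Subgroup.closure ({x, y} : Set (PS2 F)))} = 3 ^ p * (3 ^ p + 5) := by
  haveI : Fact (Nat.Prime 3) := ⟨Nat.prime_three⟩
  have h3 := three_zero' (F := F)
  have h2 := two_ne' (F := F)
  have hx1 : x ≠ 1 := by
    intro h
    rw [h, orderOf_one] at hx
    omega
  have hx3 : x ^ 3 = 1 := by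
    rw [← hx]
    exact pow_orderOf_eq_one x
  obtain ⟨g, hg, hgt⟩ : ∃ g : SL2 F, pr g = x ∧ e00 g + e11 g = 2 := by
    obtain ⟨g, rfl⟩ := pr_surj x
    have h4 := (pow3_iff h3 g).1 hx3
    have h5 : (e00 g + e11 g - 2) * (e00 g + e11 g + 2) = 0 := by linear_combination h4 - h3
    rcases mul_eq_zero.1 h5 with h6 | h6
    · exact ⟨g, rfl, by linear_combination h6⟩
    · refine ⟨negSL g, pr_negSL g, ?_⟩
      rw [e00_neg, e11_neg]
      linear_combination -h6
  have hg3 : g ^ 3 = 1 := by
    have e : g ^ 3 = g * g * g := by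
      simp only [pow_succ, pow_zero, one_mul]
    rw [e]
    have h5 : (e00 g + e11 g) ^ 2 - 1 = 0 := by
      rw [hgt]
      linear_combination h3
    apply Cfsg.Agent.H14.sl_ext
    · rw [e00_cube, h5, hgt, e00_one]
      linear_combination -h3 + 0 * h3
    · rw [e01_cube, h5, e01_one]
      ring
    · rw [e10_cube, h5, e10_one]
      ring
    · rw [e11_cube, h5, hgt, e11_one]
      linear_combination -h3
  have hgne : g ≠ 1 := by
    intro h
    rw [h] at hg
    exact hx1 hg.symm
  have hgo : orderOf g = 3 := orderOf_eq_prime hg3 hgne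
  obtain ⟨b, hb, hconj⟩ := isConj_uSL_of_order 3 g hgo
  obtain ⟨w, hw⟩ := isConj_iff.1 hconj
  have e1 : x = pr w * pr (xE b) * (pr w)⁻¹ := by
    rw [← hg, ← hw]
    rfl
  rw [e1, sol_conj (pr w) (pr (xE b))]
  have h4 := card_pr_two h2 (fun y => Group.IsSolvable (Subgroup.closure ({pr (xE b), y} : Set (PS2 F))))
  rw [← h4, Nat.card_congr (Equiv.subtypeEquivRight (sol_iff_three hp hodd hF hb)), card_three hb, hF]

end three

section split

variable {F : Type*} [Field F] [CharP F 3]

lemma sq_add_inv_ne {l : F} (hl0 : l ≠ 0) (hl : l ^ 2 ≠ 1) : (l + l⁻¹) ^ 2 ≠ 1 := by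
  intro h
  have h3 := three_zero' (F := F)
  apply hl
  field_simp at h
  have h4 : (l ^ 2 - 1) ^ 2 = 0 := by linear_combination h - l ^ 2 * h3
  have h5 := pow_eq_zero_iff (two_ne_zero) |>.1 h4
  linear_combination h5

variable [Fintype F]

omit [Fintype F] [CharP F 3] in
lemma ns_of_pr_ne' {γ : SL2 F} (h : pr γ ≠ 1) : NS (γ : M2 F) := by
  rintro ⟨r, hr⟩
  apply h
  apply pr_eq_one_iff.2
  refine ⟨r, ?_, hr⟩
  exact scalar_sq hr

theorem sol_iff_split3 {p : ℕ} (hp : p.Prime) (hodd : Odd p) (hF : Fintype.card F = 3 ^ p) (l : Fˣ) (hl : (l : F) ^ 2 ≠ 1) (γ : SL2 F) :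
    Group.IsSolvable (Subgroup.closure ({pr (dm l), pr γ} : Set (PS2 F))) ↔
      e10 γ = 0 ∨ (e01 γ = 0 ∧ e10 γ ≠ 0) ∨ (e00 γ = 0 ∧ e11 γ = 0) := by
  have h3 := three_zero' (F := F)
  have h2 := two_ne' (F := F)
  have hl0 : (l : F) ≠ 0 := l.ne_zero
  have hli : (l : F) - (l : F)⁻¹ ≠ 0 := by
    intro h
    apply hl
    field_simp at h
    linear_combination h
  have hlp : (l : F) + (l : F)⁻¹ ≠ 0 := by
    intro h
    apply neg_one_nonsq hodd hF (l : F)
    field_simp at h
    linear_combination h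
  have hfI : actP (pr (dm l)) (ptI : XX F) = ptI := (fix_ptI_iff' _).2 (e10_dm l)
  have hf0 : actP (pr (dm l)) (pt0 : XX F) = pt0 := (fix_pt0_iff' _).2 (e01_dm l)
  have hinv : (dm l)⁻¹ = dm l⁻¹ := (map_inv dm l).symm
  have hxi : (pr (dm l))⁻¹ = pr (dm l⁻¹) := by
    rw [← hinv]
    rfl
  have hx1 : pr (dm l) ≠ 1 := by
    intro h
    obtain ⟨r, -, hr⟩ := pr_eq_one_iff.1 h
    have h0 : e00 (dm l) = r := by
      change ((dm l : SL2 F) : M2 F) 0 0 = r
      rw [hr]
      simp
    have h1 : e11 (dm l) = r := by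
      change ((dm l : SL2 F) : M2 F) 1 1 = r
      rw [hr]
      simp
    rw [e00_dm] at h0
    rw [e11_dm] at h1
    apply hli
    linear_combination h0 - h1
  have hx2 : pr (dm l) * pr (dm l) ≠ 1 := by
    intro h
    rcases trace_zero_of_sq h2 _ h with h4 | h4
    · rw [e00_dm, e11_dm] at h4
      exact hlp h4
    · exact hx1 h4
  have hx3 : pr (dm l) ^ 3 ≠ 1 := by
    intro h
    have h4 := (pow3_iff h3 _).1 h
    rw [e00_dm, e11_dm] at h4
    exact sq_add_inv_ne hl0 hl h4
  have htr : ((dm l : SL2 F) : M2 F).trace = (l : F) + (l : F)⁻¹ := by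
    rw [trace_eq', e00_dm, e11_dm]
  have htr2 : ((dm l⁻¹ : SL2 F) : M2 F).trace = (l : F) + (l : F)⁻¹ := by
    rw [trace_eq', e00_dm, e11_dm, Units.val_inv_eq_inv_val, inv_inv]
    ring
  have hdisj : e10 γ = 0 ∨ e01 γ = 0 → e10 γ = 0 ∨ (e01 γ = 0 ∧ e10 γ ≠ 0) ∨ (e00 γ = 0 ∧ e11 γ = 0) := by
    rintro (h | h)
    · exact Or.inl h
    · by_cases hc : e10 γ = 0
      · exact Or.inl hc
      · exact Or.inr (Or.inl ⟨h, hc⟩)
  constructor
  · intro hs
    rcases master3 hp hodd hF hs with ⟨z, hz1, hz2⟩ | (h | h | ⟨h, -⟩) | (h | ⟨h, -⟩ | ⟨h, -⟩)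
    · apply hdisj
      obtain ⟨μ, hμ⟩ := eig_of_fix _ hz1
      have e0' := eig0 hμ
      have e1' := eig1 hμ
      rw [e00_dm, e01_dm] at e0'
      rw [e10_dm, e11_dm] at e1'
      by_cases hv0 : z.rep 0 = 0
      · right
        have hz0 : z = pt0 := pt_of_zero0 z hv0
        rw [hz0] at hz2
        exact (fix_pt0_iff' γ).1 hz2
      · left
        have hμl : μ = l := by
          have h5 : (μ - l) * z.rep 0 = 0 := by linear_combination -e0'
          have := (mul_eq_zero.1 h5).resolve_right hv0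
          linear_combination this
        have hv1 : z.rep 1 = 0 := by
          rw [hμl] at e1'
          have h5 : ((l : F) - (l : F)⁻¹) * z.rep 1 = 0 := by linear_combination -e1'
          exact (mul_eq_zero.1 h5).resolve_left hli
        have hz0 : z = ptI := pt_of_zero1 z hv1
        rw [hz0] at hz2
        exact (fix_ptI_iff' γ).1 hz2
    · have h4 := conj_lift h2 rfl (by rw [htr]; exact hlp) h
      have h5 := congrArg e01 h4
      simp only [e01_mul, e00_dm, e01_dm, e10_dm, e11_dm] at h5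
      apply hdisj
      right
      have h6 : e01 γ * ((l : F) - (l : F)⁻¹) = 0 := by linear_combination -h5
      exact (mul_eq_zero.1 h6).resolve_right hli
    · rw [hxi] at h
      have h4 := conj_lift h2 (by rw [htr, htr2]) (by rw [htr]; exact hlp) h
      have h5 := congrArg e00 h4
      have h6 := congrArg e11 h4
      simp only [e00_mul, e11_mul, e00_dm, e01_dm, e10_dm, e11_dm, Units.val_inv_eq_inv_val, inv_inv] at h5 h6
      right
      right
      constructor
      · have h7 : e00 γ * ((l : F) - (l : F)⁻¹) = 0 := by linear_combination h5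
        exact (mul_eq_zero.1 h7).resolve_right hli
      · have h7 : e11 γ * ((l : F) - (l : F)⁻¹) = 0 := by linear_combination -h6
        exact (mul_eq_zero.1 h7).resolve_right hli
    · exact absurd h hx2
    · exact absurd h hx1
    · exact absurd h hx2
    · exact absurd h hx3
  · rintro (h | ⟨h, -⟩ | ⟨h, h'⟩)
    · exact solvable_of_fix2' hfI ((fix_ptI_iff' γ).2 h)
    · exact solvable_of_fix2' hf0 ((fix_pt0_iff' γ).2 h)
    · have hy : pr γ * pr γ = 1 := sq_of_trace_zero γ (by rw [h, h']; ring)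
      have h4 : γ * dm l * γ⁻¹ = (dm l)⁻¹ := by
        rw [hinv, mul_inv_eq_iff_eq_mul]
        apply Cfsg.Agent.H14.sl_ext <;> simp only [e00_mul, e01_mul, e10_mul, e11_mul, e00_dm, e01_dm, e10_dm, e11_dm,
          Units.val_inv_eq_inv_val, inv_inv, h, h']
        · ring
        · ring
        · ring
        · ring
      have h5 : pr γ * pr (dm l) * (pr γ)⁻¹ = (pr (dm l))⁻¹ := by
        change pr (γ * dm l * γ⁻¹) = pr ((dm l)⁻¹)
        rw [h4]
      have h6 := sol_of_inv hy h5
      rwa [Set.pair_comm] at h6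

lemma order_aux3 {q d : ℕ} (h1 : q % 3 = 0) (h3 : q ≠ 0) (hd : d ∣ 3) (hq : d ∣ q - 1 ∨ d ∣ q + 1) : d = 1 := by
  rcases (Nat.dvd_prime Nat.prime_three).1 hd with h | h
  · exact h
  · rw [h] at hq
    omega

lemma three_dvd_pow {p : ℕ} (hp : p.Prime) : 3 ^ p % 3 = 0 := by
  obtain ⟨r, hr⟩ : ∃ r, p = r + 1 := ⟨p - 1, by have := hp.two_le; omega⟩
  rw [hr, pow_succ]
  omega

lemma order_two_aux {d q : ℕ} (h : 1 ≤ q) (h1 : d ∣ q - 1) (h2 : d ∣ q + 1) : d ∣ 2 := by
  have := Nat.dvd_sub h2 h1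
  have e : q + 1 - (q - 1) = 2 := by omega
  rwa [e] at this

/-- Order considerations for the trichotomy: an element of order dividing `q - 1` and not `2` or `1` is split. -/
theorem card_sol_split3 {p : ℕ} (hp : p.Prime) (hodd : Odd p) (hF : Fintype.card F = 3 ^ p) {x : PS2 F} (hx : x ≠ 1) (hx2 : orderOf x ≠ 2) (hd : orderOf x ∣ 3 ^ p - 1) :
    Nat.card {y : PS2 F // Group.IsSolvable (Subgroup.closure ({x, y} : Set (PS2 F)))} = 3 ^ p * (3 ^ p - 1) := by
  have h3 := three_zero' (F := F)
  have h2 := two_ne' (F := F)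
  have hq0 := three_dvd_pow hp
  have hq1 : 1 ≤ 3 ^ p := Nat.one_le_pow _ _ (by norm_num)
  obtain ⟨γ, rfl⟩ := pr_surj x
  have hNS := ns_of_pr_ne' hx
  have hbad : orderOf (pr γ) ≠ 1 := fun h => hx (orderOf_eq_one_iff.1 h)
  rcases trichotomy (γ : M2 F).trace with hA | ⟨l, hl, hl2, hlt⟩ | ⟨e, he, hte⟩
  · exfalso
    have h4 := pow_card_conic γ hNS
    rw [card_conic_aniso hA, hF] at h4
    have h5 : orderOf (pr γ) ∣ 3 ^ p + 1 := by
      apply orderOf_dvd_of_pow_eq_one
      rw [← pr_pow', h4]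
      rfl
    have h6 := order_two_aux hq1 hd h5
    rcases (Nat.dvd_prime Nat.prime_two).1 h6 with h7 | h7
    · exact hbad h7
    · exact hx2 h7
  · obtain ⟨l', hl'⟩ : ∃ l' : Fˣ, (l' : F) = l := ⟨Units.mk0 l hl, rfl⟩
    have hne : l ≠ l⁻¹ := by
      intro h
      apply hl2
      have : l * l = 1 := by
        nth_rewrite 1 [h]
        exact inv_mul_cancel₀ hl
      rw [pow_two, this]
    have hNS' : NS ((dm l' : SL2 F) : M2 F) := by
      rintro ⟨r, hr⟩
      apply hne
      have h0 := congrFun (congrFun hr 0) 0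
      have h1 := congrFun (congrFun hr 1) 1
      rw [dm_coe, hl'] at h0 h1
      simp at h0 h1
      exact h0.trans h1.symm
    have htr : (γ : M2 F).trace = ((dm l' : SL2 F) : M2 F).trace := by
      rw [hlt, trace_eq', e00_dm, e11_dm, hl']
    have hc : (γ : M2 F).trace ^ 2 ≠ 4 := by
      rw [hlt]
      intro h
      apply sq_add_inv_ne hl hl2
      rw [h]
      linear_combination h3
    obtain ⟨g, hg⟩ := isConj_iff.1 (sl_isConj_of_trace hNS hNS' htr (Or.inr hc))
    have e1 : pr g * pr γ * (pr g)⁻¹ = pr (dm l') := by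
      change pr (g * γ * g⁻¹) = _
      rw [hg]
    rw [← sol_conj (pr g) (pr γ), e1]
    have h4 := card_pr_two h2 (fun y => Group.IsSolvable (Subgroup.closure ({pr (dm l'), y} : Set (PS2 F))))
    rw [Nat.card_congr (Equiv.subtypeEquivRight (sol_iff_split3 hp hodd hF l' (by rw [hl']; exact hl2)))] at h4
    rw [card_or (P := fun γ : SL2 F => e10 γ = 0) (fun a h h' => by
      rcases h' with h' | h'
      · exact h'.2 h
      · have hd := sl_det a
        rw [h, h'.1, h'.2] at hd
        simp at hd)] at h4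
    rw [card_or (P := fun γ : SL2 F => e01 γ = 0 ∧ e10 γ ≠ 0) (fun a h h' => by
      have hd := sl_det a
      rw [h.1, h'.1, h'.2] at hd
      simp at hd)] at h4
    rw [card_c0, card_b0, card_anti, hF] at h4
    obtain ⟨r, hr⟩ : ∃ r, 3 ^ p = r + 1 := ⟨3 ^ p - 1, by omega⟩
    rw [hr] at h4 ⊢
    simp only [Nat.add_sub_cancel] at h4 ⊢
    have h5 : 2 * ((r + 1) * r) = 2 * Nat.card {y : PS2 F // Group.IsSolvable (Subgroup.closure ({pr (dm l'), y} : Set (PS2 F)))} := by
      rw [← h4]
      ring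
    omega
  · exfalso
    have h4 : (e00 γ + e11 γ) ^ 2 = 1 := by
      rw [← trace_eq', hte]
      linear_combination 4 * he + h3
    have h5 : orderOf (pr γ) ∣ 3 := orderOf_dvd_of_pow_eq_one ((pow3_iff h3 γ).2 h4)
    exact hbad (order_aux3 hq0 (by omega) h5 (Or.inl hd))

theorem sol_iff_nonsplit3 {p : ℕ} (hp : p.Prime) (hodd : Odd p) (hF : Fintype.card F = 3 ^ p) (γ₀ : SL2 F) (hA : Aniso (γ₀ : M2 F).trace 1)
    (hsq : pr γ₀ * pr γ₀ ≠ 1) (y : PS2 F) :
    Group.IsSolvable (Subgroup.closure ({pr γ₀, y} : Set (PS2 F))) ↔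
      y * pr γ₀ * y⁻¹ = pr γ₀ ∨ y * pr γ₀ * y⁻¹ = (pr γ₀)⁻¹ := by
  have h3 := three_zero' (F := F)
  have h2 := two_ne' (F := F)
  have hne : (γ₀ : M2 F).trace ≠ 0 := by
    intro h
    apply hsq
    apply sq_of_trace_zero
    rw [← trace_eq']
    exact h
  have hx1 : pr γ₀ ≠ 1 := by
    intro h
    apply hsq
    rw [h, one_mul]
  have hx3 : pr γ₀ ^ 3 ≠ 1 := by
    intro h
    have h4 := (pow3_iff h3 _).1 h
    rw [← trace_eq'] at h4
    rw [aniso_iff_no_root] at hA
    apply hA (-(γ₀ : M2 F).trace)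
    linear_combination 2 * h4 + h3
  constructor
  · intro hs
    rcases master3 hp hodd hF hs with ⟨z, hz1, hz2⟩ | (h | h | ⟨h, -⟩) | (h | ⟨h, -⟩ | ⟨h, -⟩)
    · exfalso
      obtain ⟨μ, hμ⟩ := eig_of_fix _ hz1
      have h4 := Cfsg.Agent.H27.DC.char_of_eig z.rep_nonzero hμ
      rw [aniso_iff_no_root] at hA
      apply hA μ
      rw [trace_eq']
      unfold trc at h4
      linear_combination h4
    · exact Or.inl h
    · exact Or.inr h
    · exact absurd h hsq
    · exact absurd h hx1
    · exact absurd h hsq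
    · exact absurd h hx3
  · rintro (h | h)
    · apply sol_of_comm
      have h4 := (mul_inv_eq_iff_eq_mul).1 h
      exact h4.symm
    · obtain ⟨γ, rfl⟩ := pr_surj y
      have htri : ((γ₀⁻¹ : SL2 F) : M2 F).trace = (γ₀ : M2 F).trace := by
        rw [coe_inv2, Matrix.trace_fin_two, Matrix.trace_fin_two]
        simp
        ring
      have h4 := conj_lift h2 htri.symm hne h
      rcases tr0_of_inv h4 with h5 | h5
      · have hy : pr γ * pr γ = 1 := sq_of_trace_zero γ h5
        have h6 := sol_of_inv hy h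
        rwa [Set.pair_comm] at h6
      · exact absurd h5 hx1

theorem card_sol_nonsplit3 {p : ℕ} (hp : p.Prime) (hodd : Odd p) (hF : Fintype.card F = 3 ^ p) {x : PS2 F} (hx : x ≠ 1) (hx2 : orderOf x ≠ 2) (hd : orderOf x ∣ 3 ^ p + 1) :
    Nat.card {y : PS2 F // Group.IsSolvable (Subgroup.closure ({x, y} : Set (PS2 F)))} = 3 ^ p + 1 := by
  have h3 := three_zero' (F := F)
  have h2 := two_ne' (F := F)
  have hq0 := three_dvd_pow hp
  have hq1 : 1 ≤ 3 ^ p := Nat.one_le_pow _ _ (by norm_num)
  obtain ⟨γ, rfl⟩ := pr_surj x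
  have hNS := ns_of_pr_ne' hx
  have hbad : orderOf (pr γ) ≠ 1 := fun h => hx (orderOf_eq_one_iff.1 h)
  have hsq : pr γ * pr γ ≠ 1 := by
    intro h
    have h4 : orderOf (pr γ) ∣ 2 := by
      apply orderOf_dvd_of_pow_eq_one
      rw [pow_two]
      exact h
    rcases (Nat.dvd_prime Nat.prime_two).1 h4 with h7 | h7
    · exact hbad h7
    · exact hx2 h7
  have ht0 : (γ : M2 F).trace ≠ 0 := by
    intro h
    apply hsq
    apply sq_of_trace_zero
    rw [← trace_eq']
    exact h
  rcases trichotomy (γ : M2 F).trace with hA | ⟨l, hl, hl2, hlt⟩ | ⟨e, he, hte⟩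
  · have hc : (γ : M2 F).trace ^ 2 ≠ 4 := by
      intro h
      rw [aniso_iff_no_root] at hA
      apply hA (-(γ : M2 F).trace)
      linear_combination 2 * h + 3 * h3
    have hne : pr γ ≠ (pr γ)⁻¹ := by
      intro h
      apply hsq
      nth_rewrite 2 [h]
      exact mul_inv_cancel _
    rw [Nat.card_congr (Equiv.subtypeEquivRight (sol_iff_nonsplit3 hp hodd hF γ hA hsq))]
    rw [card_or (fun y h h' => hne (h.symm.trans h'))]
    have hc1 : 2 * Nat.card {y : PS2 F // y * pr γ * y⁻¹ = pr γ} = 3 ^ p + 1 := by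
      have h4 := card_CM (γ : M2 F) hNS
      have hdet : (γ : M2 F).det = 1 := γ.2
      rw [hdet, card_conic_aniso hA, hF] at h4
      rw [← h4, ← card_pr_two h2 (fun y => y * pr γ * y⁻¹ = pr γ)]
      apply Nat.card_congr
      refine Equiv.subtypeEquivRight ?_
      intro g
      change _ ↔ (g : M2 F) * (γ : M2 F) = (γ : M2 F) * g
      constructor
      · intro h
        have h5 := conj_lift h2 rfl ht0 h
        exact congrArg Subtype.val h5
      · intro h
        have h5 : g * γ = γ * g := Subtype.ext h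
        change pr (g * γ * g⁻¹) = pr γ
        rw [h5, mul_inv_cancel_right]
    have hNSi : NS ((γ⁻¹ : SL2 F) : M2 F) := ns_of_pr_ne' (by
      intro h
      apply hx
      have : (pr γ)⁻¹ = 1 := h
      exact inv_eq_one.1 this)
    have htr : (γ : M2 F).trace = ((γ⁻¹ : SL2 F) : M2 F).trace := by
      rw [coe_inv2, Matrix.trace_fin_two, Matrix.trace_fin_two]
      simp
      ring
    obtain ⟨g, hg⟩ := isConj_iff.1 (sl_isConj_of_trace hNS hNSi htr (Or.inr hc))
    have e1 : pr g * pr γ * (pr g)⁻¹ = (pr γ)⁻¹ := by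
      change pr (g * γ * g⁻¹) = _
      rw [hg]
      rfl
    have hc2 : Nat.card {y : PS2 F // y * pr γ * y⁻¹ = (pr γ)⁻¹} = Nat.card {y : PS2 F // y * pr γ * y⁻¹ = pr γ} := by
      apply Nat.card_congr
      refine (Equiv.mulLeft (pr g)⁻¹).subtypeEquiv ?_
      intro y
      change _ ↔ (pr g)⁻¹ * y * pr γ * ((pr g)⁻¹ * y)⁻¹ = pr γ
      have e2 : (pr g)⁻¹ * y * pr γ * ((pr g)⁻¹ * y)⁻¹ = (pr g)⁻¹ * (y * pr γ * y⁻¹) * pr g := by group
      rw [e2]
      constructor
      · intro h
        rw [h, ← e1]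
        group
      · intro h
        rw [← e1]
        calc y * pr γ * y⁻¹ = pr g * ((pr g)⁻¹ * (y * pr γ * y⁻¹) * pr g) * (pr g)⁻¹ := by group
          _ = _ := by rw [h]
    rw [hc2]
    omega
  · exfalso
    have h4 := pow_card_conic γ hNS
    rw [hlt, card_conic_split hl hl2, hF] at h4
    have h5 : orderOf (pr γ) ∣ 3 ^ p - 1 := by
      apply orderOf_dvd_of_pow_eq_one
      rw [← pr_pow', h4]
      rfl
    have h6 := order_two_aux hq1 h5 hd
    rcases (Nat.dvd_prime Nat.prime_two).1 h6 with h7 | h7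
    · exact hbad h7
    · exact hx2 h7
  · exfalso
    have h4 : (e00 γ + e11 γ) ^ 2 = 1 := by
      rw [← trace_eq', hte]
      linear_combination 4 * he + h3
    have h5 : orderOf (pr γ) ∣ 3 := orderOf_dvd_of_pow_eq_one ((pow3_iff h3 γ).2 h4)
    exact hbad (order_aux3 hq0 (by omega) h5 (Or.inr hd))

end split

section wm

variable {F : Type*} [Field F]

lemma e00_wm : e00 (wm : SL2 F) = 0 := rfl
lemma e01_wm : e01 (wm : SL2 F) = 1 := rfl
lemma e10_wm : e10 (wm : SL2 F) = -1 := rfl
lemma e11_wm : e11 (wm : SL2 F) = 0 := rfl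

lemma trace_wm_mul (γ : SL2 F) : e00 (wm * γ) + e11 (wm * γ) = e10 γ - e01 γ := by
  simp only [e00_mul, e11_mul, e00_wm, e01_wm, e10_wm, e11_wm]
  ring

lemma card_quad' {α : Type*} {P : α → Prop} {u v w z : α} (h1 : u ≠ v) (h2 : u ≠ w) (h3 : u ≠ z) (h4 : v ≠ w) (h5 : v ≠ z) (h6 : w ≠ z)
    (hP : ∀ x, P x ↔ x = u ∨ x = v ∨ x = w ∨ x = z) : Nat.card {x // P x} = 4 := by
  have e : {x | P x} = ({u, v, w, z} : Set α) := by
    ext x
    simp [hP]
  have h7 := Set.ncard_insert_of_notMem (a := v) (s := ({w, z} : Set α)) (by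
    simp only [Set.mem_insert_iff, Set.mem_singleton_iff, not_or]
    exact ⟨h4, h5⟩) (Set.toFinite _)
  rw [Set.ncard_pair h6] at h7
  have h8 := Set.ncard_insert_of_notMem (a := u) (s := ({v, w, z} : Set α)) (by
    simp only [Set.mem_insert_iff, Set.mem_singleton_iff, not_or]
    exact ⟨h1, h2, h3⟩) (Set.toFinite _)
  rw [h7] at h8
  rw [← e, ← Nat.card_coe_set_eq] at h8
  exact h8

variable [CharP F 3]

/-- Solvable pairs with the standard involution. -/
theorem sol_iff_wm [Fintype F] {p : ℕ} (hp : p.Prime) (hodd : Odd p) (hF : Fintype.card F = 3 ^ p) (γ : SL2 F) :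
    Group.IsSolvable (Subgroup.closure ({pr (wm : SL2 F), pr γ} : Set (PS2 F))) ↔
      e00 γ + e11 γ = 0 ∨ e10 γ - e01 γ = 0 ∨ ((e00 γ + e11 γ) ^ 2 = 1 ∧ (e10 γ - e01 γ) ^ 2 = 1) ∨
        (e00 γ = e11 γ ∧ e10 γ = - e01 γ) := by
  have h3 := three_zero' (F := F)
  have h2 := two_ne' (F := F)
  have hx2 : pr (wm : SL2 F) * pr (wm : SL2 F) = 1 := sq_of_trace_zero _ (by rw [e00_wm, e11_wm]; ring)
  have hx1 : pr (wm : SL2 F) ≠ 1 := by
    intro h
    have := e01_of_scalar h
    rw [e01_wm] at this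
    exact one_ne_zero this
  have hxi : (pr (wm : SL2 F))⁻¹ = pr (wm : SL2 F) := inv_eq_of_mul_eq_one_left hx2
  have hx3 : pr (wm : SL2 F) ^ 3 ≠ 1 := by
    intro h
    apply hx1
    have e : pr (wm : SL2 F) ^ 3 = pr (wm : SL2 F) * (pr (wm : SL2 F) * pr (wm : SL2 F)) := by
      simp only [pow_succ, pow_zero, one_mul, mul_assoc]
    rw [e, hx2, mul_one] at h
    exact h
  have hcom : pr γ * pr (wm : SL2 F) * (pr γ)⁻¹ = pr (wm : SL2 F) →
      e00 γ + e11 γ = 0 ∨ e10 γ - e01 γ = 0 ∨ ((e00 γ + e11 γ) ^ 2 = 1 ∧ (e10 γ - e01 γ) ^ 2 = 1) ∨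
        (e00 γ = e11 γ ∧ e10 γ = - e01 γ) := by
    intro h
    have e : pr (wm * γ) = pr (γ * wm) := by
      rw [pr_mul, pr_mul]
      exact (mul_inv_eq_iff_eq_mul.1 h).symm
    rcases pr_eq_cases e with h4 | h4
    · right; right; right
      have h5 := congrArg e00 h4
      have h6 := congrArg e01 h4
      simp only [e00_mul, e01_mul, e00_wm, e01_wm, e10_wm, e11_wm] at h5 h6
      exact ⟨by linear_combination h6, by linear_combination -h5⟩
    · left
      have h6 := congrArg e01 h4
      simp only [e00_mul, e01_mul, e00_wm, e01_wm, e10_wm, e11_wm, e01_neg] at h6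
      linear_combination h6
  constructor
  · intro hs
    rcases master3 hp hodd hF hs with ⟨z, hz1, hz2⟩ | (h | h | ⟨-, h | h⟩) | (h | ⟨-, h | ⟨h4, h5⟩⟩ | ⟨h, -⟩)
    · exfalso
      obtain ⟨μ, hμ⟩ := eig_of_fix _ hz1
      have h4 := Cfsg.Agent.H27.DC.char_of_eig z.rep_nonzero hμ
      unfold trc at h4
      rw [e00_wm, e11_wm] at h4
      apply neg_one_nonsq hodd hF μ
      linear_combination h4
    · exact hcom h
    · rw [hxi] at h
      exact hcom h
    · rcases trace_zero_of_sq h2 γ h with h4 | h4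
      · exact Or.inl h4
      · right; left
        rw [e10_of_scalar h4, e01_of_scalar h4]
        ring
    · rw [hxi] at h
      have h4 : pr (wm * γ) * pr (wm * γ) = 1 := by
        rw [pr_mul]
        have h5 : pr (wm : SL2 F) * pr γ * pr (wm : SL2 F) = (pr γ)⁻¹ := h
        rw [← mul_assoc, h5]
        exact inv_mul_cancel _
      rcases trace_zero_of_sq h2 _ h4 with h5 | h5
      · right; left
        rw [trace_wm_mul] at h5
        exact h5
      · left
        rw [pr_mul] at h5
        have h6 : pr γ = pr (wm : SL2 F) := by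
          rw [← hxi]
          exact eq_inv_of_mul_eq_one_right h5
        rcases pr_eq_cases h6.symm with h7 | h7
        · rw [h7, e00_wm, e11_wm]
          ring
        · rw [h7, e00_neg, e11_neg, e00_wm, e11_wm]
          ring
    · exact absurd h hx1
    · rcases trace_zero_of_sq h2 γ h with h4 | h4
      · exact Or.inl h4
      · right; left
        rw [e10_of_scalar h4, e01_of_scalar h4]
        ring
    · right; right; left
      rw [pow3_iff h3] at h4
      rw [← pr_mul, pow3_iff h3, trace_wm_mul] at h5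
      exact ⟨h4, h5⟩
    · exact absurd h hx3
  · rintro (h | h | ⟨h4, h5⟩ | ⟨h4, h5⟩)
    · exact sol_of_sq' hx2 (sq_of_trace_zero γ h)
    · refine sol_of_mul_sq hx2 ?_
      rw [← pr_mul]
      exact sq_of_trace_zero _ (by rw [trace_wm_mul]; exact h)
    · refine sol_of_A4_pres hx2 ((pow3_iff h3 γ).2 h4) ?_
      rw [← pr_mul, pow3_iff h3, trace_wm_mul]
      exact h5
    · apply sol_of_comm
      have h6 : wm * γ = γ * wm := by
        apply Cfsg.Agent.H14.sl_ext <;> simp only [e00_mul, e01_mul, e10_mul, e11_mul, e00_wm, e01_wm, e10_wm, e11_wm]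
        · linear_combination h5
        · linear_combination -h4
        · linear_combination -h4
        · linear_combination -h5
      rw [← pr_mul, ← pr_mul, h6]

variable [Fintype F]

lemma card_tr0 {p : ℕ} (hodd : Odd p) (hF : Fintype.card F = 3 ^ p) :
    Nat.card {γ : SL2 F // e00 γ + e11 γ = 0} = (Fintype.card F - 1) * Fintype.card F := by
  rw [← card_tr (fun _ => (0 : F))]
  apply Nat.card_congr
  refine Equiv.subtypeEquivRight ?_
  intro γ
  constructor
  · intro h
    refine ⟨?_, h⟩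
    intro hc
    have hd := sl_det γ
    have e : e00 γ = - e11 γ := by linear_combination h
    rw [e, hc] at hd
    apply neg_one_nonsq hodd hF (e11 γ)
    linear_combination -hd
  · exact fun h => h.2

lemma card_kap0 {p : ℕ} (hodd : Odd p) (hF : Fintype.card F = 3 ^ p) :
    Nat.card {γ : SL2 F // e10 γ - e01 γ = 0} = (Fintype.card F - 1) * Fintype.card F := by
  rw [← card_tr0 hodd hF]
  apply Nat.card_congr
  refine (Equiv.mulLeft (wm : SL2 F)).subtypeEquiv ?_
  intro γ
  change _ ↔ e00 (wm * γ) + e11 (wm * γ) = 0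
  rw [trace_wm_mul]

lemma aniso_zero {p : ℕ} (hodd : Odd p) (hF : Fintype.card F = 3 ^ p) : Aniso (0 : F) 1 := by
  intro a b h
  have hb : b = 0 := by
    by_contra hb
    apply neg_one_nonsq hodd hF (a / b)
    field_simp
    linear_combination h
  rw [hb] at h
  have ha : a = 0 := by
    have : a ^ 2 = 0 := by linear_combination h
    exact pow_eq_zero_iff (two_ne_zero) |>.1 this
  exact ⟨ha, hb⟩

lemma card_tr_kap {p : ℕ} (hodd : Odd p) (hF : Fintype.card F = 3 ^ p) :
    Nat.card {γ : SL2 F // e10 γ - e01 γ = 0 ∧ e00 γ + e11 γ = 0} = Fintype.card F + 1 := by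
  have hc : (-1 : F) ≠ 0 := by simp
  rw [← card_level (aniso_zero hodd hF) hc]
  apply Nat.card_congr
  refine
    { toFun := fun g => ⟨(e00 g.1, e01 g.1), by
        have hd := sl_det g.1
        have h1 := g.2.1
        have h2 := g.2.2
        have e1 : e10 g.1 = e01 g.1 := by linear_combination h1
        have e2 : e11 g.1 = - e00 g.1 := by linear_combination h2
        rw [e1, e2] at hd
        change e00 g.1 ^ 2 + e00 g.1 * e01 g.1 * 0 + e01 g.1 ^ 2 * 1 = -1
        linear_combination -hd⟩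
      invFun := fun x => ⟨⟨!![x.1.1, x.1.2; x.1.2, -x.1.1], by
        rw [Matrix.det_fin_two_of]
        have := x.2
        linear_combination -this⟩, by
        change x.1.2 - x.1.2 = 0
        ring, by
        change x.1.1 + -x.1.1 = 0
        ring⟩
      left_inv := ?_
      right_inv := ?_ }
  · rintro ⟨g, h1, h2⟩
    apply Subtype.ext
    apply Cfsg.Agent.H14.sl_ext
    · rfl
    · rfl
    · change e01 g = e10 g
      linear_combination -h1
    · change - e00 g = e11 g
      linear_combination -h2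
  · rintro ⟨⟨a, b⟩, h⟩
    rfl

lemma card_sq1 : Nat.card {t : F // t ^ 2 = 1} = 2 := by
  apply card_pair' (u := 1) (v := -1) one_ne_neg'
  intro t
  constructor
  · intro h
    have h3 : (t - 1) * (t + 1) = 0 := by linear_combination h
    rcases mul_eq_zero.1 h3 with h4 | h4
    · exact Or.inl (by linear_combination h4)
    · exact Or.inr (by linear_combination h4)
  · rintro (rfl | rfl) <;> ring

lemma card_C {p : ℕ} (hodd : Odd p) (hF : Fintype.card F = 3 ^ p) :
    Nat.card {γ : SL2 F // (e00 γ + e11 γ) ^ 2 = 1 ∧ (e10 γ - e01 γ) ^ 2 = 1} = 4 * (Fintype.card F + 1) := by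
  have h3 := three_zero' (F := F)
  have e : {γ : SL2 F // (e00 γ + e11 γ) ^ 2 = 1 ∧ (e10 γ - e01 γ) ^ 2 = 1} ≃
      ({t : F // t ^ 2 = 1} × {k : F // k ^ 2 = 1}) × {x : F × F // x.1 ^ 2 + x.1 * x.2 * 0 + x.2 ^ 2 * 1 = 1} :=
    { toFun := fun g => ((⟨e00 g.1 + e11 g.1, g.2.1⟩, ⟨e10 g.1 - e01 g.1, g.2.2⟩),
        ⟨(e00 g.1 + (e00 g.1 + e11 g.1), e10 g.1 + (e10 g.1 - e01 g.1)), by
          have hd := sl_det g.1
          have h1 := g.2.1
          have h2 := g.2.2
          change (e00 g.1 + (e00 g.1 + e11 g.1)) ^ 2 + (e00 g.1 + (e00 g.1 + e11 g.1)) * (e10 g.1 + (e10 g.1 - e01 g.1)) * 0 + (e10 g.1 + (e10 g.1 - e01 g.1)) ^ 2 * 1 = 1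
          linear_combination h1 + h2 + 2 * hd + (1 + e00 g.1 ^ 2 + e10 g.1 ^ 2) * h3⟩)
      invFun := fun p => ⟨⟨!![-p.1.1.1 + p.2.1.1, p.1.2.1 + p.2.1.2; -p.1.2.1 + p.2.1.2, -p.1.1.1 - p.2.1.1], by
          rw [Matrix.det_fin_two_of]
          have h1 := p.1.1.2
          have h2 := p.1.2.2
          have h4 := p.2.2
          linear_combination h1 + h2 - h4⟩, by
          have h1 := p.1.1.2
          change (-p.1.1.1 + p.2.1.1 + (-p.1.1.1 - p.2.1.1)) ^ 2 = 1
          linear_combination 4 * h1 + h3, by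
          have h2 := p.1.2.2
          change (-p.1.2.1 + p.2.1.2 - (p.1.2.1 + p.2.1.2)) ^ 2 = 1
          linear_combination 4 * h2 + h3⟩
      left_inv := ?_
      right_inv := ?_ }
  · rw [Nat.card_congr e, Nat.card_prod, Nat.card_prod, card_sq1, card_level (aniso_zero hodd hF) one_ne_zero]
  · rintro ⟨g, h1, h2⟩
    apply Subtype.ext
    apply Cfsg.Agent.H14.sl_ext
    · change -(e00 g + e11 g) + (e00 g + (e00 g + e11 g)) = e00 g
      ring
    · change (e10 g - e01 g) + (e10 g + (e10 g - e01 g)) = e01 g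
      linear_combination (e10 g - e01 g) * h3
    · change -(e10 g - e01 g) + (e10 g + (e10 g - e01 g)) = e10 g
      ring
    · change -(e00 g + e11 g) - (e00 g + (e00 g + e11 g)) = e11 g
      linear_combination -(e00 g + e11 g) * h3
  · rintro ⟨⟨⟨t, ht⟩, ⟨k, hk⟩⟩, ⟨⟨u, v⟩, huv⟩⟩
    apply Prod.ext
    · apply Prod.ext
      · apply Subtype.ext
        change (-t + u) + (-t - u) = t
        linear_combination -t * h3
      · apply Subtype.ext
        change (-k + v) - (k + v) = k
        linear_combination -k * h3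
    · apply Subtype.ext
      apply Prod.ext
      · change (-t + u) + ((-t + u) + (-t - u)) = u
        linear_combination -t * h3
      · change (-k + v) + ((-k + v) - (k + v)) = v
        linear_combination -k * h3

lemma card_D {p : ℕ} (hodd : Odd p) (hF : Fintype.card F = 3 ^ p) :
    Nat.card {γ : SL2 F // e00 γ = e11 γ ∧ e10 γ = - e01 γ ∧ e00 γ ≠ 0 ∧ e01 γ ≠ 0} + 4 = Fintype.card F + 1 := by
  have h1 := card_level (aniso_zero hodd hF) (one_ne_zero (α := F))
  have e : {γ : SL2 F // e00 γ = e11 γ ∧ e10 γ = - e01 γ ∧ e00 γ ≠ 0 ∧ e01 γ ≠ 0} ≃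
      {x : F × F // (x.1 ^ 2 + x.1 * x.2 * 0 + x.2 ^ 2 * 1 = 1) ∧ x.1 ≠ 0 ∧ x.2 ≠ 0} :=
    { toFun := fun g => ⟨(e00 g.1, e01 g.1), by
        have hd := sl_det g.1
        obtain ⟨h2, h4, h5, h6⟩ := g.2
        rw [← h2, h4] at hd
        change e00 g.1 ^ 2 + e00 g.1 * e01 g.1 * 0 + e01 g.1 ^ 2 * 1 = 1
        linear_combination hd, g.2.2.2⟩
      invFun := fun x => ⟨⟨!![x.1.1, x.1.2; -x.1.2, x.1.1], by
        rw [Matrix.det_fin_two_of]
        have := x.2.1
        linear_combination this⟩, rfl, rfl, x.2.2⟩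
      left_inv := ?_
      right_inv := ?_ }
  · rw [Nat.card_congr e]
    have h2 : Nat.card {x : F × F // (x.1 ^ 2 + x.1 * x.2 * 0 + x.2 ^ 2 * 1 = 1) ∧ (x.1 = 0 ∨ x.2 = 0)} = 4 := by
      apply card_quad' (u := ((0 : F), (1 : F))) (v := ((0 : F), (-1 : F))) (w := ((1 : F), (0 : F))) (z := ((-1 : F), (0 : F)))
      · intro h
        exact one_ne_neg' (congrArg Prod.snd h)
      · intro h
        exact zero_ne_one (congrArg Prod.fst h)
      · intro h
        have := congrArg Prod.snd h
        exact one_ne_zero this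
      · intro h
        have := congrArg Prod.fst h
        exact zero_ne_one this
      · intro h
        have := congrArg Prod.snd h
        simp at this
      · intro h
        exact one_ne_neg' (congrArg Prod.fst h)
      · rintro ⟨a, b⟩
        constructor
        · rintro ⟨h3, h4 | h4⟩
          · change a = 0 at h4
            change a ^ 2 + a * b * 0 + b ^ 2 * 1 = 1 at h3
            subst h4
            have h5 : (b - 1) * (b + 1) = 0 := by linear_combination h3
            rcases mul_eq_zero.1 h5 with h6 | h6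
            · left
              exact Prod.ext rfl (by linear_combination h6 : b = 1)
            · right; left
              exact Prod.ext rfl (by linear_combination h6 : b = -1)
          · change b = 0 at h4
            change a ^ 2 + a * b * 0 + b ^ 2 * 1 = 1 at h3
            subst h4
            have h5 : (a - 1) * (a + 1) = 0 := by linear_combination h3
            rcases mul_eq_zero.1 h5 with h6 | h6
            · right; right; left
              exact Prod.ext (by linear_combination h6 : a = 1) rfl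
            · right; right; right
              exact Prod.ext (by linear_combination h6 : a = -1) rfl
        · rintro (h | h | h | h)
          · obtain ⟨rfl, rfl⟩ := Prod.mk.inj h
            exact ⟨by ring, Or.inl rfl⟩
          · obtain ⟨rfl, rfl⟩ := Prod.mk.inj h
            exact ⟨by ring, Or.inl rfl⟩
          · obtain ⟨rfl, rfl⟩ := Prod.mk.inj h
            exact ⟨by ring, Or.inr rfl⟩
          · obtain ⟨rfl, rfl⟩ := Prod.mk.inj h
            exact ⟨by ring, Or.inr rfl⟩
    rw [← h2, ← h1, ← card_or (fun a h h' => by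
      rcases h'.2 with h3 | h3
      · exact h.2.1 h3
      · exact h.2.2 h3)]
    apply Nat.card_congr
    refine Equiv.subtypeEquivRight ?_
    intro x
    constructor
    · rintro (h | h)
      · exact h.1
      · exact h.1
    · intro h
      by_cases h3 : x.1 = 0
      · exact Or.inr ⟨h, Or.inl h3⟩
      · by_cases h4 : x.2 = 0
        · exact Or.inr ⟨h, Or.inr h4⟩
        · exact Or.inl ⟨h, h3, h4⟩
  · rintro ⟨g, h2, h4, h5, h6⟩
    apply Subtype.ext
    apply Cfsg.Agent.H14.sl_ext
    · rfl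
    · rfl
    · change - e01 g = e10 g
      exact h4.symm
    · change e00 g = e11 g
      exact h2
  · rintro ⟨⟨a, b⟩, h⟩
    rfl

lemma card_wm {p : ℕ} (hodd : Odd p) (hF : Fintype.card F = 3 ^ p) :
    Nat.card {γ : SL2 F // e00 γ + e11 γ = 0 ∨ e10 γ - e01 γ = 0 ∨ ((e00 γ + e11 γ) ^ 2 = 1 ∧ (e10 γ - e01 γ) ^ 2 = 1) ∨
        (e00 γ = e11 γ ∧ e10 γ = - e01 γ)} = 2 * (Fintype.card F * (Fintype.card F + 1)) := by
  have h3 := three_zero' (F := F)
  have h2 := two_ne' (F := F)
  have e : ∀ γ : SL2 F, (e00 γ + e11 γ = 0 ∨ e10 γ - e01 γ = 0 ∨ ((e00 γ + e11 γ) ^ 2 = 1 ∧ (e10 γ - e01 γ) ^ 2 = 1) ∨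
        (e00 γ = e11 γ ∧ e10 γ = - e01 γ)) ↔
      (e00 γ + e11 γ = 0 ∨ ((e10 γ - e01 γ = 0 ∧ e00 γ + e11 γ ≠ 0) ∨ (((e00 γ + e11 γ) ^ 2 = 1 ∧ (e10 γ - e01 γ) ^ 2 = 1) ∨
        (e00 γ = e11 γ ∧ e10 γ = - e01 γ ∧ e00 γ ≠ 0 ∧ e01 γ ≠ 0)))) := by
    intro γ
    constructor
    · rintro (h | h | h | ⟨h4, h5⟩)
      · exact Or.inl h
      · by_cases h4 : e00 γ + e11 γ = 0
        · exact Or.inl h4
        · exact Or.inr (Or.inl ⟨h, h4⟩)
      · exact Or.inr (Or.inr (Or.inl h))
      · by_cases h6 : e00 γ = 0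
        · left
          rw [← h4, h6]
          ring
        · by_cases h7 : e01 γ = 0
          · right; left
            refine ⟨?_, ?_⟩
            · rw [h5, h7]
              ring
            · rw [← h4]
              intro h8
              apply h6
              have : 2 * e00 γ = 0 := by linear_combination h8
              exact (mul_eq_zero.1 this).resolve_left h2
          · exact Or.inr (Or.inr (Or.inr ⟨h4, h5, h6, h7⟩))
    · rintro (h | ⟨h, -⟩ | h | ⟨h4, h5, -, -⟩)
      · exact Or.inl h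
      · exact Or.inr (Or.inl h)
      · exact Or.inr (Or.inr (Or.inl h))
      · exact Or.inr (Or.inr (Or.inr ⟨h4, h5⟩))
  rw [Nat.card_congr (Equiv.subtypeEquivRight e)]
  rw [card_or (fun a h h' => by
    rcases h' with h' | h' | ⟨h4, h5, h6, h7⟩
    · exact h'.2 h
    · have h8 := h'.1
      rw [h] at h8
      simp at h8
    · apply h6
      have : 2 * e00 a = 0 := by
        rw [← h]
        rw [h4]
        ring
      exact (mul_eq_zero.1 this).resolve_left h2)]
  rw [card_or (fun a h h' => by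
    rcases h' with h' | ⟨h4, h5, h6, h7⟩
    · have h8 := h'.2
      rw [h.1] at h8
      simp at h8
    · apply h7
      have h8 := h.1
      rw [h5] at h8
      have : 2 * e01 a = 0 := by linear_combination -h8
      exact (mul_eq_zero.1 this).resolve_left h2)]
  rw [card_or (fun a h h' => by
    obtain ⟨h4, h5, h6, h7⟩ := h'
    have hd := sl_det a
    rw [← h4, h5] at hd
    have h8 := h.1
    have h9 := h.2
    rw [← h4] at h8
    rw [h5] at h9
    apply one_ne_zero (α := F)
    linear_combination -h8 - h9 + 4 * hd + h3)]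
  have hX : Nat.card {γ : SL2 F // e10 γ - e01 γ = 0 ∧ e00 γ + e11 γ ≠ 0} + (Fintype.card F + 1) = (Fintype.card F - 1) * Fintype.card F := by
    rw [← card_tr_kap hodd hF, ← card_kap0 hodd hF, add_comm, ← card_or (fun a h h' => h'.2 h.2)]
    apply Nat.card_congr
    refine Equiv.subtypeEquivRight ?_
    intro γ
    constructor
    · rintro (h | h)
      · exact h.1
      · exact h.1
    · intro h
      by_cases h4 : e00 γ + e11 γ = 0
      · exact Or.inl ⟨h, h4⟩
      · exact Or.inr ⟨h, h4⟩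
  have hD := card_D hodd hF
  rw [card_tr0 hodd hF, card_C hodd hF]
  have h1 : 1 ≤ Fintype.card F := Fintype.card_pos
  obtain ⟨r, hr⟩ : ∃ r, Fintype.card F = r + 1 := ⟨Fintype.card F - 1, by omega⟩
  rw [hr] at hX hD ⊢
  simp only [Nat.add_sub_cancel] at hX ⊢
  have e2 : 2 * ((r + 1) * (r + 1 + 1)) = 2 * (r * (r + 1)) + 4 * r + 4 := by ring
  rw [e2]
  omega

/-- The solubiliser of an involution. -/
theorem card_sol_inv3 {p : ℕ} (hp : p.Prime) (hodd : Odd p) (hF : Fintype.card F = 3 ^ p) {x : PS2 F} (hx : orderOf x = 2) :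
    Nat.card {y : PS2 F // Group.IsSolvable (Subgroup.closure ({x, y} : Set (PS2 F)))} = 3 ^ p * (3 ^ p + 1) := by
  have h3 := three_zero' (F := F)
  have h2 := two_ne' (F := F)
  obtain ⟨γ, rfl⟩ := pr_surj x
  have hx2 : pr γ * pr γ = 1 := by
    have h := pow_orderOf_eq_one (pr γ)
    rw [hx, pow_two] at h
    exact h
  have hx1 : pr γ ≠ 1 := by
    intro h
    rw [h, orderOf_one] at hx
    omega
  have ht : e00 γ + e11 γ = 0 := (trace_zero_of_sq h2 γ hx2).resolve_right hx1
  have hNS := ns_of_pr_ne' hx1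
  have hwne : pr (wm : SL2 F) ≠ 1 := by
    intro h
    have := e01_of_scalar h
    rw [e01_wm] at this
    exact one_ne_zero this
  have hNS' : NS ((wm : SL2 F) : M2 F) := ns_of_pr_ne' hwne
  have htr : (γ : M2 F).trace = ((wm : SL2 F) : M2 F).trace := by
    rw [trace_eq', trace_eq', ht, e00_wm, e11_wm]
    ring
  have hc : (γ : M2 F).trace ^ 2 ≠ 4 := by
    rw [trace_eq', ht]
    intro h
    apply one_ne_zero (α := F)
    linear_combination -h - h3
  obtain ⟨g, hg⟩ := isConj_iff.1 (sl_isConj_of_trace hNS hNS' htr (Or.inr hc))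
  have e1 : pr g * pr γ * (pr g)⁻¹ = pr (wm : SL2 F) := by
    change pr (g * γ * g⁻¹) = _
    rw [hg]
  rw [← sol_conj (pr g) (pr γ), e1]
  have h4 := card_pr_two h2 (fun y => Group.IsSolvable (Subgroup.closure ({pr (wm : SL2 F), y} : Set (PS2 F))))
  rw [Nat.card_congr (Equiv.subtypeEquivRight (sol_iff_wm hp hodd hF)), card_wm hodd hF, hF] at h4
  omega

end wm

end Cfsg.Agent.H09.Dick
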