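import Mathlib

/-! Orthonormal families for non-alternating symmetric forms over a field of characteristic two
in which every element is a square. -/

set_option autoImplicit false

namespace Cfsg.Agent.H09.SF

open Module

universe u

variable {F : Type*} [Field F] [CharP F 2]

theorem ker_nondeg {U : Type u} [AddCommGroup U] [Module F U] {h : LinearMap.BilinForm F U}
    (hs : ∀ x y, h x y = h y x) (hn : ∀ x, (∀ y, h x y = 0) → x = 0) {e : U} (he : h e e = 1)
    {w : U} (hw : h e w = 0) (hwz : ∀ z, h e z = 0 → h w z = 0) : w = 0 := by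
  apply hn
  intro v
  have h1 : h e (v - h e v • e) = 0 := by
    rw [map_sub, map_smul, he, smul_eq_mul, mul_one, sub_self]
  have h2 := hwz _ h1
  rw [map_sub, map_smul, hs w e, hw, smul_zero, sub_zero] at h2
  exact h2

theorem finrank_ker {U : Type u} [AddCommGroup U] [Module F U] [FiniteDimensional F U]
    {h : LinearMap.BilinForm F U} {e : U} (he : h e e = 1) {n : ℕ} (hd : finrank F U = n + 1) :
    finrank F (LinearMap.ker (h e)) = n := by
  have h1 := LinearMap.finrank_range_add_finrank_ker (h e)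
  have h2 : LinearMap.range (h e) = ⊤ := by
    rw [LinearMap.range_eq_top]
    intro c
    exact ⟨c • e, by rw [map_smul, he, smul_eq_mul, mul_one]⟩
  rw [h2, finrank_top, finrank_self, hd] at h1
  omega

theorem exists_good_vector (hsq : ∀ d : F, ∃ e : F, e * e = d)
    {U : Type u} [AddCommGroup U] [Module F U] [FiniteDimensional F U]
    {h : LinearMap.BilinForm F U} (hs : ∀ x y, h x y = h y x) (hn : ∀ x, (∀ y, h x y = 0) → x = 0)
    {n : ℕ} (hd : finrank F U = n + 1) (hx : ∃ x, h x x ≠ 0) :
    ∃ e₀, h e₀ e₀ = 1 ∧ (n = 0 ∨ ∃ x, h e₀ x = 0 ∧ h x x ≠ 0) := by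
  obtain ⟨x, hx⟩ := hx
  obtain ⟨s, hss⟩ := hsq (h x x)
  have hs0 : s ≠ 0 := by
    rintro rfl
    rw [mul_zero] at hss
    exact hx hss.symm
  let e : U := s⁻¹ • x
  have he : h e e = 1 := by
    simp only [e, map_smul, LinearMap.smul_apply, smul_eq_mul, ← hss]
    field_simp
  by_cases hn0 : n = 0
  · exact ⟨e, he, Or.inl hn0⟩
  by_cases hW : ∃ x, h e x = 0 ∧ h x x ≠ 0
  · exact ⟨e, he, Or.inr hW⟩
  push Not at hW
  -- the perpendicular of `e` is alternating; pick a pair in it
  have hfr := finrank_ker he hd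
  have hpos : 0 < finrank F (LinearMap.ker (h e)) := by omega
  obtain ⟨⟨y, hy⟩, hy0⟩ := (Module.finrank_pos_iff_exists_ne_zero (R := F)).1 hpos
  have hy1 : y ≠ 0 := fun h0 => hy0 (Subtype.ext h0)
  have hey : h e y = 0 := hy
  -- a partner of `y` inside the perpendicular
  obtain ⟨z, hez, hyz⟩ : ∃ z, h e z = 0 ∧ h y z ≠ 0 := by
    by_contra hcon
    push Not at hcon
    exact hy1 (ker_nondeg hs hn he hey hcon)
  let z' : U := (h y z)⁻¹ • z
  have hez' : h e z' = 0 := by
    simp only [z', map_smul, hez, smul_zero]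
  have hyz' : h y z' = 1 := by
    simp only [z', map_smul, smul_eq_mul]
    exact inv_mul_cancel₀ hyz
  have hyy : h y y = 0 := by
    by_contra hne
    exact hne (hW y hey)
  have hzz' : h z' z' = 0 := by
    by_contra hne
    exact hne (hW z' hez')
  have hye : h y e = 0 := by rw [hs]; exact hey
  have hze : h z' e = 0 := by rw [hs]; exact hez'
  refine ⟨e + y, ?_, Or.inr ⟨e + z', ?_, ?_⟩⟩
  · simp only [map_add, LinearMap.add_apply, he, hey, hye, hyy, add_zero]
  · simp only [map_add, LinearMap.add_apply, he, hez', hye, hyz', zero_add, add_zero]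
    exact CharTwo.add_self_eq_zero (1 : F)
  · simp only [map_add, LinearMap.add_apply, he, hez', hze, hzz', add_zero]
    exact one_ne_zero

theorem orthonormal_family (hsq : ∀ d : F, ∃ e : F, e * e = d) :
    ∀ (n : ℕ) (U : Type u) [AddCommGroup U] [Module F U] [FiniteDimensional F U]
      (h : LinearMap.BilinForm F U), finrank F U = n → (∀ x y, h x y = h y x) →
      (∀ x, (∀ y, h x y = 0) → x = 0) → (n = 0 ∨ ∃ x, h x x ≠ 0) →
      ∃ e : Fin n → U, ∀ i j, h (e i) (e j) = if i = j then 1 else 0 := by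
  classical
  intro n
  induction n with
  | zero =>
    intro U _ _ _ h _ _ _ _
    exact ⟨Fin.elim0, fun i => i.elim0⟩
  | succ n ih =>
    intro U _ _ _ h hd hs hn hx
    have hx' : ∃ x, h x x ≠ 0 := hx.resolve_left (by omega)
    obtain ⟨e₀, he₀, hgood⟩ := exists_good_vector hsq hs hn hd hx'
    let W := LinearMap.ker (h e₀)
    let h' : LinearMap.BilinForm F W := h.compl₁₂ W.subtype W.subtype
    have hh' : ∀ x y : W, h' x y = h (x : U) (y : U) := fun _ _ => rfl
    have hW0 : ∀ x : W, h e₀ (x : U) = 0 := fun x => x.2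
    obtain ⟨e', he'⟩ := ih W h' (finrank_ker he₀ hd)
      (fun x y => by rw [hh', hh', hs])
      (fun x hxy => by
        apply Subtype.ext
        refine ker_nondeg hs hn he₀ (hW0 x) ?_
        intro z hz
        exact hxy ⟨z, hz⟩)
      (by
        rcases hgood with h0 | ⟨x, hx1, hx2⟩
        · exact Or.inl h0
        · exact Or.inr ⟨⟨x, hx1⟩, hx2⟩)
    refine ⟨Fin.cons e₀ (fun i => (e' i : U)), ?_⟩
    intro i j
    refine Fin.cases ?_ (fun i => ?_) i
    · refine Fin.cases ?_ (fun j => ?_) j
      · simp [he₀]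
      · simp [hW0, Fin.succ_ne_zero, (Fin.succ_ne_zero j).symm]
    · refine Fin.cases ?_ (fun j => ?_) j
      · simp only [Fin.cons_succ, Fin.cons_zero, Fin.succ_ne_zero, if_false]
        rw [hs]
        exact hW0 _
      · simp only [Fin.cons_succ, Fin.succ_inj]
        exact he' i j

end Cfsg.Agent.H09.SF
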