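import Mathlib
import Cfsg.Agent.Lib.H09.InvWitt
import Cfsg.Agent.Lib.H09.SymForm
import Cfsg.Agent.S0752

/-! Square-zero self-adjoint maps for an alternating form in characteristic two. -/

set_option autoImplicit false

namespace Cfsg.Agent.H09.SPI

open Module

variable {F : Type*} [Field F] [CharP F 2] {V : Type*} [AddCommGroup V] [Module F V]
  [FiniteDimensional F V] {B : LinearMap.BilinForm F V}

/-- Data on a complement of the kernel of `N`. -/
theorem exists_compl_data {N : V →ₗ[F] V} (hn : ∀ x, (∀ y, B x y = 0) → x = 0)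
    (hadj : ∀ u v, B (N u) v = B u (N v)) :
    ∃ U : Submodule F V, finrank F U = finrank F (LinearMap.range N) ∧
      (∀ x : U, (∀ y : U, B (x : V) (N (y : V)) = 0) → x = 0) ∧
      ∀ v : V, ∃ u ∈ U, N (v - u) = 0 := by
  classical
  obtain ⟨U, hU⟩ := Submodule.exists_isCompl (LinearMap.ker N)
  refine ⟨U, ?_, ?_, ?_⟩
  · have h1 := LinearMap.finrank_range_add_finrank_ker N
    have h2 := Submodule.finrank_add_eq_of_isCompl hU
    omega
  · intro x hx
    have h0 : (x : V) ∈ LinearMap.ker N := by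
      rw [LinearMap.mem_ker]
      apply hn
      intro v
      have hv : v ∈ LinearMap.ker N ⊔ U := by rw [hU.sup_eq_top]; trivial
      obtain ⟨k, hk, u, hu, rfl⟩ := Submodule.mem_sup.1 hv
      rw [hadj, map_add, LinearMap.mem_ker.1 hk, zero_add]
      exact hx ⟨u, hu⟩
    have h1 : (x : V) ∈ LinearMap.ker N ⊓ U := ⟨h0, x.2⟩
    rw [hU.inf_eq_bot] at h1
    exact Subtype.ext h1
  · intro v
    have hv : v ∈ LinearMap.ker N ⊔ U := by rw [hU.sup_eq_top]; trivial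
    obtain ⟨k, hk, u, hu, rfl⟩ := Submodule.mem_sup.1 hv
    refine ⟨u, hu, ?_⟩
    rw [add_sub_cancel_right]
    exact LinearMap.mem_ker.1 hk

/-- the swap matrix -/
def sw (m : ℕ) (F : Type*) [Field F] : Matrix (Fin m ⊕ Fin m) (Fin m ⊕ Fin m) F :=
  Matrix.fromBlocks 0 1 1 0

theorem sw_mul_sw (m : ℕ) : sw m F * sw m F = 1 := by
  simp [sw, Matrix.fromBlocks_multiply, Matrix.fromBlocks_one]

theorem sym_of_alt (hA : B.IsAlt) {N : V →ₗ[F] V} (hadj : ∀ u v, B (N u) v = B u (N v)) (u v : V) :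
    B u (N v) = B v (N u) := by
  rw [← hadj u v]
  have h3 := hA.neg_eq (N u) v
  rw [← h3, CharTwo.neg_eq]

theorem diag_eq {N : V →ₗ[F] V} (hadj : ∀ u v, B (N u) v = B u (N v)) {u v : V}
    (huv : N (v - u) = 0) : B v (N v) = B u (N u) := by
  have h1 : N v = N u := by
    have := huv
    rw [map_sub, sub_eq_zero] at this
    exact this
  rw [h1]
  have h2 : B v (N u) = B (v - u) (N u) + B u (N u) := by
    rw [map_sub, LinearMap.sub_apply]
    ring
  rw [h2, ← hadj (v - u), huv, map_zero, LinearMap.zero_apply, zero_add]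

theorem gram_nonalt (hsq : ∀ d : F, ∃ e : F, e * e = d) (hA : B.IsAlt)
    (hn : ∀ x, (∀ y, B x y = 0) → x = 0) {N : V →ₗ[F] V}
    (hadj : ∀ u v, B (N u) v = B u (N v)) (hNN : ∀ v, N (N v) = 0)
    (hna : ∃ v, B v (N v) ≠ 0) {n : ℕ} (hnr : finrank F (LinearMap.range N) = n) :
    ∃ e : Fin n → V, ∀ i j, B (e i) (N (e j)) = (1 : Matrix (Fin n) (Fin n) F) i j := by
  classical
  subst hnr
  obtain ⟨U, hr, hnd, hco⟩ := exists_compl_data hn hadj
  let h : LinearMap.BilinForm F U := (B.compl₂ N).compl₁₂ U.subtype U.subtype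
  have hh : ∀ x y : U, h x y = B (x : V) (N (y : V)) := fun _ _ => rfl
  have hs := sym_of_alt hA hadj
  obtain ⟨e, he⟩ := SF.orthonormal_family hsq (finrank F (LinearMap.range N)) U h hr
    (fun x y => by rw [hh, hh, hs])
    (fun x hx => hnd x (fun y => by rw [← hh]; exact hx y))
    (by
      right
      obtain ⟨v, hv⟩ := hna
      obtain ⟨u, hu, huv⟩ := hco v
      refine ⟨⟨u, hu⟩, ?_⟩
      rw [hh]
      rw [← diag_eq hadj huv]
      exact hv)
  refine ⟨fun i => (e i : V), fun i j => ?_⟩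
  rw [← hh, he, Matrix.one_apply]

theorem gram_alt (hA : B.IsAlt)
    (hn : ∀ x, (∀ y, B x y = 0) → x = 0) {N : V →ₗ[F] V}
    (hadj : ∀ u v, B (N u) v = B u (N v)) (hNN : ∀ v, N (N v) = 0)
    (hal : ∀ v, B v (N v) = 0) :
    ∃ m : ℕ, finrank F (LinearMap.range N) = Fintype.card (Fin m ⊕ Fin m) ∧
      ∃ e : Fin m ⊕ Fin m → V, ∀ i j, B (e i) (N (e j)) = sw m F i j := by
  classical
  obtain ⟨U, hr, hnd, hco⟩ := exists_compl_data hn hadj
  let h : LinearMap.BilinForm F U := (B.compl₂ N).compl₁₂ U.subtype U.subtype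
  have hh : ∀ x y : U, h x y = B (x : V) (N (y : V)) := fun _ _ => rfl
  have hs := sym_of_alt hA hadj
  have hsh : h.IsAlt := fun x => hal (x : V)
  obtain ⟨m, k, b, h1, h2, h3, h4⟩ := Cfsg.Agent.S0752.result h hsh
  have hk : k = 0 := by
    by_contra hk0
    have hkpos : 0 < k := Nat.pos_of_ne_zero hk0
    exact b.ne_zero (Sum.inr ⟨0, hkpos⟩) (hnd _ (fun y => by rw [← hh]; exact h4 _ y))
  subst hk
  refine ⟨m, ?_, ?_⟩
  · rw [← hr, finrank_eq_card_basis b]
    simp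
  · refine ⟨fun i => (b (Sum.inl i) : V), ?_⟩
    rintro (i | i) (j | j)
    · simp only [sw, Matrix.fromBlocks_apply₁₁, Matrix.zero_apply]
      exact h2 i j
    · simp only [sw, Matrix.fromBlocks_apply₁₂, Matrix.one_apply]
      exact h1 i j
    · simp only [sw, Matrix.fromBlocks_apply₂₁, Matrix.one_apply]
      rw [hs]
      have := h1 j i
      rw [hh] at this
      rw [this]
      simp only [eq_comm]
    · simp only [sw, Matrix.fromBlocks_apply₂₂, Matrix.zero_apply]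
      exact h3 i j

/-- The main abstract result: same rank and same type implies conjugate under an isometry. -/
theorem exists_isometry (hsq : ∀ d : F, ∃ e : F, e * e = d) (hA : B.IsAlt)
    (hn : ∀ x, (∀ y, B x y = 0) → x = 0) {N₁ N₂ : V →ₗ[F] V}
    (hadj₁ : ∀ u v, B (N₁ u) v = B u (N₁ v)) (hadj₂ : ∀ u v, B (N₂ u) v = B u (N₂ v))
    (hNN₁ : ∀ v, N₁ (N₁ v) = 0) (hNN₂ : ∀ v, N₂ (N₂ v) = 0)
    (hr : finrank F (LinearMap.range N₁) = finrank F (LinearMap.range N₂))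
    (htype : (∀ v, B v (N₁ v) = 0) ↔ (∀ v, B v (N₂ v) = 0))
    (hWitt : ∀ (X Y : Submodule F V) (φ : X ≃ₗ[F] Y),
      (∀ x x' : X, B (φ x : V) (φ x' : V) = B (x : V) (x' : V)) →
        ∃ g : V ≃ₗ[F] V, (∀ u v : V, B (g u) (g v) = B u v) ∧ ∀ x : X, g (x : V) = (φ x : V)) :
    ∃ g : V ≃ₗ[F] V, (∀ u v : V, B (g u) (g v) = B u v) ∧ ∀ v, g (N₁ v) = N₂ (g v) := by
  classical
  by_cases hal : ∀ v, B v (N₁ v) = 0
  · obtain ⟨m₁, hm₁, e₁, he₁⟩ := gram_alt hA hn hadj₁ hNN₁ hal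
    obtain ⟨m₂, hm₂, e₂, he₂⟩ := gram_alt hA hn hadj₂ hNN₂ (htype.1 hal)
    have hm : m₁ = m₂ := by
      rw [hr, hm₂] at hm₁
      simp only [Fintype.card_sum, Fintype.card_fin] at hm₁
      omega
    subst hm
    exact IW.conj_of_same_gram hadj₁ hadj₂ hNN₁ hNN₂ he₁ he₂ (sw_mul_sw m₁) hm₁ (by rw [← hr]; exact hm₁) hWitt
  · have hal₂ : ¬ ∀ v, B v (N₂ v) = 0 := fun h => hal (htype.2 h)
    push Not at hal hal₂
    obtain ⟨e₁, he₁⟩ := gram_nonalt hsq hA hn hadj₁ hNN₁ hal rfl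
    obtain ⟨e₂, he₂⟩ := gram_nonalt hsq hA hn hadj₂ hNN₂ hal₂ hr.symm
    exact IW.conj_of_same_gram hadj₁ hadj₂ hNN₁ hNN₂ he₁ he₂ (mul_one 1) (by simp) (by simp [hr]) hWitt

end Cfsg.Agent.H09.SPI
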