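import Mathlib

/-! Normal form of a square-zero endomorphism of a finite-dimensional vector space. -/

set_option autoImplicit false

namespace Cfsg.Agent.H09

open Module

variable {F : Type*} [Field F] {V : Type*} [AddCommGroup V] [Module F V] [FiniteDimensional F V]

theorem sq_zero_normal_form (N : V →ₗ[F] V) (hN : ∀ v, N (N v) = 0) (l : ℕ)
    (hl : finrank F (LinearMap.range N) = l) :
    ∃ (m : ℕ) (b : Basis (Fin l ⊕ (Fin l ⊕ Fin m)) F V),
      (∀ i, N (b (Sum.inl i)) = b (Sum.inr (Sum.inl i))) ∧ (∀ x, N (b (Sum.inr x)) = 0) := by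
  classical
  set K := LinearMap.ker N with hK
  set R := LinearMap.range N with hR
  have hRK : R ≤ K := by
    rintro _ ⟨v, rfl⟩
    exact hN v
  obtain ⟨U, hU⟩ := Submodule.exists_isCompl K
  -- `N` restricted to `U`
  let NU : U →ₗ[F] V := N.domRestrict U
  have hNUinj : Function.Injective NU := by
    rw [← LinearMap.ker_eq_bot, eq_bot_iff]
    intro u hu
    have h1 : (u : V) ∈ K := hu
    have h2 : (u : V) ∈ K ⊓ U := ⟨h1, u.2⟩
    rw [hU.inf_eq_bot, Submodule.mem_bot] at h2
    exact (Submodule.mem_bot F).2 (Subtype.ext h2)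
  have hNUrange : LinearMap.range NU = R := by
    refine le_antisymm ?_ ?_
    · rintro _ ⟨u, rfl⟩
      exact ⟨u, rfl⟩
    · rintro _ ⟨v, rfl⟩
      have hv : v ∈ K ⊔ U := by rw [hU.sup_eq_top]; trivial
      obtain ⟨k, hk, u, hu, rfl⟩ := Submodule.mem_sup.1 hv
      refine ⟨⟨u, hu⟩, ?_⟩
      show N u = N (k + u)
      rw [map_add, show N k = 0 from hk, zero_add]
  let τ : U ≃ₗ[F] R := (LinearEquiv.ofInjective NU hNUinj).trans (LinearEquiv.ofEq _ _ hNUrange)
  have hτ : ∀ u : U, ((τ u : R) : V) = N u := fun u => rfl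
  have hfrU : finrank F U = l := by
    rw [τ.finrank_eq, hl]
  let bU : Basis (Fin l) F U := finBasisOfFinrankEq F U hfrU
  let R' : Submodule F K := R.comap K.subtype
  let eR : R' ≃ₗ[F] R := Submodule.comapSubtypeEquivOfLe hRK
  have heR : ∀ x : R', ((eR x : R) : V) = ((x : K) : V) := fun x => rfl
  obtain ⟨W, hW⟩ := Submodule.exists_isCompl R'
  let m := finrank F W
  let bW : Basis (Fin m) F W := finBasisOfFinrankEq F W rfl
  let b₁ : Basis (Fin l) F R' := bU.map (τ.trans eR.symm)
  let bK : Basis (Fin l ⊕ Fin m) F K := (b₁.prod bW).map (Submodule.prodEquivOfIsCompl R' W hW)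
  let B : Basis (Fin l ⊕ (Fin l ⊕ Fin m)) F V :=
    (bU.prod bK).map (Submodule.prodEquivOfIsCompl U K hU.symm)
  have hB1 : ∀ i, B (Sum.inl i) = (bU i : V) := by
    intro i
    simp [B, Basis.prod_apply]
  have hBK : ∀ x, B (Sum.inr x) = (bK x : V) := by
    intro x
    simp [B, Basis.prod_apply]
  have hK1 : ∀ i, ((bK (Sum.inl i) : K) : V) = N (bU i) := by
    intro i
    have : bK (Sum.inl i) = ((b₁ i : R') : K) := by
      simp [bK, Basis.prod_apply]
    rw [this, ← heR]
    simp only [b₁, Basis.map_apply, LinearEquiv.trans_apply, LinearEquiv.apply_symm_apply]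
    exact hτ _
  refine ⟨m, B, ?_, ?_⟩
  · intro i
    rw [hB1, hBK, hK1]
  · intro x
    rw [hBK]
    exact (bK x).2


/-- Square-zero endomorphisms of equal rank are conjugate by an automorphism of determinant one,
when every scalar is a square. -/
theorem exists_conj_of_rank_eq (hsq : ∀ d : F, ∃ e : F, e * e = d) (N N' : V →ₗ[F] V)
    (hN : ∀ v, N (N v) = 0) (hN' : ∀ v, N' (N' v) = 0)
    (hl : finrank F (LinearMap.range N) = finrank F (LinearMap.range N'))
    (hl₀ : 0 < finrank F (LinearMap.range N)) :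
    ∃ T : V ≃ₗ[F] V, LinearMap.det (T : V →ₗ[F] V) = 1 ∧ ∀ v, T (N v) = N' (T v) := by
  classical
  set l := finrank F (LinearMap.range N) with hldef
  obtain ⟨m, B, h1, h2⟩ := sq_zero_normal_form N hN l rfl
  obtain ⟨m', B', h1', h2'⟩ := sq_zero_normal_form N' hN' l hl.symm
  have hcard : l + (l + m) = l + (l + m') := by
    have e1 := finrank_eq_card_basis B
    have e2 := finrank_eq_card_basis B'
    simp only [Fintype.card_sum, Fintype.card_fin] at e1 e2
    omega
  have hmm : m = m' := by omega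
  subst hmm
  let i₀ : Fin l := ⟨0, hl₀⟩
  let T₀ : V ≃ₗ[F] V := B.equiv B' (Equiv.refl _)
  have hdet₀ : LinearMap.det (T₀ : V →ₗ[F] V) = B.det B' := by
    have h3 := Basis.det_comp B (T₀ : V →ₗ[F] V) B
    rw [Basis.det_self, mul_one] at h3
    rw [← h3]
    congr 1
    ext x
    simp [T₀]
  have hdne : B.det B' ≠ 0 := by
    have : IsUnit (B.det B') := (B.isUnit_det B')
    exact this.ne_zero
  obtain ⟨e, he⟩ := hsq (B.det B')⁻¹
  have he0 : e ≠ 0 := by
    intro h
    rw [h, mul_zero] at he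
    exact inv_ne_zero hdne he.symm
  let fi : Fin l → Fˣ := fun i => if i = i₀ then Units.mk0 e he0 else 1
  let w : Fin l ⊕ (Fin l ⊕ Fin m) → Fˣ := fun x => match x with
    | Sum.inl i => fi i
    | Sum.inr (Sum.inl i) => fi i
    | Sum.inr (Sum.inr _) => 1
  let B₂ : Basis (Fin l ⊕ (Fin l ⊕ Fin m)) F V := B'.unitsSMul w
  have hB₂ : ∀ x, B₂ x = (w x : F) • B' x := fun x => by
    simp [B₂, Basis.unitsSMul_apply, Units.smul_def]
  let T : V ≃ₗ[F] V := B.equiv B₂ (Equiv.refl _)
  have hTB : ∀ x, T (B x) = B₂ x := fun x => by simp [T]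
  refine ⟨T, ?_, ?_⟩
  · have h3 := Basis.det_comp B (T : V →ₗ[F] V) B
    rw [Basis.det_self, mul_one] at h3
    rw [← h3]
    have h4 : (T : V →ₗ[F] V) ∘ B = fun x => (w x : F) • B' x := by
      funext x
      show T (B x) = _
      rw [hTB, hB₂]
    rw [h4]
    have h5 := (B.det).map_smul_univ (fun x => (w x : F)) B'
    show B.det (fun x => (w x : F) • B' x) = 1
    rw [h5]
    have h6 : ∏ x, (w x : F) = e * e := by
      rw [Fintype.prod_sum_type, Fintype.prod_sum_type]
      simp only [w, Units.val_one, Finset.prod_const_one, mul_one]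
      have h7 : ∏ i : Fin l, ((fi i : Fˣ) : F) = e := by
        rw [Finset.prod_eq_single i₀]
        · simp [fi]
        · intro b _ hb
          simp [fi, hb]
        · simp
      rw [h7]
    rw [h6, he, smul_eq_mul, inv_mul_cancel₀ hdne]
  · intro v
    have h3 : (T : V →ₗ[F] V) ∘ₗ N = N' ∘ₗ (T : V →ₗ[F] V) := by
      refine B.ext ?_
      intro x
      show T (N (B x)) = N' (T (B x))
      rw [hTB, hB₂]
      rcases x with i | x
      · rw [h1, hTB, hB₂, map_smul, h1']
      · rw [h2, map_zero, map_smul, h2', smul_zero]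
    exact LinearMap.congr_fun h3 v

end Cfsg.Agent.H09
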